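import Mathlib
import Cfsg.Agent.Lib.CKS.Abs2
import Cfsg.Agent.Lib.CKS.Abs3
import Cfsg.Agent.Lib.CKS.How2
import Cfsg.Agent.Lib.MinDeg.Base

/-! CKS, package LT: the long root groups in the simply laced types. -/

namespace CfsgLib.CKS
open Cfsg MulAction

open RGD Twist Stein MinDeg

variable {ι κ B : Type} [Fintype κ] [DecidableEq κ] {Φ : RootSys ι κ} [Finite ι] {F : Type*} [Field F] [Finite F]
  {G : Type*} [Group G] [Finite G] {S : StSys Φ F G} {T : Tw S B} {M : Subgroup G} {p : ℕ} [Fact p.Prime] [CharP F p]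
  {φ : F →+* F} {k q : ℕ} (h : LT T M φ k q) {θ : ι} {i₀ : κ} (hθ : Top T.toSym θ i₀)
  {Ω : Type*} [MulAction M Ω] (H : TwoTr M Ω) (hB : BTr p M Ω)

section Roots

omit [Finite ι] in
theorem lt_radd_s {i : κ} {r : ι} (hr : Φ.wt i r = 1) : RAdd Φ (Φ.s i r) (Φ.simple i) r := fun j => by
  rw [Φ.rt_s, Φ.rt_simple, hr]; split_ifs <;> simp

variable {T₀ : Sym Φ B} (hL : Laced Φ 2) (ht : Top T₀ θ i₀)
include hL ht

theorem lt_pos_s : Φ.Pos (Φ.s i₀ θ) := Φ.pos_s ht.pos fun e => by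
  have := ht.wt₀
  rw [e, Φ.wt_simple, Φ.A_self] at this
  omega

theorem lt_sum_two {β r k : ι} (hβ : Φ.Pos β) (hr : r ∈ ({θ, Φ.s i₀ θ} : Set ι)) (hk : Φ.IsSum β r k) : k = θ := by
  rcases hr with rfl | rfl
  · exact absurd hk (MinDeg.Laced.not_isSum hL (ht.ip_nonneg hL hβ) k)
  have h1 := MinDeg.Laced.radd hL (Φ.ne_neg_of_pos hβ (lt_pos_s hL ht)) hk
  have h2 := lt_radd_s ht.wt₀
  have h3 := h1.ip_left θ
  rw [(MinDeg.Laced.ip_arm hL h2).2.1] at h3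
  have h4 := ht.ip_nonneg hL hβ
  by_cases h5 : 2 ≤ ip Φ k θ
  · exact (MinDeg.Laced.eq_of_ip hL h5).symm
  obtain ⟨s, hs⟩ := MinDeg.Laced.exists_arm hL (γ := θ) (r := k) (by omega)
  have h6 : Φ.Pos s := Φ.pos_iff_not_neg.2 fun e => by
    have := ht.ip_nonneg hL (Φ.pos_neg_iff.2 e)
    rw [ip_neg_left, (MinDeg.Laced.ip_arm hL hs).2.2] at this
    omega
  have h7 : RAdd Φ β s (Φ.simple i₀) := fun j => by
    have := h1 j
    have := h2 j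
    have := hs j
    omega
  exact absurd rfl (h7.isSum.ne_simple hβ h6 i₀)

theorem lt_obt_subset : Obt Φ (Φ.neg θ) ⊆ Φ.Inv (rf Φ θ) := fun β hβ => ⟨hβ.1, ht.neg_of_ip hL (by
  have h1 := ip_comb (k := rf Φ θ β) (r := β) (s := θ) (a := 1) (b := -ip Φ θ β)
    (fun j => by rw [rt_rf θ β (k := ip Φ θ β) (by rw [hL.norm]) j]; ring) θ
  have h2 := hβ.2
  rw [ip_neg_right] at h2
  rw [h1, hL.norm, ip_comm θ β]
  omega)⟩

end Roots

section Group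
include h

omit [Finite F] [Finite G] in
theorem lt_pg [Finite F] {Ψ : Set ι} (hp : ∀ r ∈ Ψ, Φ.Pos r) : IsPGroup p (YY S M Ψ) :=
  ((h.tw.isPGroup_U p).of_equiv (Subgroup.subgroupOfEquivOfLe inf_le_right).symm).to_le
    fun g hg => ⟨S.UU_le_U hp hg, g.2⟩

include hθ

omit [Finite F] [Finite G] in
theorem lt_cls {γ : ι} (hγ : T.ρ γ = γ) {a : M} (ha : a ∈ YY S M {γ}) (h1 : a ≠ 1) :
    a ∈ Cls (YY S M {θ}) := by
  obtain ⟨w, hw, rfl⟩ := hθ.trans hγ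
  obtain ⟨n, -, hn, hna⟩ := h.tw.exists_acts hw
  refine ⟨(⟨n, hn⟩ : M)⁻¹ * a * ⟨n, hn⟩, conj_mem_UU' hw.1 hna (by rintro _ rfl; simp) ha, fun e => h1 ?_,
    ⟨n, hn⟩, by group⟩
  simpa [mul_assoc, inv_mul_eq_one] using e

omit [Finite F] [Finite G] in
theorem lt_isConj {a b : M} (ha : a ∈ Cls (YY S M {θ})) (hb : b ∈ Cls (YY S M {θ})) : IsConj a b := by
  obtain ⟨z, hz, h1, g, rfl⟩ := ha
  obtain ⟨z', hz', h1', g', rfl⟩ := hb
  obtain ⟨t, e : (z : G) = _⟩ := S.mem_X_iff.1 hz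
  obtain ⟨t', e' : (z' : G) = _⟩ := S.mem_X_iff.1 hz'
  obtain ⟨m, -, hm, e2⟩ := h.exists_tor' hθ hθ.fix (e ▸ h.tw.le_fix z.2) (e' ▸ h.tw.le_fix z'.2)
    (fun e0 => h1 (Subtype.ext (by rw [e, e0, S.x_zero]; rfl)))
    (fun e0 => h1' (Subtype.ext (by rw [e', e0, S.x_zero]; rfl)))
  have e3 : (⟨m, hm⟩ : M) * z * (⟨m, hm⟩ : M)⁻¹ = z' := Subtype.ext (by
    rw [e', ← e2, ← e]; rfl)
  refine isConj_iff.2 ⟨g' * ⟨m, hm⟩ * g⁻¹, ?_⟩
  rw [← e3]; group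

omit [Finite F] [Finite G] in
theorem lt_cls_two {a : M} (ha : a ∈ YY S M {θ, Φ.s i₀ θ}) (h1 : a ≠ 1) : a ∈ Cls (YY S M {θ}) := by
  have hL := h.laced
  have hγ : T.ρ (Φ.s i₀ θ) = _ := fixed_apply (s_mem_W1 hθ.π₀) hθ.fix
  have hp := lt_pos_s hL hθ
  have hr := lt_radd_s hθ.wt₀
  have hne : Φ.s i₀ θ ≠ θ := fun e => by
    have := (MinDeg.Laced.ip_arm hL hr).2.1
    rw [e, hL.norm] at this
    omega
  have e : ({Φ.s i₀ θ} : Set ι) ∪ {θ} = {θ, Φ.s i₀ θ} := Set.union_comm _ _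
  have hpos : ∀ r ∈ ({θ, Φ.s i₀ θ} : Set ι), Φ.Pos r := by
    rintro _ (rfl | rfl)
    exacts [hθ.pos, hp]
  obtain ⟨b, hb, z, hz, e'⟩ := T.exists_mul_fix h.tw.sharp (e ▸ hpos)
    (e ▸ fun r hr s hs k hk => Or.inl (lt_sum_two hL hθ (hpos r hr) hs hk)) (StSys.closed_singleton _)
    (StSys.closed_singleton _) (Set.disjoint_singleton.2 hne) (stb_single hγ) (stb_single hθ.fix) (e ▸ ha)
    (h.tw.le_fix a.2)
  have hbM : b ∈ M := h.mem_M (by rintro _ rfl; exact hp) hb.1 hb.2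
  have hzM : z ∈ M := h.mem_M (by rintro _ rfl; exact hθ.pos) hz.1 hz.2
  by_cases hb1 : (⟨b, hbM⟩ : M) = 1
  · refine ⟨a, ?_, h1, 1, by simp⟩
    rw [mem_YY, e', show b = 1 from congrArg Subtype.val hb1, one_mul]
    exact hz.1
  obtain ⟨c, -, e2⟩ := h.conj_YY (h.exact_of_fixed hθ.fix hr) hp hθ.pos (a := ⟨b, hbM⟩) (z := ⟨z, hzM⟩)
    (orb_of_fixed hγ ▸ hb.1) hb1 (orb_of_fixed hθ.fix ▸ hz.1)
  obtain ⟨y, hy, hy1, g, e3⟩ := lt_cls h hθ hγ (a := ⟨b, hbM⟩) hb.1 hb1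
  refine ⟨y, hy, hy1, c * g, ?_⟩
  rw [show a = (⟨b, hbM⟩ : M) * ⟨z, hzM⟩ from Subtype.ext e', ← e2, e3]
  group

omit [Finite G] in
theorem lt_ne_bot {γ : ι} (hγ : T.ρ γ = γ) (hp : Φ.Pos γ) : YY S M {γ} ≠ ⊥ := fun e => by
  have := h.card_YY_single hθ hγ hp
  have := h.two_le
  rw [e, Subgroup.card_bot] at *
  omega

omit [Finite F] [Finite G] in
/-- the elements `x_θ(e)` and `x_{-θ}(-e⁻¹)` of `M` -/
theorem lt_pair : ∃ e : F, e ≠ 0 ∧ S.x θ e ∈ M ∧ S.x (Φ.neg θ) (-e⁻¹) ∈ M ∧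
    (∀ g ∈ S.grp, Commute (S.n θ e ^ 4) g) ∧ ((2 : F) = 0 → S.n θ e ^ 2 = 1) := by
  obtain ⟨w, hw, e⟩ := hθ.trans (simple_fixed hθ.π₀)
  obtain ⟨m, hmN, hm, l, hl, ha⟩ := h.tw.exists_acts (inv_mem hw)
  have e1 : w⁻¹ (Φ.simple i₀) = θ := by rw [← e]; simp
  have e2 : w⁻¹ (Φ.neg (Φ.simple i₀)) = Φ.neg θ := by rw [Φ.apply_neg (inv_mem hw.1), e1]
  have h0 : l (Φ.simple i₀) ≠ 0 := left_ne_zero_of_mul_eq_one (hl _)
  have a1 := ha (Φ.simple i₀) 1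
  have a2 := ha (Φ.neg (Φ.simple i₀)) (-1)
  rw [e1, mul_one] at a1
  rw [e2, ← inv_eq_of_mul_eq_one_right (hl (Φ.simple i₀)), mul_neg, mul_one] at a2
  have a3 : S.n θ (l (Φ.simple i₀)) = m * S.n (Φ.simple i₀) 1 * m⁻¹ := by
    rw [StSys.n, StSys.n, ← a1, ← a2, inv_one]; group
  have a4 : S.n θ (l (Φ.simple i₀)) ^ 2 = m * (S.h (Φ.simple i₀) (-1))⁻¹ * m⁻¹ := by
    rw [a3, S.h_neg_one, conj_pow, pow_two, inv_inv]
  refine ⟨_, h0, a1 ▸ mul_mem (mul_mem hm ?_) (inv_mem hm), a2 ▸ mul_mem (mul_mem hm ?_) (inv_mem hm),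
    fun g hg => ?_, fun h2 => ?_⟩
  · exact h.mem_M_orb (S.x_mem_UU (mem_orb_self _ _) _) (T.x_pos_fix hθ.π₀ (map_one _))
  · exact h.mem_M_orb (S.x_mem_UU (mem_orb_self _ _) _) (T.x_neg_fix hθ.π₀ (by simp))
  · have k : ∀ g ∈ S.grp, (S.h (Φ.simple i₀) (-1) * S.h (Φ.simple i₀) (-1)) * g =
        g * (S.h (Φ.simple i₀) (-1) * S.h (Φ.simple i₀) (-1)) := fun g =>
      StSys.commute_of_commute_x fun r t => by
        have b1 := h.tw.sharp.h_conj i₀ (-1) (by simp) r t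
        have b2 := h.tw.sharp.h_conj i₀ (-1) (by simp) r ((-1) ^ Φ.wt i₀ r * t)
        rw [← b1, ← mul_assoc ((-1 : F) ^ _), ← mul_zpow, neg_mul_neg, one_mul, one_zpow, one_mul] at b2
        rw [← mul_inv_eq_iff_eq_mul]
        refine Eq.trans ?_ b2
        group
    have hmg := S.N_le_grp hmN
    have k2 := k _ (mul_mem (mul_mem (inv_mem hmg) hg) hmg)
    rw [show 4 = 2 * 2 from rfl, pow_mul, a4, pow_two]
    show _ * g = g * _
    calc _ = m * (S.h (Φ.simple i₀) (-1) * S.h (Φ.simple i₀) (-1))⁻¹ * (m⁻¹ * g * m) * m⁻¹ := by group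
      _ = m * ((m⁻¹ * g * m) * (S.h (Φ.simple i₀) (-1) * S.h (Φ.simple i₀) (-1))⁻¹) * m⁻¹ := by
        rw [← (show Commute _ _ from k2).inv_left.eq, mul_assoc m]
      _ = _ := by group
  · rw [a4, show (-1 : F) = 1 by linear_combination (-1) * h2, S.h_one]
    group

omit [Finite F] [Finite G] in
theorem lt_cent {c : F} (hc : c ≠ 0) {y : G} (hy : y ∈ S.UU (Obt Φ (Φ.neg θ)))
    (hyc : Commute y (S.x (Φ.neg θ) c)) : y = 1 := by
  have hL := h.laced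
  have hx : ∀ t, S.x θ t ∈ S.UU (Φ.Inv (rf Φ θ)) := fun t => S.x_mem_UU (lt_obt_subset hL hθ ⟨hθ.pos, by
    rw [ip_neg_right, hL.norm]; omega⟩) t
  have hy' := S.UU_mono (lt_obt_subset hL hθ) hy
  have := (h.nondeg.b_n_u_unique (acts_rf S θ (c := -c⁻¹) (by simpa using hc))
    (mul_mem (S.U_le_B (UU_Inv_le_U S _ hy')) (S.x_mem_B hθ.pos c⁻¹)) (S.x_mem_B hθ.pos c⁻¹) (hx c⁻¹)
    (mul_mem (hx c⁻¹) hy') (by
      have := hyc.eq
      rw [S.x_neg_root_eq θ hc] at this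
      simpa only [mul_assoc] using this)).1
  simpa using this

end Group

include h hθ H hB

theorem lt_semi_two : Semi (YY S M {θ, Φ.s i₀ θ}) Ω := by
  have hL := h.laced
  have hγ : T.ρ (Φ.s i₀ θ) = _ := fixed_apply (s_mem_W1 hθ.π₀) hθ.fix
  have hp := lt_pos_s hL hθ
  have hne : Φ.s i₀ θ ≠ θ := fun e => by
    have := (MinDeg.Laced.ip_arm hL (lt_radd_s hθ.wt₀)).2.1
    rw [e, hL.norm] at this
    omega
  have hpos : ∀ r ∈ ({θ, Φ.s i₀ θ} : Set ι), Φ.Pos r := by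
    rintro _ (rfl | rfl)
    exacts [hθ.pos, hp]
  have hn : ∀ Ψ : Set ι, θ ∈ Ψ → Ψ ⊆ {θ, Φ.s i₀ θ} → ∀ g ∈ (S.B ⊓ M).subgroupOf M, ∀ z ∈ YY S M Ψ,
      g * z * g⁻¹ ∈ YY S M Ψ := fun Ψ h1 h2 g hg z hz => by
    obtain ⟨u, hu, a, ha, e⟩ := S.mem_B_iff.1 hg.1
    have := S.conj_mem_UU (Ψ := {r | Φ.Pos r}) (Ψ' := Ψ) (fun r hr s hs =>
      ⟨Φ.ne_neg_of_pos hr (hpos s (h2 hs)), fun k hk => lt_sum_two hL hθ hr (h2 hs) hk ▸ h1⟩) hu
      (S.H_conj_mem_UU ha (mem_YY.1 hz))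
    have e' : (g : G) = u * a := e
    rw [mem_YY, Subgroup.coe_mul, Subgroup.coe_mul, Subgroup.coe_inv, e']
    simpa only [mul_assoc, mul_inv_rev] using this
  obtain ⟨a, ha, ha1⟩ := h.exists_ne_one hθ hp
  rw [orb_of_fixed hγ] at ha
  obtain ⟨t, e : (a : G) = _⟩ := S.mem_X_iff.1 ha
  have ht : t ≠ 0 := fun e0 => ha1 (Subtype.ext (by rw [e, e0, S.x_zero]; rfl))
  refine H.line (p := p) (hB.trOn_B h.tw) (Z := YY S M {θ})
    (lt_of_le_of_ne (YY_mono (by simp)) fun e' => ?_) (hn _ rfl (by simp)) (hn _ (by simp) subset_rfl)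
    (lt_pg h hpos) (fun t h1 h2 t' h1' h2' =>
      fx_of_isConj (lt_isConj h hθ (lt_cls_two h hθ h1 h2) (lt_cls_two h hθ h1' h2'))) fun hc => ?_
  · obtain ⟨t', e2 : (a : G) = _⟩ := S.mem_X_iff.1 (e'.ge (YY_mono (by simp) ha))
    exact ht (h.tw.sharp.eq_zero_of_x_eq hne (e.symm.trans e2))
  · obtain ⟨z, hz, -, g, e2⟩ := lt_cls h hθ hγ ha ha1
    rw [Subgroup.mem_center_iff.1 (hc hz) g, mul_inv_cancel_right] at e2
    obtain ⟨t', e3 : (a : G) = _⟩ := S.mem_X_iff.1 (e2 ▸ hz)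
    exact ht (h.tw.sharp.eq_zero_of_x_eq hne (e.symm.trans e3))

theorem lt_semi {γ : ι} (hγ : T.ρ γ = γ) : Semi (YY S M {γ}) Ω :=
  ((lt_semi_two h hθ H hB).mono (YY_mono (by simp))).of_cls fun _ => lt_cls h hθ hγ

theorem lt_dvd : q ^ (Φ.ht θ).toNat ∣ Nat.card Ω := by
  classical
  have := H.finite
  have hα := simple_fixed hθ.π₀
  obtain ⟨ψ, hψ⟩ := h.exists_char hθ hα (Φ.pos_simple _)
  have h1 := h.df_top (ρ := permRep M Ω) hθ hψ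
  have h2 := df_top_add (FF S (permRep M Ω) {Φ.simple i₀})
  let := Fintype.ofFinite (YY S M {Φ.simple i₀})
  have h3 := card_mul_fx (ρ := permRep M Ω) (YY S M {Φ.simple i₀})
  rw [Finset.sum_eq_single 1 (fun a _ ha => by
      rw [character_permRep, Nat.cast_eq_zero]
      by_contra h0
      obtain ⟨b, hb⟩ := fx_pos_iff.1 (Nat.pos_of_ne_zero h0)
      exact lt_semi h hθ H hB hα _ a.2 (fun e => ha (Subtype.ext e)) b hb) (by simp),
    character_permRep, OneMemClass.coe_one, fx_one, ← Nat.card_eq_fintype_card,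
    h.card_YY_single hθ hα (Φ.pos_simple _)] at h3
  have h4 : q * Module.finrank ℂ (FF S (permRep M Ω) {Φ.simple i₀}) = Nat.card Ω := by exact_mod_cast h3
  rw [finrank_perm, h1, ← h4] at h2
  have h5 := h.two_le
  have h6 := Φ.ht_pos hθ.pos
  obtain ⟨q', rfl⟩ : ∃ q', q = q' + 1 := ⟨q - 1, by omega⟩
  rw [Nat.add_sub_cancel, add_mul, one_mul, add_left_inj, mul_left_comm] at h2
  rw [← h4, ← Nat.eq_of_mul_eq_mul_left (by omega) h2, show (Φ.ht θ).toNat = (Φ.ht θ - 1).toNat + 1 by omega,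
    pow_succ', ← mul_assoc]
  exact dvd_mul_right _ _

theorem lt_num [Fintype {γ // T.ρ γ = γ}] :
    ∃ s, (Nat.card Ω - 1) * s = (∑ γ : {γ // T.ρ γ = γ}, q ^ (Obt Φ γ).ncard) * (q - 1) ∧
      ∀ j, Nat.card Ω = p ^ j → ∃ u : M, 0 < fx Ω u ∧ (∀ g ∈ YY S M {r | ip Φ r θ = 0}, Commute g u) ∧
        q ^ (2 * (Φ.ht θ).toNat - 1) * fx Ω u + Nat.card Ω ≤ Nat.card Ω * s := by
  have := H.finite
  have hL := h.laced
  have hp : p.Prime := Fact.out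
  obtain ⟨s, hs, hY⟩ := H.numZ_pairY (P := (Subgroup.normalizer (S.X θ : Set G)).subgroupOf M) (Z := YY S M {θ})
    (fun g hg z hz => (Subgroup.mem_normalizer_iff.1 hg _).1 hz) (lt_semi h hθ H hB hθ.fix)
  rw [h.index_eq hθ, h.card_YY_single hθ hθ.fix hθ.pos] at hs
  refine ⟨s, hs, fun j hj => ?_⟩
  obtain ⟨e, he, hA, hB', h4, h2⟩ := lt_pair h hθ
  have hθ' : T.ρ (Φ.neg θ) = Φ.neg θ := by rw [T.ρ_neg, hθ.fix]
  set a : M := ⟨_, hA⟩ with ha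
  set b : M := ⟨_, hB'⟩ with hb
  have haZ : a ∈ YY S M {θ} := S.x_mem_X _ _
  have hn : ((a * b * a : M) : G) = S.n θ e := rfl
  obtain ⟨t, htZ, ht1, ht⟩ : ∃ t ∈ YY S M {θ}, t ≠ 1 ∧ 0 < fx Ω (t⁻¹ * b) := by
    by_cases h0 : p = 2
    · refine ⟨a⁻¹, inv_mem haZ, fun e1 => he (h.nondeg.eq_zero_of_x_eq_one
        (congrArg Subtype.val (inv_eq_one.1 e1))), fx_pos (r := 3) (j := 1) Nat.prime_three (fun e => ?_) fun x => ?_⟩
      · rw [hj, h0] at e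
        exact absurd (Nat.prime_three.dvd_of_dvd_pow e) (by decide)
      · have e1 : a * b * a = b * a * b := Subtype.ext (hn.trans (n_eq_neg h.nondeg θ he))
        have e2 : (a * b * a) ^ 2 = 1 := Subtype.ext (by
          rw [Subgroup.coe_pow, hn]
          exact h2 (by have := CharP.cast_eq_zero F p; rwa [h0] at this))
        rw [inv_inv, pow_one, braid_cube e1, e2, one_smul]
    · refine ⟨(a * a)⁻¹, inv_mem (mul_mem haZ haZ), fun e1 => ?_,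
        fx_pos (r := 2) (j := 2) Nat.prime_two (fun e => ?_) fun x => ?_⟩
      · have e2 : S.x θ e * S.x θ e = 1 := congrArg Subtype.val (inv_eq_one.1 e1)
        rw [← S.x_add] at e2
        have e3 := h.nondeg.eq_zero_of_x_eq_one e2
        rw [← two_mul, mul_eq_zero] at e3
        have e4 : ((2 : ℕ) : F) = 0 := by exact_mod_cast e3.resolve_right he
        exact h0 ((Nat.prime_dvd_prime_iff_eq hp Nat.prime_two).1 ((CharP.cast_eq_zero_iff F p 2).1 e4))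
      · rw [hj] at e
        exact h0 ((Nat.prime_dvd_prime_iff_eq Nat.prime_two hp).1 (Nat.prime_two.dvd_of_dvd_pow e)).symm
      · rw [inv_inv, braid_conj, conj_pow]
        refine H.center_smul (Subgroup.Normal.conj_mem inferInstance _ (Subgroup.mem_center_iff.2 fun g => ?_) a) x
        refine Subtype.ext ?_
        rw [Subgroup.coe_mul, Subgroup.coe_mul, Subgroup.coe_pow, hn]
        exact (h4 g (h.tw.le_fix g.2).1).symm.eq
  have he' : -e⁻¹ ≠ 0 := by simpa using he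
  have hb1 : b ≠ 1 := fun e1 => he' (h.nondeg.eq_zero_of_x_eq_one (congrArg Subtype.val e1))
  have hcard : Nat.card (YY S M (Obt Φ (Φ.neg θ))) = q ^ (2 * (Φ.ht θ).toNat - 1) := by
    rw [h.card_YY hθ (fun _ e => e.1) (closed_obt _)
      fun β hβ => ⟨T.pos_ρ hβ.1, by rw [← hθ', h.ip_ρ]; exact hβ.2⟩]
    have h1 := hθ.ncard_obt hL hθ'
    rw [if_neg (Φ.not_pos_of_neg (Φ.neg_neg_iff.2 hθ.pos)), Φ.ht_neg] at h1
    congr 1
    omega
  refine ⟨_, ht, fun g hg => ?_, hcard ▸ hY t ⟨t, htZ, ht1, 1, by simp⟩ b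
    (lt_cls h hθ hθ' (S.x_mem_X _ _) hb1) (fun e1 => ?_) _ (fun y hy => ?_) fun y hy hc => ?_⟩
  · refine Subtype.ext (commute_of_cm (Ψ' := {θ, Φ.neg θ}) ?_ hg
      (mul_mem (inv_mem (S.UU_mono (by simp) htZ)) (S.x_mem_UU (by simp) _))).eq
    rintro r hr _ (rfl | rfl)
    · exact hL.cm hr.ge
    · exact hL.cm (by rw [ip_neg_right, hr]; rfl)
  · obtain ⟨c, e2 : (b : G) = _⟩ := S.mem_X_iff.1 (e1 ▸ htZ)
    exact he' (h.tw.sharp.eq_zero_of_x_eq (Φ.neg_ne θ) e2)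
  · refine Subtype.ext (commute_of_cm ?_ hy htZ).eq
    rintro r hr _ rfl
    exact hL.cm (hθ.ip_nonneg hL hr.1)
  · exact Subtype.ext (lt_cent h hθ he' hy (congrArg Subtype.val hc.eq))

theorem lt_fx {γ δ δ' : ι} (hγ : T.ρ γ = γ) (hp : Φ.Pos γ) (hδ : Φ.Pos δ) (hr : RAdd Φ δ δ' γ) (h1 : ip Φ δ θ = 0)
    (h2 : ip Φ δ' θ = 0) {u : M} (hu : ∀ g ∈ YY S M {r | ip Φ r θ = 0}, Commute g u) : q ^ 2 ∣ fx Ω u := by
  have := H.finite
  have he := h.exact_of_fixed hγ hr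
  have k : ∀ {r}, ip Φ r θ = 0 → ∀ g ∈ YY S M (orb T.toSym r), Commute g u := fun hr g hg =>
    hu g (YY_mono (fun s hs => (h.ip_orb_fixed hθ.fix hs).trans hr) hg)
  have h3 := heis_fx (p := p) (Ω := Ω) (A := YY S M (orb T.toSym δ)) (Z := YY S M {γ})
    (lt_pg h fun _ => h.pos_orb hδ) (lt_pg h (by rintro _ rfl; exact hp))
    (fun a ha z hz => Subtype.ext (commute_of_cm (Ψ := {γ}) (by
      rintro _ rfl s hs; exact h.laced.cm (he.2.2.1 s hs)) hz ha).eq.symm) (k h1)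
    (orb_of_fixed hγ ▸ k (by rw [hr.ip_left, h1, h2, add_zero])) (fun a ha hne z hz => by
      obtain ⟨b, hb, e⟩ := h.conj_YY he hδ hp ha hne (orb_of_fixed hγ ▸ hz)
      exact ⟨b, k h2 b hb, e⟩) (lt_semi h hθ H hB hγ) (lt_ne_bot h hθ hγ hp)
  rw [h.card_YY_orb hθ hδ, h.card_YY_single hθ hγ hp, ← pow_succ] at h3
  have h4 : 0 < (orb T.toSym δ).ncard := (Set.ncard_pos (Set.toFinite _)).2 ⟨_, mem_orb_self _ _⟩
  exact (pow_dvd_pow q (by omega)).trans h3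

end CfsgLib.CKS
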