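import Mathlib
import Cfsg.Agent.Lib.CKS.Lt
import Cfsg.Agent.Lib.MinDeg.D4

/-! CKS, package D4: the type ³D₄. -/

namespace CfsgLib.CKS
open Cfsg MulAction

theorem card_le_of_cen {M Ω : Type*} [Group M] [Finite M] [MulAction M Ω] {U T R E : Subgroup M} {a : Ω}
    (sm : Semi T Ω) (ha : ∀ e ∈ E, e • a = a) (hc : ∀ g ∈ U, ∀ e ∈ E, g⁻¹ * e⁻¹ * g * e ∈ T)
    (hR : ∀ g ∈ U, (∀ e ∈ E, Commute g e) → g ∈ R) (hT : T ≤ R) :
    Nat.card ↥(U ⊓ stabilizer M a) * Nat.card T ≤ Nat.card R := by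
  have d : Disjoint (U ⊓ stabilizer M a) T :=
    Subgroup.disjoint_def.2 fun h1 h2 => by_contra fun e => sm _ h2 e a h1.2
  have k1 : ∀ g ∈ U ⊓ stabilizer M a, g ∈ R := fun g hg => hR g hg.1 fun e he => by
    have k0 : g ∈ stabilizer M a := hg.2
    have k1 : e ∈ stabilizer M a := ha e he
    have k2 : g⁻¹ * e⁻¹ * g * e = 1 := by_contra fun e' => sm _ (hc g hg.1 e he) e' a
      (mul_mem (mul_mem (mul_mem (inv_mem k0) (inv_mem k1)) k0) k1)
    change g * e = e * g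
    rw [show g * e = e * g * (g⁻¹ * e⁻¹ * g * e) by group, k2, mul_one]
  rw [← Nat.card_prod]
  exact Nat.card_le_card_of_injective (fun x => ⟨x.1 * x.2, mul_mem (k1 _ x.1.2) (hT x.2.2)⟩)
    fun x y e => Subgroup.mul_injective_of_disjoint d (congrArg Subtype.val e)

section abstract
open RGD Twist Stein MinDeg

variable {ι κ B : Type} [Fintype κ] [DecidableEq κ] {Φ : RootSys ι κ} {F : Type*} [Field F]
  {G : Type*} [Group G] {S : StSys Φ F G}

/-- the sums of roots of `A` and `B` lie in `C` -/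
def SumIn (Φ : RootSys ι κ) (A B C : Set ι) : Prop := ∀ r ∈ A, ∀ s ∈ B, s ≠ Φ.neg r ∧ ∀ k, Φ.IsSum r s k → k ∈ C

theorem comm_UU {A E K : Set ι} (h1 : SumIn Φ E A K) (h2 : SumIn Φ A K K) (h3 : SumIn Φ E K K) {g e : G}
    (hg : g ∈ S.UU A) (he : e ∈ S.UU E) : g⁻¹ * e⁻¹ * g * e ∈ S.UU K := by
  refine S.UU_induction (p := fun e => g⁻¹ * e⁻¹ * g * e ∈ S.UU K) (by simp) ?_ he
  intro r hr t u _ ih
  rw [show g⁻¹ * (u * S.x r t)⁻¹ * g * (u * S.x r t) = (g⁻¹ * (S.x r t)⁻¹ * g * S.x r t) *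
    ((S.x r t)⁻¹ * (g⁻¹ * u⁻¹ * g * u) * S.x r t) by group]
  exact mul_mem (S.comm_mem_UU_of_mem (h1 r hr) h2 hg t) (S.inv_conj_mem_UU h3 (S.x_mem_UU hr t) ih)

variable [Finite ι] [Finite G] {T : Tw S B} {M : Subgroup G} {φ : F →+* F} {k q : ℕ} (h : LT T M φ k q)
  {θ : ι} {i₀ : κ} (hθ : Top T.toSym θ i₀)
include h hθ

theorem card_cen {r s γ : ι} (hγ : T.ρ γ = γ) (he : RAdd Φ r s γ) (hr : Φ.Pos r) (hp : Φ.Pos γ) {y : M}
    (hy : y ∈ YY S M (orb T.toSym r)) (h1 : y ≠ 1) {E : Subgroup M} (hE : E ≤ YY S M (orb T.toSym s))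
    (hc : ∀ e ∈ E, Commute y e) : Nat.card E * q ≤ Nat.card (YY S M (orb T.toSym s)) := by
  choose b hb1 hb2 using fun z : YY S M {γ} => h.conj_YY (h.exact_of_fixed hγ he) hr hp hy h1 (z := z)
    (by rw [orb_of_fixed hγ]; exact z.2)
  rw [← h.card_YY_single hθ hγ hp, ← Nat.card_prod]
  have k : ∀ (e : E) z, b z * e * y * (b z * e)⁻¹ = y * z := fun e z => by
    rw [← hb2, mul_assoc (b z), ← (hc e e.2).eq]; group
  refine Nat.card_le_card_of_injective (fun x => ⟨b x.2 * x.1, mul_mem (hb1 _) (hE x.1.2)⟩) ?_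
  rintro ⟨e, z⟩ ⟨e', z'⟩ a
  have a' : b z * e = b z' * e' := congrArg Subtype.val a
  obtain rfl : z = z' := Subtype.ext (mul_left_cancel (a := y) (by rw [← k e, ← k e', a']))
  rw [Subtype.ext (mul_left_cancel a')]

theorem cen_step {r s γ : ι} (hγ : T.ρ γ = γ) (he : RAdd Φ r s γ) (hr : Φ.Pos r) (hp : Φ.Pos γ) {Q K : Set ι}
    (p1 : ∀ a ∈ orb T.toSym r ∪ Q, Φ.Pos a) (c1 : Φ.Closed (orb T.toSym r ∪ Q)) (c2 : Φ.Closed Q)
    (d1 : Disjoint (orb T.toSym r) Q) (s1 : Stb T.toSym Q) (p2 : ∀ a ∈ K, Φ.Pos a) (c3 : Φ.Closed K) (d2 : γ ∉ K)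
    (a1 : SumIn Φ (orb T.toSym s) (orb T.toSym r) {γ}) (a2 : SumIn Φ (orb T.toSym r) {γ} {γ})
    (a3 : SumIn Φ (orb T.toSym s) {γ} {γ}) (b1 : SumIn Φ (orb T.toSym s) Q K) (b2 : SumIn Φ Q K K)
    (b3 : SumIn Φ (orb T.toSym s) K K) {E : Subgroup M} (hE : E ≤ YY S M (orb T.toSym s))
    (hq : Nat.card (YY S M (orb T.toSym s)) < Nat.card E * q) {g : M} (hg : g ∈ YY S M (orb T.toSym r ∪ Q))
    (hc : ∀ e ∈ E, Commute g e) : g ∈ YY S M Q := by
  obtain ⟨y, hy, u, hu, e⟩ := T.exists_mul_fix h.tw.sharp p1 c1 (h.closed_orb subset_rfl) c2 d1 (h.stb_orb r) s1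
    (g := (g : G)) hg (h.tw.le_fix g.2)
  by_cases h1 : y = 1
  · rw [mem_YY, e, h1, one_mul]; exact hu.1
  refine absurd (card_cen h hθ hγ he hr hp (y := ⟨y, h.mem_M_orb hy.1 hy.2⟩) hy.1
    (fun e => h1 (congrArg Subtype.val e)) hE fun x hx => Subtype.ext ?_) hq.not_ge
  have k1 := comm_UU a1 a2 a3 hy.1 (e := (x : G)) (hE hx)
  have k2 := S.conj_mem_UU b2 hu.1 (comm_UU b1 b2 b3 hu.1 (e := (x : G)) (hE hx))
  have k3 : y * u * x = x * (y * u) := e ▸ congrArg Subtype.val (hc x hx).eq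
  have k4 : y⁻¹ * (x : G)⁻¹ * y * x = (u * (u⁻¹ * (x : G)⁻¹ * u * x) * u⁻¹)⁻¹ := by
    rw [show (u * (u⁻¹ * (x : G)⁻¹ * u * x) * u⁻¹)⁻¹ = y⁻¹ * (x : G)⁻¹ * (x * (y * u)) * ((x : G)⁻¹ * u⁻¹ * x) by group,
      ← k3]
    group
  have k5 := h.tw.sharp.eq_one_of_disjoint (by rintro _ rfl; exact hp) p2
    (by rw [← orb_of_fixed hγ]; exact h.closed_orb subset_rfl) c3 (Set.disjoint_singleton_left.2 d2) k1
    (k4 ▸ inv_mem k2)
  change y * x = x * y
  rw [show y * x = x * y * (y⁻¹ * (x : G)⁻¹ * y * x) by group, k5, mul_one]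

end abstract

section D4
open Lie RGD Twist Stein MinDeg Weyl Chev

/-- a set of roots of `D₄` -/
def RS (L : List ℕ) : Set (Fin chevD4.nroots) := {r | r.1 ∈ L}

/-- the test for `SumIn` -/
def Sm (A B C : List ℕ) : Prop := (∀ r ∈ A, 12 ≤ r) ∧ (∀ r ∈ B, 12 ≤ r) ∧ ∀ r : Fin chevD4.nroots, r.1 ∈ A →
  ∀ s : Fin chevD4.nroots, s.1 ∈ B → ∀ k, RAdd (rootSys rtOKD4) r s k → k.1 ∈ C

instance (A B C : List ℕ) : Decidable (Sm A B C) := by unfold Sm; infer_instance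

theorem pos_RS {A : List ℕ} (h : ∀ r ∈ A, 12 ≤ r) : ∀ r ∈ RS A, (rootSys rtOKD4).Pos r := fun r hr =>
  (pos_iff_le _).2 (show 24 ≤ 2 * r.1 by have := h r hr; omega)

theorem Sm.spec {A B C : List ℕ} (h : Sm A B C) : SumIn (rootSys rtOKD4) (RS A) (RS B) (RS C) := fun r hr s hs =>
  have k := (rootSys rtOKD4).ne_neg_of_pos (pos_RS h.1 r hr) (pos_RS h.2.1 s hs)
  ⟨k, fun c hc => h.2.2 r hr s hs c (Laced.radd (fitD4.laced (by decide +kernel)) k hc)⟩

theorem Sm.closed {A : List ℕ} (h : Sm A A A) : (rootSys rtOKD4).Closed (RS A) := fun r hr s hs =>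
  (h.spec r hr s hs).2

theorem forall_RS {L : List ℕ} {P : Fin chevD4.nroots → Prop} (h : ∀ r, r.1 ∈ L → P r) : ∀ r ∈ RS L, P r := h

theorem stb_RS {L : List ℕ} (h : ∀ r : Fin chevD4.nroots, r.1 ∈ L → (symD4.ρ r).1 ∈ L) : Stb symD4 (RS L) := h

theorem RS_mono {A B : List ℕ} (h : ∀ r ∈ A, r ∈ B) : RS A ⊆ RS B := fun _ hr => h _ hr

theorem ncard_RS (L : List ℕ) : (RS L).ncard = (Finset.univ.filter fun r : Fin chevD4.nroots => r.1 ∈ L).card := by
  rw [← Set.ncard_coe_finset]; congr 1; ext; simp [RS]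

theorem orb_a : orb symD4 (rtD4 12) = RS [12, 13, 18] :=
  Set.ext (by simp only [orb, RS, Set.mem_setOf_eq]; decide +kernel)

theorem orb_b : orb symD4 (rtD4 15) = RS [15, 16, 19] :=
  Set.ext (by simp only [orb, RS, Set.mem_setOf_eq]; decide +kernel)

theorem orb_c : orb symD4 (rtD4 21) = RS [17, 20, 21] :=
  Set.ext (by simp only [orb, RS, Set.mem_setOf_eq]; decide +kernel)

theorem RS_single (r : Fin 24) : {rtD4 r} = RS [r] := Set.ext fun _ => Fin.ext_iff.trans List.mem_singleton.symm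

theorem RS_union (A B : List ℕ) : RS A ∪ RS B = RS (A ++ B) := Set.ext fun s => by simp [RS]

theorem RS_pos : {r | (rootSys rtOKD4).Pos r} = RS ([12, 13, 18] ++ [14, 15, 16, 17, 19, 20, 21, 22, 23]) :=
  Set.ext fun r => by
    simp only [Set.mem_setOf_eq, pos_iff_le, RS]; revert r; decide +kernel

variable {K : Type} [Field K] [Fintype K] {q : ℕ} {φ : K →+* K} (hφ : ∀ t, φ t = t ^ q) (hK : Fintype.card K = q ^ 3)
include hφ hK

theorem card_RS {L : List ℕ} {n : ℕ} (H : Sm L L L ∧ (∀ r : Fin chevD4.nroots, r.1 ∈ L → (symD4.ρ r).1 ∈ L) ∧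
    (Finset.univ.filter fun r : Fin chevD4.nroots => r.1 ∈ L).card = n) :
    Nat.card (YY (stSys rtOKD4 K) (twistedD4 K q) (RS L)) = q ^ n := by
  rw [(ltD4 hφ hK).card_YY topD4 (pos_RS H.1.1) H.1.closed H.2.1, ncard_RS, H.2.2]

theorem cenD4 {E : Subgroup (twistedD4 K q)} (hE : E ≤ YY (stSys rtOKD4 K) _ (RS [17, 20, 21]))
    (hq : q ^ 3 < Nat.card E * q) {g : twistedD4 K q}
    (hg : g ∈ YY (stSys rtOKD4 K) _ {r | (rootSys rtOKD4).Pos r}) (hc : ∀ e ∈ E, Commute g e) :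
    g ∈ YY (stSys rtOKD4 K) _ (RS [14, 17, 20, 21, 22, 23]) := by
  have h := ltD4 hφ hK
  have pos : ∀ r : Fin 24, 12 ≤ r.1 → (rootSys rtOKD4).Pos (rtD4 r) := fun r hr =>
    (pos_iff_le _).2 (show 24 ≤ 2 * r.1 by omega)
  rw [← card_RS hφ hK (L := [17, 20, 21]) (by decide +kernel)] at hq
  have oa : orb (twD4 φ).toSym (rtD4 12) = _ := orb_a
  have ob : orb (twD4 φ).toSym (rtD4 15) = _ := orb_b
  have oc : orb (twD4 φ).toSym (rtD4 21) = _ := orb_c
  have k1 := cen_step h topD4 (r := rtD4 12) (s := rtD4 21) (γ := rtD4 22)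
    (Q := RS [14, 15, 16, 17, 19, 20, 21, 22, 23]) (K := RS [23]) (E := E) (g := g)
    (show symD4.ρ _ = _ by decide +kernel) (by decide +kernel) (pos _ (by decide)) (pos _ (by decide))
  rw [oa, oc, RS_union, RS_single] at k1
  replace k1 := k1 (pos_RS (by decide)) (Sm.closed (by decide +kernel)) (Sm.closed (by decide +kernel))
    (Set.disjoint_left.2 (by simp only [RS, Set.mem_setOf_eq]; decide +kernel))
    (stb_RS (by decide +kernel)) (pos_RS (by decide))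
    (Sm.closed (by decide +kernel)) (show ¬ (22 ∈ [23]) by decide) (Sm.spec (by decide +kernel))
    (Sm.spec (by decide +kernel)) (Sm.spec (by decide +kernel)) (Sm.spec (by decide +kernel))
    (Sm.spec (by decide +kernel)) (Sm.spec (by decide +kernel)) hE hq (RS_pos ▸ hg) hc
  have k2 := cen_step h topD4 (r := rtD4 15) (s := rtD4 21) (γ := rtD4 23)
    (Q := RS [14, 17, 20, 21, 22, 23]) (K := RS []) (E := E) (g := g)
    (show symD4.ρ _ = _ by decide +kernel) (by decide +kernel) (pos _ (by decide)) (pos _ (by decide))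
  rw [ob, oc, RS_union, RS_single] at k2
  exact k2 (pos_RS (by decide)) (Sm.closed (by decide +kernel)) (Sm.closed (by decide +kernel))
    (Set.disjoint_left.2 (by simp only [RS, Set.mem_setOf_eq]; decide +kernel))
    (stb_RS (by decide +kernel)) (pos_RS (by decide))
    (Sm.closed (by decide +kernel)) (show ¬ (23 ∈ []) by decide) (Sm.spec (by decide +kernel))
    (Sm.spec (by decide +kernel)) (Sm.spec (by decide +kernel)) (Sm.spec (by decide +kernel))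
    (Sm.spec (by decide +kernel)) (Sm.spec (by decide +kernel)) hE hq
    (YY_mono (RS_mono (by decide)) k1) hc

theorem endD4 {p : ℕ} [Fact p.Prime] [CharP K p] {Ω : Type*} [MulAction (twistedD4 K q) Ω]
    (H : TwoTr (twistedD4 K q) Ω) (hB : BTr p (twistedD4 K q) Ω) {j : ℕ} (hj : Nat.card Ω = p ^ j)
    (hn : Nat.card Ω = q ^ 6) {E : Subgroup (twistedD4 K q)} (hE : E ≤ YY (stSys rtOKD4 K) _ (RS [17, 20, 21]))
    (hq : q ^ 3 < Nat.card E * q) {a : Ω} (ha : ∀ e ∈ E, e • a = a) : False := by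
  have h := ltD4 hφ hK
  have q2 := h.two_le
  have tr : TrOn (YY (stSys rtOKD4 K) (twistedD4 K q) {r | (rootSys rtOKD4).Pos r}) Ω :=
    trOn_of_pow H.trans hj (by
      have := h.tw.not_dvd_relIndex p
      rwa [Subgroup.inf_relIndex_right] at this)
  have c1 := tr.card_inf_stab a
  rw [hn, RS_pos, card_RS hφ hK (n := 12) (by decide +kernel), ← RS_pos, show q ^ 12 = q ^ 6 * q ^ 6 by ring] at c1
  replace c1 := Nat.eq_of_mul_eq_mul_right (by positivity) c1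
  have sm := lt_semi_two h topD4 H hB
  rw [show ({rtD4 23, (rootSys rtOKD4).s (ndD4 1) (rtD4 23)} : Set _) = RS [22, 23] from Set.ext (by
    simp only [Set.mem_insert_iff, Set.mem_singleton_iff, Fin.ext_iff, fitD4.s, RS, Set.mem_setOf_eq]
    decide +kernel)] at sm
  have k2 := card_le_of_cen (U := YY (stSys rtOKD4 K) (twistedD4 K q) {r | (rootSys rtOKD4).Pos r}) sm ha
    (fun g hg e he => by
      rw [RS_pos] at hg
      exact comm_UU (Sm.spec (by decide +kernel)) (Sm.spec (by decide +kernel)) (Sm.spec (by decide +kernel))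
        (mem_YY.1 hg) (mem_YY.1 (hE he)))
    (fun g hg => cenD4 hφ hK hE hq hg) (YY_mono (RS_mono (by decide)))
  rw [c1, card_RS hφ hK (n := 2) (by decide +kernel), card_RS hφ hK (n := 6) (by decide +kernel)] at k2
  rw [← pow_add] at k2
  exact absurd ((Nat.pow_le_pow_iff_right q2).1 k2) (by decide)

theorem subD4 {Ω : Type*} [MulAction (twistedD4 K q) Ω] [Finite Ω] {u : twistedD4 K q} (h0 : 0 < fx Ω u)
    (h1 : fx Ω u < q) (hu : ∀ g ∈ YY (stSys rtOKD4 K) _ {r | ip (rootSys rtOKD4) r (rtD4 23) = 0}, Commute g u) :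
    ∃ E ≤ YY (stSys rtOKD4 K) (twistedD4 K q) (RS [17, 20, 21]), q ^ 3 < Nat.card E * q ∧
      ∃ a : Ω, ∀ e ∈ E, e • a = a := by
  have h := ltD4 hφ hK
  obtain ⟨a, ha⟩ := fx_pos_iff.1 h0
  obtain ⟨n, -, hn, hw⟩ := h.tw.exists_acts (mul_mem (symD4.sw_mem 1) (symD4.sw_mem 0))
  set A := YY (stSys rtOKD4 K) (twistedD4 K q) (RS [12, 13, 18])
  have c1 := (stabilizer A a).card_mul_index
  rw [index_stabilizer, card_RS hφ hK (n := 3) (by decide +kernel)] at c1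
  have c2 : (orbit A a).ncard ≤ fx Ω u := Set.ncard_le_ncard (by
    rintro _ ⟨g, rfl⟩
    have := hu g (YY_mono (forall_RS (by simp only [Set.mem_setOf_eq, fitD4.ip]; decide +kernel)) g.2)
    change u • (g : twistedD4 K q) • a = (g : twistedD4 K q) • a
    rw [← mul_smul, ← this.eq, mul_smul, ha])
  refine ⟨(stabilizer A a).map ((MulAut.conj (⟨n, hn⟩ : twistedD4 K q)).toMonoidHom.comp A.subtype), ?_, ?_,
    (⟨n, hn⟩ : twistedD4 K q) • a, ?_⟩
  · rintro _ ⟨g, -, rfl⟩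
    refine hw.conj_mem_UU (Ψ := RS [12, 13, 18]) (forall_RS ?_) g.2
    simp only [RS, Set.mem_setOf_eq, Equiv.Perm.mul_apply, swD4]
    decide +kernel
  · rw [Subgroup.card_map_of_injective ((MulAut.conj _).injective.comp A.subtype_injective), ← c1]
    exact Nat.mul_lt_mul_of_pos_left (c2.trans_lt h1) Nat.card_pos
  · rintro _ ⟨g, hg, rfl⟩
    change ((⟨n, hn⟩ : twistedD4 K q) * g * (⟨n, hn⟩ : twistedD4 K q)⁻¹) • _ = _
    rw [mul_smul, inv_smul_smul, mul_smul]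
    exact congrArg _ hg

end D4

theorem arithD4 {q n s : ℕ} (hq : 2 ≤ q) (hn : 2 ≤ n) (h1 : q ^ 5 ∣ n)
    (h2 : (n - 1) * s = ([9, 8, 5, 4, 1, 0].map (q ^ ·)).sum * (q - 1)) : n = q ^ 6 ∧ s + q ^ 2 = q ^ 4 + 1 := by
  obtain ⟨a, rfl⟩ : ∃ a, q = a + 2 := ⟨q - 2, by omega⟩
  have e1 : (a + 2) ^ 5 * (a + 2) - 1 = a ^ 6 + 12 * a ^ 5 + 60 * a ^ 4 + 160 * a ^ 3 + 240 * a ^ 2 + 192 * a + 63 :=
    Nat.sub_eq_of_eq_add (by ring)
  obtain ⟨k1, k2⟩ | ⟨m, j, k1, k2, k3, -, -, k4⟩ := arith (s := s) (e := a + 2)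
    (t := a ^ 4 + 8 * a ^ 3 + 23 * a ^ 2 + 28 * a + 13) h1 hn (by positivity)
    (by ring_nf; omega) (by omega) (by
      rw [h2, e1, show a + 2 - 1 = a + 1 from rfl]
      simp only [List.map, List.sum_cons, List.sum_nil]; ring)
  · exact ⟨by rw [k1]; ring, by rw [k2]; ring⟩
  · have a1 : (a + 2) ^ 5 - 1 ≤ j * ((a + 2) ^ 5 * m - 1) :=
      (Nat.sub_le_sub_right (Nat.le_mul_of_pos_right _ k2) 1).trans (Nat.le_mul_of_pos_left _ k1)
    have a2 := Nat.mul_le_mul_left (a ^ 4 + 8 * a ^ 3 + 23 * a ^ 2 + 28 * a + 13) (show a + 2 - m ≤ a + 1 by omega)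
    rw [← k4] at a2
    have := a1.trans a2
    rw [Nat.sub_le_iff_le_add] at this
    ring_nf at this
    omega

variable {p : ℕ} [Fact p.Prime] {F : Type} [Field F] [Fintype F] [CharP F p] {Ω : Type*}

open Lie RGD Twist Stein MinDeg Weyl Chev in
theorem td4 {q : ℕ} (hq : IsPrimePow q) (hF : Fintype.card F = q ^ 3) [MulAction (Lie.twistedD4 F q) Ω]
    (H : TwoTr (Lie.twistedD4 F q) Ω) (hB : BTr p (Lie.twistedD4 F q) Ω) : False := by
  classical
  obtain ⟨φ, hφ⟩ := exists_frob hq hF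
  have h := ltD4 hφ hF
  have := H.finite
  have q2 := h.two_le
  have ht : ((rootSys rtOKD4).ht (rtD4 23)).toNat = 5 := by rw [fitD4.ht]; decide +kernel
  have k1 := lt_dvd h topD4 H hB
  obtain ⟨s, k2, k3⟩ := lt_num h topD4 H hB
  rw [ht] at k1 k3
  rw [← Finset.sum_subtype ([0, 1, 9, 14, 22, 23].map rtD4).toFinset (by
      simp only [List.mem_toFinset]; change ∀ γ, _ ↔ symD4.ρ γ = γ; decide +kernel)
      fun γ => q ^ (Obt (rootSys rtOKD4) γ).ncard, List.sum_toFinset _ (by decide +kernel),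
    List.map_congr_left (g := fun γ => q ^ ((rootSys rtOKD4).ht (rtD4 23) - (rootSys rtOKD4).ht γ -
      if 0 < (rootSys rtOKD4).ht γ then 0 else 1).toNat) fun γ hγ => congrArg (q ^ ·) (by
        have := topD4.ncard_obt h.laced (γ := γ) (by revert hγ γ; decide +kernel)
        simp only [pos_iff_ht] at this
        rw [← this, Int.toNat_natCast]), ← Function.comp_def (q ^ ·), ← List.map_map,
    show List.map _ (List.map rtD4 _) = [9, 8, 5, 4, 1, 0] by simp only [fitD4.ht]; decide +kernel] at k2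
  obtain ⟨hn, hs⟩ := arithD4 q2 (le_trans (by decide) H.big) k1 k2
  obtain ⟨j, hj⟩ : ∃ j, Nat.card Ω = p ^ j := by
    obtain ⟨m, -, e⟩ := FiniteField.card F p
    exact ⟨m * 2, by rw [hn, pow_mul, ← e, hF]; ring⟩
  obtain ⟨u, u1, u2, u3⟩ := k3 j hj
  obtain ⟨E, e1, e2, a, e3⟩ := subD4 hφ hF u1 (by
    by_contra! c
    have a1 := Nat.mul_le_mul_left (q ^ 9) c
    have a2 := congrArg (q ^ 6 * ·) hs
    rw [hn] at u3
    have : 0 < q ^ 8 := by positivity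
    simp only [show 2 * 5 - 1 = 9 from rfl] at u3 a2
    nlinarith) u2
  exact endD4 hφ hF H hB hj hn e1 e2 e3

end CfsgLib.CKS
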