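import Mathlib
import Cfsg.Agent.Lib.CKS.Abs2
import Cfsg.Agent.Lib.CKS.Abs3
import Cfsg.Agent.Lib.CKS.How2
import Cfsg.Agent.Lib.CKS.F4a

/-! CKS, package F4. -/

namespace CfsgLib.CKS
open Cfsg MulAction

namespace F4D
open Subgroup RGD Stein CfsgLib.Semi Lie

theorem exists_tr {F : Type*} [Field F] [Finite F] [CharP F 2] {l : ℕ} (hl : l.Prime) (h2 : l ≠ 2)
    (l1 : l ∣ Nat.card F + 1) :
    ∃ τ : F, τ ≠ 2 ∧ ∀ g : Matrix.SpecialLinearGroup (Fin 2) F, Matrix.trace g.1 = τ → g ^ l = 1 := by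
  have := Fintype.ofFinite F
  have := Fact.mk hl
  obtain ⟨g, hg⟩ := exists_prime_orderOf_dvd_card' (G := Matrix.SpecialLinearGroup (Fin 2) F) l (by
    rw [SL2.card_SL2', ← Nat.card_eq_fintype_card]; exact l1.mul_left _)
  have no : g ^ 2 ≠ 1 := fun e =>
    h2 ((Nat.prime_dvd_prime_iff_eq hl Nat.prime_two).1 (hg ▸ orderOf_dvd_of_pow_eq_one e))
  refine ⟨Matrix.trace g.1, fun e => no (Subtype.ext ?_), fun g' hg' => Subtype.ext ?_⟩
  · have h1 : (g.1 - 1) ^ 2 = 0 := by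
      rw [sq, sub_mul, mul_sub, sl2_sq, e, mul_one, one_mul]
      module
    rwa [sub_pow_char_of_commute _ (Commute.one_right _), one_pow, sub_eq_zero] at h1
  · obtain ⟨a, b, hab⟩ := sl2_pow (Matrix.trace g.1) l
    have h1 : g.1 ^ l = 1 := congrArg Subtype.val (hg ▸ pow_orderOf_eq_one g)
    rw [hab g rfl] at h1
    obtain rfl : a = 0 := by_contra fun a0 => no (Subtype.ext (by
      have h2 : g.1 = (a⁻¹ * (1 - b)) • 1 := by
        rw [mul_smul, sub_smul, one_smul, ← eq_sub_of_add_eq h1, inv_smul_smul₀ a0]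
      have h3 := g.2
      rw [h2, Matrix.det_smul, Matrix.det_one, Fintype.card_fin, mul_one] at h3
      change g.1 ^ 2 = 1
      rw [h2, smul_pow, h3, one_pow, one_smul]))
    change g'.1 ^ l = 1
    rw [zero_smul] at h1
    rw [hab g' hg', zero_smul, h1]

theorem f4_arith {n s q : ℕ} (hq : 2 ≤ q) (hn : 3 ≤ n) (h : (n - 1) * s + (q ^ 4 + 1) = (q ^ 4 + 1) * q ^ 12)
    (h8 : q ^ 8 ∣ n) : n = q ^ 12 ∨ n = q ^ 8 := by
  have h4 : 16 ≤ q ^ 4 := Nat.pow_le_pow_left hq 4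
  have e8 : q ^ 8 = q ^ 4 * q ^ 4 := by ring
  have e12 : q ^ 12 = q ^ 8 * q ^ 4 := by ring
  rw [e12] at h ⊢
  generalize q ^ 4 = a at *
  obtain ⟨h1, -⟩ | ⟨m, j, hj, hm, hm', h1, -, h2⟩ := arith (s := s) (t := a + 1) (e := a) h8 (by omega) (by omega)
    (by rw [e8]; nlinarith) (by omega) (by rw [Nat.mul_sub_one]; omega)
  · exact .inl h1
  obtain rfl | hm : m = 1 ∨ 2 ≤ m := by omega
  · exact .inr (by rw [h1, mul_one])
  obtain ⟨d, rfl⟩ : ∃ d, a = m + d := ⟨a - m, by omega⟩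
  have h3 : q ^ 8 * 2 ≤ q ^ 8 * m := Nat.mul_le_mul_left _ hm
  have h5 := Nat.le_mul_of_pos_left (q ^ 8 * m - 1) hj
  rw [h2, Nat.add_sub_cancel_left] at h5
  have h6 : q ^ 8 * 2 ≤ (m + d + 1) * d + 1 := by omega
  rw [e8] at h6
  nlinarith

theorem f4_end {n s q f : ℕ} (hq : 2 ≤ q) (hn : 3 ≤ n) (h : (n - 1) * s + (q ^ 4 + 1) = (q ^ 4 + 1) * q ^ 12)
    (hf : q ^ 2 ≤ f) (h1 : q ^ 15 * f + n ≤ n * s) : False := by
  obtain ⟨m, rfl⟩ : ∃ m, n = m + 1 := ⟨n - 1, by omega⟩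
  rw [Nat.add_sub_cancel] at h
  have h2 : 2 * s ≤ m * s := Nat.mul_le_mul_right _ (by omega)
  have h3 : q ^ 15 * q ^ 2 ≤ q ^ 15 * f := Nat.mul_le_mul_left _ hf
  have h4 : 16 * q ^ 12 ≤ q ^ 4 * q ^ 12 := Nat.mul_le_mul_right _ (Nat.pow_le_pow_left hq 4)
  have h5 : 2 * (q ^ 4 * q ^ 12) ≤ q ^ 15 * q ^ 2 := by
    rw [show q ^ 15 * q ^ 2 = q * (q ^ 4 * q ^ 12) by ring]
    exact Nat.mul_le_mul_right _ hq
  rw [add_mul (q ^ 4), add_mul m] at *
  omega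

variable {F G : Type*} [Field F] [Finite F] [Group G] [Finite G] {S : StSys ΦF4 F G} {y : ℕ → F → G} (h : FD S y)
  {p : ℕ} [Fact p.Prime] [CharP F p] {Ω : Type*} [MulAction G Ω] (H : TwoTr G Ω) (hB : BTr p G Ω)

namespace FD
include h hB

theorem trB : TrOn S.B Ω := by
  refine (hB ((St.isPGroup_U h.nd p).toSylow (St.not_dvd_index_U h.nd h.top p fun e => ?_))).mono fun g hg => by
    rw [← h.nd.normalizer_U, h.top]
    exact ⟨hg, mem_top g⟩
  obtain ⟨m, he, hq⟩ := St.exists_card_eq_pow F p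
  rw [h.cH] at e
  exact (Fact.out : p.Prime).not_dvd_one ((Nat.dvd_sub_iff_right Nat.card_pos (hq ▸ dvd_pow_self p he.ne')).1
    ((Fact.out : p.Prime).dvd_of_dvd_pow e))

include H

theorem semi {k : ℤ} (hk : (k : F) = 0) (a b : Fin 48) (i : Fin 4)
    (hc : One a (ΦF4.simple i) b 1 ∧ ΦF4.wprod [i] b = a ∧ ΦF4.wt i b = 1 ∧ ((∀ r ∈ [a, b], 6 ≤ ΦF4.ht r) ∧ [a, b].Nodup) ∧
      (∀ r ∈ [a, b], 24 ≤ r) ∧ ∀ r, 24 ≤ r → (∀ s ∈ [b], Cz k [b] s r) ∧ ∀ s ∈ [a, b], Cz k [a, b] s r := by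
        refine ⟨?_, ?_, ?_, ?_, ?_, ?_⟩ <;> decide +kernel) : Semi (UL S [b]) Ω := by
  obtain ⟨c1, c2, c3, c4, c5, c6⟩ := hc
  have hab : a ≠ b := by simpa using c4.2
  have hle : UL S [b] ≤ UL S [a, b] := S.UU_mono (by simp)
  have key : ∀ t ∈ UL S [a, b], t ≠ 1 → fx Ω (S.x b 1) = fx Ω t := fun t ht h1 => by
    obtain ⟨c, -, rfl⟩ := S.exists_xprod (hi_closed c4.1) (hi_pos c4.1) c4.2 (fun _ h => h) ht
    simp only [StSys.xprod_cons, StSys.xprod_nil, mul_one] at h1 ⊢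
    by_cases h0 : c a = 0
    · rw [h0, S.x_zero, one_mul] at h1 ⊢
      exact fx_of_isConj (h.isConj_cls c3 (cls_of_word [] (r := b) rfl (x_mem _ (by simp)) h1))
    have e := conj_cm (S.x a (c a)) (S.x (ΦF4.simple i) (-c b / c a))
    rw [h.cm_one c1, show -((1 : ℤ) : F) * (-c b / c a) * c a = c b by push_cast; field_simp] at e
    rw [← e, fx_of_isConj (h.isConj_cls c3 (cls_of_word [i] c2 (x_mem _ (by simp)) (h.x_ne_one a h0)))]
    exact fx_of_isConj (isConj_iff.2 ⟨_, by rw [inv_inv]⟩)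
  refine (H.line (h.trB hB) (lt_of_le_of_ne hle fun e => ?_) (h.norm hk fun r hr => (c6 r ((pos24 r).1 hr)).1)
    (h.norm hk fun r hr => (c6 r ((pos24 r).1 hr)).2) (h.pg p _ c5)
    (fun t ht h1 t' ht' h1' => (key t ht h1).symm.trans (key t' ht' h1')) fun e => ?_).mono hle
  · obtain ⟨t, ht⟩ := mem_one.1 (e.ge (x_mem (r := a) 1 (by simp)))
    exact hab (h.nd.root_eq_of_x_eq one_ne_zero ht)
  · obtain ⟨z, hz, -, g, e1⟩ := cls_of_word [i] c2 (x_mem (S := S) 1 (by simp)) (h.x_ne_one a one_ne_zero)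
    rw [mem_center_iff.1 (e hz) g, mul_inv_cancel_right] at e1
    obtain ⟨t, rfl⟩ := mem_one.1 hz
    exact hab (h.nd.root_eq_of_x_eq one_ne_zero e1)

omit hB in
theorem sq_dvd {a b z : Fin 48} {c : ℤ} (hc : (c : F) ≠ 0) (hz : Semi (UL S [z]) Ω) {u : G} (hu : u ∈ UL S [47, 0])
    (p : ℕ) [Fact p.Prime] [CharP F p]
    (hc : One a b z c ∧ Cz 0 [] a z ∧ 24 ≤ a ∧ 24 ≤ z ∧ ∀ r ∈ [a, b, z], ∀ s ∈ [47, 0], Cz 0 [] r s := by
      decide +kernel) : Nat.card F ^ 2 ∣ fx Ω u := by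
  have := H.finite
  obtain ⟨c1, c2, c3, c4, c5⟩ := hc
  have k : ∀ r ∈ [a, b, z], ∀ g ∈ UL S [r], Commute g u := fun r hr g hg =>
    h.commute_UU (k := 0) (by simp) (fun r' hr' => by rw [List.mem_singleton.1 hr']; exact c5 r hr) hg hu
  have := heis_fx (h.pg p [a] (by simpa)) (h.pg p [z] (by simpa))
    (fun g hg g' hg' => h.commute_UU (k := 0) (by simp) (by simpa) hg hg') (k a (by simp)) (k z (by simp))
    (fun g hg h1 g' hg' => by
      obtain ⟨t, rfl⟩ := mem_one.1 hg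
      obtain ⟨d, rfl⟩ := mem_one.1 hg'
      have ht : t ≠ 0 := fun e => h1 (by rw [e, S.x_zero])
      refine ⟨(S.x b (-d / (c * t)))⁻¹, k b (by simp) _ (inv_mem (x_mem _ (by simp))), ?_⟩
      rw [inv_inv, conj_cm, h.cm_one c1]
      congr 2
      field_simp) hz fun e => h.x_ne_one z one_ne_zero (mem_bot.1 (e ▸ x_mem 1 (by simp)))
  rwa [h.card_one a c3, h.card_one z c4, ← sq] at this

theorem dvd8 (h2 : (2 : F) ≠ 0) : Nat.card F ^ 8 ∣ Nat.card Ω := by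
  have := H.finite
  have hL : (∀ r ∈ [39, 40, 42, 43, 44, 45, 46], 6 ≤ ΦF4.ht r) ∧ [39, 40, 42, 43, 44, 45, (46 : Fin 48)].Nodup := by
    decide +kernel
  have k1 : ∀ g ∈ UL S [39, 40, 42, 43, 44, 45, 46], ∀ z ∈ UL S [47], Commute g z := fun g hg z hz =>
    h.commute_UU (k := 0) (by simp) (by simp only [Set.mem_setOf_eq]; decide +kernel) hg hz
  have := heis_conj (h.pg p [39, 40, 42, 43, 44, 45, 46]) (h.pg p [47]) k1 (fun g hg h1 z hz => ?_)
    (h.semi H hB (k := 0) (by simp) 46 47 3).orb (by rw [h.card_one 47]; exact Finite.one_lt_card)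
  · rwa [h.card_one 47, h.card_hi _ hL, ← pow_succ] at this
  obtain ⟨t, -, rfl⟩ := S.exists_xprod (hi_closed hL.1) (hi_pos hL.1) hL.2 (fun _ h => h) hg
  obtain ⟨r, hr, ht⟩ : ∃ r ∈ [39, 40, 42, 43, 44, 45, 46], t r ≠ 0 := by
    by_contra! e
    exact h1 ((S.xprod_congr e).trans (S.xprod_zero _))
  obtain ⟨d, rfl⟩ := mem_one.1 hz
  obtain ⟨r', -, c, hc, c1, c2⟩ := (by decide +kernel : ∀ r ∈ [39, 40, 42, 43, 44, 45, 46],
    ∃ r' ∈ [38, 36, 32, 31, 29, 26, 24], ∃ c ∈ [1, -1, 2, -2],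
      One r r' 47 c ∧ ∀ s ∈ [39, 40, 42, 43, 44, 45, 46], s ≠ r → Cz 0 [] s r') r hr
  have hc' : (c : F) ≠ 0 := by
    simp only [List.mem_cons, List.not_mem_nil, or_false] at hc
    rcases hc with rfl | rfl | rfl | rfl <;> simp [h2]
  obtain ⟨L₁, L₂, e⟩ := List.append_of_mem hr
  have hn := hL.2
  generalize [39, 40, 42, 43, 44, 45, (46 : Fin 48)] = L at *
  subst e
  have k2 : ∀ L' : List (Fin 48), L' ⊆ L₁ ++ r :: L₂ → r ∉ L' → ∀ v, Commute (S.xprod L' t) (S.x r' v) :=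
    fun L' e1 e2 v => h.commute_UU (k := 0) (by simp) (Ψ := {s | s ∈ L'}) (Ψ' := {s | s ∈ [r']})
      (fun s hs s' hs' => by rw [List.mem_singleton.1 hs']; exact c2 s (e1 hs) fun e => e2 (e ▸ hs))
      (S.xprod_mem_UU (fun _ h => h) t) (x_mem v (by simp))
  have k3 := k2 L₁ (by simp) (fun e => List.disjoint_of_nodup_append hn e (by simp)) (-d / (c * t r))
  have k4 := k2 L₂ (by simp) (List.nodup_cons.1 hn.of_append_right).1 (-d / (c * t r))
  have k5 := k1 _ (S.xprod_mem_UU (L := L₂) (fun s hs => by simp [hs]) t) _ (x_mem (r := 47) d)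
  have k6 := conj_cm (S.x r (t r)) (S.x r' (-d / (c * t r)))
  rw [h.cm_one c1, show -(c : F) * (-d / (c * t r)) * t r = d by field_simp] at k6
  refine ⟨(S.x r' (-d / (c * t r)))⁻¹, ?_⟩
  rw [S.xprod_append, S.xprod_cons, inv_inv, mul_assoc (S.xprod L₁ t), mul_assoc (S.x r _), k5.eq, ← mul_assoc (S.x r _),
    ← k6, mul_assoc _ _ (S.x r' _), mul_assoc _ _ (S.x r' _), mul_assoc _ _ (S.x r' _), k4.eq, ← mul_assoc,
    ← k3.inv_right.eq]
  simp only [mul_assoc]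

theorem contra : False := by
  have := H.finite
  have hp : p.Prime := Fact.out
  have hq : 2 ≤ Nat.card F := Finite.one_lt_card
  have hZ := h.semi H hB (k := 0) (by simp) 46 47 3
  obtain ⟨s, hs, hY⟩ := H.numZ_pairY h.P_norm hZ
  have hs' := h.index_P
  rw [← h.card_one 47, ← hs, h.card_one 47] at hs'
  obtain ⟨τ, l, hτ, hl, hn, hg, hd⟩ : ∃ (τ : F) (l : ℕ), τ ≠ 2 ∧ l.Prime ∧ ¬ l ∣ Nat.card Ω ∧
      (∀ g : Matrix.SpecialLinearGroup (Fin 2) F, Matrix.trace g.1 = τ → g ^ l ^ 2 = 1) ∧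
      ∀ u ∈ UL S [47, 0], Nat.card F ^ 2 ∣ fx Ω u := by
    obtain ⟨e, he, hqe⟩ := St.exists_card_eq_pow F p
    by_cases h2 : p = 2
    · subst h2
      obtain ⟨l, hl, h1⟩ := Nat.exists_prime_and_dvd (n := Nat.card F + 1) (by omega)
      have h3 : ¬ l ∣ Nat.card F := fun e => hl.not_dvd_one ((Nat.dvd_add_right e).1 h1)
      have h4 : l ≠ 2 := fun e => h3 (by rw [e, hqe]; exact dvd_pow_self 2 he.ne')
      obtain ⟨τ, h5, h6⟩ := exists_tr hl h4 h1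
      have := H.nonempty
      refine ⟨τ, l, h5, hl, fun e => ?_, fun g hg => by rw [sq, pow_mul, h6 g hg, one_pow], fun u hu =>
        h.sq_dvd H (a := 33) (b := 27) (z := 34) (c := 1) (by simp) (((h.semi H hB (k := 2)
          (by exact_mod_cast CharP.cast_eq_zero F 2) 40 44 0)).of_cls fun _ =>
            cls_of_word [2, 3, 1, 2, 1, 0] (by decide +kernel)) hu 2⟩
      have h7 := e.trans (h.trB hB).card_dvd
      rw [h.card_B, hl.dvd_mul] at h7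
      refine h7.elim (fun e => h3 (hl.dvd_of_dvd_pow e)) fun e => h4 ?_
      have h8 := Nat.dvd_sub h1 (hl.dvd_of_dvd_pow e)
      rw [show Nat.card F + 1 - (Nat.card F - 1) = 2 by omega] at h8
      exact (Nat.prime_dvd_prime_iff_eq hl Nat.prime_two).1 h8
    · have h3 : (2 : F) ≠ 0 := fun e => h2 (eq_of_cast (F := F) Nat.prime_two (by exact_mod_cast e)).symm
      refine ⟨0, 2, h3.symm, Nat.prime_two, fun e' => h2 ?_, sl2_four, fun u hu =>
        h.sq_dvd H (a := 33) (b := 37) (z := 41) (c := -2) (by simpa using h3) (hZ.of_cls fun _ =>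
          cls_of_word [3, 2, 1, 2, 3] (by decide +kernel)) hu p⟩
      refine ((Nat.prime_dvd_prime_iff_eq Nat.prime_two hp).1 (Nat.prime_two.dvd_of_dvd_pow (n := e * 12) ?_)).symm
      rw [pow_mul, ← hqe]
      rcases f4_arith hq H.big hs' (h.dvd8 H hB h3) with e1 | e1 <;> rw [e1] at e'
      exacts [e', e'.trans (pow_dvd_pow _ (by omega))]
  obtain ⟨R, hx, hy⟩ := h.sl
  have hc : 2 - τ ≠ 0 := sub_ne_zero.2 hτ.symm
  have hu : (S.x 0 1)⁻¹ * S.x 47 (2 - τ) = R.hom (Chev.slY (-1) * Chev.slX (2 - τ)) := by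
    rw [map_mul, R.hom_slX, R.hom_slY, hx, hy, S.x_neg]
  have hf : 0 < fx Ω ((S.x 0 1)⁻¹ * S.x 47 (2 - τ)) := fx_pos (j := 2) hl hn fun a => by
    rw [hu, ← map_pow, hg _ (by
      simp [Chev.slX_val, Chev.slY_val, Matrix.trace_fin_two]; ring), map_one, one_smul]
  have h15 : Nat.card (S.UU {r | ΦF4.Neg r ∧ ¬ ΦF4.InSub {0, 1, 2} r}) = Nat.card F ^ 15 := by
    have := h.nd.op.card_UU (StSys.closed_UJ {0, 1, 2}) fun _ e => e.1
    rw [S.op_UU] at this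
    simp only [Set.mem_setOf_eq, ΦF4.pos_neg_iff, ΦF4.inSub_neg_iff] at this
    rw [this, show {r | ΦF4.Pos r ∧ ¬ ΦF4.InSub {0, 1, 2} r} = ↑(Finset.univ.filter fun r => 0 < ΦF4.rt r 3) from ?_,
      Set.ncard_coe_finset, show Finset.card _ = 15 by decide +kernel]
    ext r
    simp only [RootSys.Pos, RootSys.InSub, Fin.forall_fin_succ]
    simp
    revert r
    decide +kernel
  refine f4_end hq H.big hs' (Nat.le_of_dvd hf (hd _ (mul_mem (inv_mem (x_mem 1)) (x_mem _)))) (h15 ▸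
    hY _ (cls_of_word [3, 2, 1, 2, 0, 1, 2, 3, 2, 1, 2, 0, 1, 2, 3] (r := 0) (by decide +kernel) (x_mem 1)
      (h.x_ne_one 0 one_ne_zero)) _ (cls_of_word [] (r := 47) rfl (x_mem _) (h.x_ne_one 47 hc))
      (fun e => absurd (h.nd.root_eq_of_x_eq hc e) (by decide)) _ (fun g hg => ?_)
      fun g hg e => h.nd.eq_one_of_mem_P hg (h.cent hc e))
  refine h.commute_UU (k := 0) (by simp) (Ψ' := {r | r ∈ [0]}) (fun r hr s hs => ?_) hg (x_mem 1)
  have h1 := hr.1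
  rw [ΦF4.neg_iff_not_pos, pos24] at h1
  clear hr
  revert r s
  simp only [Set.mem_setOf_eq]
  decide +kernel

end FD

end F4D

variable {p : ℕ} [Fact p.Prime] {F : Type} [Field F] [Fintype F] [CharP F p] {Ω : Type*}

theorem f4 [MulAction (Lie.chevF4.group F) Ω] (H : TwoTr (Lie.chevF4.group F) Ω)
    (hB : BTr p (Lie.chevF4.group F) Ω) : False := (F4D.fd_F4 F).contra H hB

end CfsgLib.CKS
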