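import Mathlib
import Cfsg.Agent.Lib.CKS.Abs2
import Cfsg.Agent.Lib.CKS.Abs3
import Cfsg.Agent.Lib.CKS.How2
import Cfsg.Agent.Lib.CKS.F4a

/-! CKS, package F42. -/

namespace CfsgLib.CKS
open Cfsg MulAction

namespace F4D
open Subgroup RGD Stein CfsgLib.Semi Lie

/-- the roots of an elementary abelian group of order `2 ^ 11` -/
def rr (i : ℕ) : Fin 48 := [47, 29, 36, 38, 39, 40, 44, 24, 26, 31, 32].getD i 0

/-- the sign of a bit -/
def sg (b : Bool) : ℂ := if b then -1 else 1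

theorem sg_xor (a b : Bool) : sg (xor a b) = sg a * sg b := by cases a <;> cases b <;> simp [sg]

/-- the parity of `χ` on a list -/
def par (χ : ℕ → Bool) (l : List ℕ) : Bool := l.foldr (fun j b => xor (χ j) b) false

/-- the table `T` describes the commutators with the root `r` -/
def Tok (k : ℕ) (r : Fin 48) (T : List (List ℕ)) : Prop := ∀ i < k, (∀ j ∈ T.getD i [], j < k) ∧ rr i ≠ r ∧
  (rr i).1 + r.1 ≠ 47 ∧ ((chevF4.commTerms r (rr i)).filter fun c => c.2.1 % 2 = 1).map (·.1) =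
    (T.getD i []).map fun j => (rr j).1

instance (k : ℕ) (r : Fin 48) (T : List (List ℕ)) : Decidable (Tok k r T) := by unfold Tok; infer_instance

/-- the character `χ'` is the image of `χ` -/
def Mv (k : ℕ) (T : List (List ℕ)) (χ χ' : ℕ → Bool) : Prop := ∀ i < k, χ' i = xor (χ i) (par χ (T.getD i []))

instance (k : ℕ) (T : List (List ℕ)) (χ χ' : ℕ → Bool) : Decidable (Mv k T χ χ') := by unfold Mv; infer_instance

/-- the Levi generators -/
def TT : List (Fin 48 × List (List ℕ)) := [(33, [[], [2], [], [], [], [6], []]), (27, [[], [], [3], [], [5], [], []]),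
  (25, [[], [], [], [4, 0], [], [], []]), (14, [[], [], [1], [], [], [], [5]]), (20, [[], [], [], [2], [], [4], []]),
  (22, [[], [], [], [], [3, 0], [], []])]

/-- spanning trees of the two orbits -/
def up (m : ℕ) : ℕ := (0x7601e807e01c806601a806e0188056016805e0148046012804e01080fa03a80f603c80ea03e80e603880da02480d603480ca02a80c6030802e00a803600c803e00e8026008805a01c807e010806e01a8066018803a00c803e00c800e0028006000801a004801e000801e006801600080 >>> (7 * m)) % 128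

theorem up_spec : ∀ m < 128, m % 2 = 1 → (up m < 128 ∧ up m % 2 = 1) ∧
    (up m = m ∨ ∃ p ∈ TT, Mv 7 p.2 m.testBit (up m).testBit ∧ Mv 7 p.2 (up m).testBit m.testBit) := by
  decide +kernel

variable {F G : Type*} [Field F] [Group G] {S : StSys ΦF4 F G} {y : ℕ → F → G} (h : FD S y) (h2 : (2 : F) = 0)
  {V : Type*} [AddCommGroup V] [Module ℂ V] {ρ : Representation ℂ G V}

variable (S ρ) in
/-- the character `χ` occurs -/
def Occ (k : ℕ) (χ : ℕ → Bool) : Prop := ∃ v, v ≠ 0 ∧ ∀ i < k, ρ (S.x (rr i) 1) v = sg (χ i) • v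

theorem Occ.congr {k : ℕ} {χ χ' : ℕ → Bool} (H : Occ S ρ k χ) (e : ∀ i < k, χ' i = χ i) : Occ S ρ k χ' :=
  H.imp fun _ H => ⟨H.1, fun i hi => e i hi ▸ H.2 i hi⟩

include h h2

theorem cm_two {a b : Fin 48} (h1 : a ≠ b) (h3 : a.1 + b.1 ≠ 47) : cm (S.x a 1) (S.x b 1) =
    ((((chevF4.commTerms b a).filter fun c => c.2.1 % 2 = 1).map (·.1)).map fun r => y r 1).prod := by
  rw [h.cm_eq h1 h3]
  have := lt_of_terms a b
  generalize chevF4.commTerms b a = L at *
  induction L with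
  | nil => rfl
  | cons c L ih =>
    rw [List.map_cons, List.prod_cons, ih fun c hc => this c (List.mem_cons_of_mem _ hc),
      show (-1 : F) = 1 by linear_combination -h2, one_pow, one_pow, mul_one, mul_one, ← Int.mul_ediv_add_emod c.2.1 2,
      List.filter_cons, h.hy ⟨_, this c List.mem_cons_self⟩]
    rcases Int.emod_two_eq_zero_or_one c.2.1 with e | e <;> simp [e, h2, S.x_zero, h.hy ⟨_, this c List.mem_cons_self⟩]

theorem Occ.move {k : ℕ} {χ χ' : ℕ → Bool} (H : Occ S ρ k χ) {r : Fin 48} {T : List (List ℕ)} (hT : Tok k r T)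
    (e : Mv k T χ χ') : Occ S ρ k χ' := by
  obtain ⟨v, hv, H⟩ := H
  refine ⟨ρ (S.x r 1) v, fun e => hv ?_, fun i hi => ?_⟩
  · simpa using congrArg (ρ (S.x r 1)⁻¹) e
  obtain ⟨h3, h4, h5, h6⟩ := hT i hi
  have key : ∀ l : List ℕ, (∀ j ∈ l, j < k) → ρ ((l.map fun j => (rr j).1).map fun r => y r 1).prod v =
      sg (par χ l) • v := fun l hl => by
    induction l with
    | nil => simp [par, sg]
    | cons j l ih =>
      rw [List.map_cons, List.map_cons, List.prod_cons, map_mul, Module.End.mul_apply,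
        ih fun j hj => hl j (List.mem_cons_of_mem _ hj), map_smul, h.hy, H j (hl j List.mem_cons_self), smul_smul,
        mul_comm, ← sg_xor]
      rfl
  rw [← Module.End.mul_apply, ← map_mul, show S.x (rr i) 1 * S.x r 1 = S.x r 1 * (S.x (rr i) 1 *
    cm (S.x (rr i) 1) (S.x r 1)) by rw [← conj_cm]; group, cm_two h h2 h4 h5, h6, map_mul, map_mul,
    Module.End.mul_apply, Module.End.mul_apply, key _ h3, map_smul, H i hi, smul_smul, map_smul, e i hi, sg_xor, mul_comm]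

theorem sq_one (r : Fin 48) (v : V) : ρ (S.x r 1) (ρ (S.x r 1) v) = v := by
  rw [← Module.End.mul_apply, ← map_mul, ← S.x_add, one_add_one_eq_two, h2, S.x_zero, map_one, Module.End.one_apply]

theorem Occ.ext {k : ℕ} {χ : ℕ → Bool} (H : Occ S ρ k χ) {k' : ℕ} (hk : k ≤ k') (hk' : k' ≤ 11) :
    ∃ χ', Occ S ρ k' χ' ∧ ∀ i < k, χ' i = χ i := by
  induction k', hk using Nat.le_induction with
  | base => exact ⟨χ, H, fun _ _ => rfl⟩
  | succ m hm ih =>
    obtain ⟨χ', ⟨v, hv, H⟩, e⟩ := ih (by omega)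
    have k1 : ∀ b w, w ≠ 0 → ρ (S.x (rr m) 1) w = sg b • w → (∀ i < m, ρ (S.x (rr i) 1) w = sg (χ' i) • w) →
        ∃ χ', Occ S ρ (m + 1) χ' ∧ ∀ i < k, χ' i = χ i := fun b w h0 h1 h3 =>
      ⟨Function.update χ' m b, ⟨w, h0, fun i hi => by
        rcases eq_or_ne i m with rfl | h4
        · rwa [Function.update_self]
        · rw [Function.update_of_ne h4, h3 i (by omega)]⟩,
        fun i hi => by rw [Function.update_of_ne (by omega), e i hi]⟩
    by_cases h0 : v + ρ (S.x (rr m) 1) v = 0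
    · exact k1 true v hv (by simp [sg, eq_neg_of_add_eq_zero_right h0]) H
    refine k1 false _ h0 (by rw [map_add, sq_one h h2, add_comm, sg, if_neg (by simp), one_smul]) fun i hi => ?_
    rw [map_add, ← Module.End.mul_apply, ← map_mul, (h.comm (k := 2) (by simpa using h2)
      ((by decide +kernel : ∀ i < 11, ∀ j < 11, Cz 2 [] (rr i) (rr j)) i (by omega) m (by omega)) 1 1).eq, map_mul,
      Module.End.mul_apply, H i hi, map_smul, smul_add]

theorem Occ.set {χ : ℕ → Bool} (H : Occ S ρ 11 χ ∧ χ 0 = true) (j : ℕ) (b : Bool) (hj : 7 ≤ j ∧ j < 11 := by omega) :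
    Occ S ρ 11 (Function.update χ j b) ∧ Function.update χ j b 0 = true := by
  refine ⟨?_, by rw [Function.update_of_ne (by omega), H.2]⟩
  by_cases e : b = χ j
  · rw [e, Function.update_eq_self]; exact H.1
  obtain ⟨r, hr⟩ := (by decide +kernel : ∀ j ∈ [7, 8, 9, 10], ∃ r ∈ ([46, 45, 43, 42] : List (Fin 48)),
    Tok 11 r (List.replicate j [] ++ [[0]])) j (by simp; omega)
  refine H.1.move h h2 hr.2 fun i hi => ?_
  rcases eq_or_ne i j with rfl | h4
  · simpa [par, H.2, Bool.eq_not] using e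
  · have : ∀ i < 11, ∀ j < 11, i ≠ j → (List.replicate j [] ++ [[0]]).getD i [] = ([] : List ℕ) := by decide +kernel
    rw [Function.update_of_ne h4, this i hi j hj.2 h4]
    simp [par]

theorem occ_up (n : ℕ) : ∀ m < 128, m % 2 = 1 → (Occ S ρ 7 m.testBit ↔ Occ S ρ 7 (up^[n] m).testBit) := by
  induction n with
  | zero => exact fun _ _ _ => Iff.rfl
  | succ n ih =>
    intro m h1 h3
    obtain ⟨h4, h5⟩ := up_spec m h1 h3
    refine Iff.trans ?_ (ih _ h4.1 h4.2)
    rcases h5 with e | ⟨p, hp, e, e'⟩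
    · rw [e]
    have := (by decide +kernel : ∀ p ∈ TT, Tok 7 p.1 p.2) p hp
    exact ⟨fun H => H.move h h2 this e, fun H => H.move h h2 this e'⟩

theorem le_finrank [FiniteDimensional ℂ V] (H : Occ S ρ 1 fun _ => true) : 448 ≤ Module.finrank ℂ V := by
  obtain ⟨χ, H, e⟩ := H.ext h h2 (k' := 7) (by omega) (by omega)
  obtain ⟨m, hm, H, e⟩ : ∃ m < 128, Occ S ρ 7 m.testBit ∧ m % 2 = 1 :=
    ⟨Nat.ofBits fun i : Fin 7 => χ i, Nat.ofBits_lt_two_pow _, H.congr fun i hi => Nat.testBit_ofBits_lt _ i hi, by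
      have := Nat.testBit_ofBits_lt (fun i : Fin 7 => χ i) 0 (by omega)
      simpa [e] using this⟩
  rw [occ_up h h2 9 m hm e] at H
  have h3 := (by decide +kernel : ∀ r ∈ [1, 25],
    448 ≤ ((Finset.range 2048).filter fun c => c % 2 = 1 ∧ up^[9] (c % 128) = r).card) _
    ((by decide +kernel : ∀ m < 128, m % 2 = 1 → up^[9] m ∈ [1, 25]) m hm e)
  generalize up^[9] m = r at *
  have key : ∀ c : ((Finset.range 2048).filter fun c => c % 2 = 1 ∧ up^[9] (c % 128) = r), Occ S ρ 11 c.1.testBit := by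
    rintro ⟨c, hc⟩
    obtain ⟨-, h4, rfl⟩ := Finset.mem_filter.1 hc
    obtain ⟨χ, H, e⟩ := ((occ_up h h2 9 (c % 128) (by omega) (by omega)).2 H).ext h h2 (k' := 11) (by omega) le_rfl
    have e' : ∀ i < 7, χ i = c.testBit i := fun i hi => by
      rw [e i hi, show 128 = 2 ^ 7 from rfl, Nat.testBit_mod_two_pow]; simp [hi]
    refine (Occ.set h h2 (Occ.set h h2 (Occ.set h h2 (Occ.set h h2 ⟨H, by simp [e', h4]⟩ 7 (c.testBit 7)) 8
      (c.testBit 8)) 9 (c.testBit 9)) 10 (c.testBit 10)).1.congr fun i hi => ?_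
    interval_cases i <;> simp [e']
  choose v hv H using key
  have := (Module.End.eigenvectors_linearIndependent' (∑ i ∈ Finset.range 11, (2 : ℂ) ^ i • ρ (S.x (rr i) 1))
    (fun c => 2047 - 2 * (c.1 : ℂ)) (fun c c' e => Subtype.ext (by simpa using e)) v fun c =>
      ⟨Module.End.mem_eigenspace_iff.2 ?_, hv c⟩).fintype_card_le_finrank
  · rw [Fintype.card_coe] at this
    exact h3.trans this
  have h4 := congrArg (Int.cast : ℤ → ℂ) ((by decide +kernel : ∀ c < 2048,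
    ∑ i ∈ Finset.range 11, (2 : ℤ) ^ i * (if c.testBit i then -1 else 1) = 2047 - 2 * (c : ℕ)) c
      (Finset.mem_range.1 (Finset.mem_filter.1 c.2).1))
  push_cast at h4
  rw [LinearMap.sum_apply, ← h4, Finset.sum_smul]
  exact Finset.sum_congr rfl fun i hi => by
    rw [LinearMap.smul_apply, H c i (Finset.mem_range.1 hi), smul_smul, sg]

theorem le_card {Ω : Type*} [MulAction G Ω] (H : TwoTr G Ω) (hc : center G = ⊥) : 448 ≤ Nat.card Ω := by
  classical
  have := H.finite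
  obtain ⟨a, ha⟩ : ∃ a : Ω, (S.x 47 1)⁻¹ • a ≠ a := by
    by_contra! e
    exact h.x_ne_one 47 one_ne_zero (inv_eq_one.1 (mem_bot.1 (hc ▸ H.ker _ e)))
  rw [← finrank_perm]
  refine le_finrank h h2 (ρ := permRep G Ω) ⟨Pi.single a 1 - permRep G Ω (S.x 47 1) (Pi.single a 1), fun e => ?_,
    fun i hi => ?_⟩
  · simpa [permRep_apply, ha] using congrFun e a
  · obtain rfl : i = 0 := by omega
    rw [show rr 0 = 47 from rfl, map_sub, sq_one h h2]
    simp [sg]

end F4D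

variable {F : Type} [Field F] [Fintype F] {Ω : Type*}

theorem btr_F42 (hq : Fintype.card F = 2) [MulAction (Lie.chevF4.group F) Ω] (H : TwoTr (Lie.chevF4.group F) Ω)
    (hp : 2 ∣ Nat.card Ω) : BTr 2 (Lie.chevF4.group F) Ω := by
  have hc := RGD.center_eq_bot (F := F) Weyl.rtOKF4
  have h1 := F4D.le_card (F4D.fd_F4 F) (by simpa [hq] using FiniteField.cast_card_eq_zero F) H hc
  have h2 := H.mul_pred_dvd
  rw [hc, Subgroup.index_bot, RGD.card_F4 F hq] at h2
  refine btr_of_pow (j := 12) H.trans ?_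
  obtain ⟨d, hd⟩ : ∃ d, Nat.card Ω = d + 1 := ⟨Nat.card Ω - 1, by omega⟩
  rw [hd] at h1 h2 hp ⊢
  rw [Nat.add_sub_cancel] at h2
  have h3 : d ∣ 2 ^ 24 * (3 ^ 6 * (5 ^ 2 * (7 ^ 2 * (13 ^ 1 * 17 ^ 1)))) := (dvd_mul_left _ _).trans h2
  obtain ⟨a, d₁, ha, h4, e₁⟩ := exists_dvd_and_dvd_of_dvd_mul
    ((Nat.Coprime.pow_right 24 (Nat.coprime_two_right.2 (Nat.odd_iff.2 (by omega)))).dvd_of_dvd_mul_left h3)
  obtain ⟨b, d₂, hb, h5, e₂⟩ := exists_dvd_and_dvd_of_dvd_mul h4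
  obtain ⟨c, d₃, hc, h6, e₃⟩ := exists_dvd_and_dvd_of_dvd_mul h5
  obtain ⟨e, f, he, hf, e₄⟩ := exists_dvd_and_dvd_of_dvd_mul h6
  obtain ⟨a', ha', rfl⟩ := (Nat.dvd_prime_pow (by norm_num)).1 ha
  obtain ⟨b', hb', rfl⟩ := (Nat.dvd_prime_pow (by norm_num)).1 hb
  obtain ⟨c', hc', rfl⟩ := (Nat.dvd_prime_pow (by norm_num)).1 hc
  obtain ⟨e', he', rfl⟩ := (Nat.dvd_prime_pow (by norm_num)).1 he
  obtain ⟨f', hf', rfl⟩ := (Nat.dvd_prime_pow (by norm_num)).1 hf
  rw [e₁, e₂, e₃, e₄] at h1 h2 ⊢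
  have key : ∀ x ∈ List.range 7 ×ˢ List.range 3 ×ˢ List.range 3 ×ˢ List.range 2 ×ˢ List.range 2,
      let d := 3 ^ x.1 * (5 ^ x.2.1 * (7 ^ x.2.2.1 * (13 ^ x.2.2.2.1 * 17 ^ x.2.2.2.2)))
      448 ≤ d + 1 → (d + 1) * d ∣ 2 ^ 24 * (2 ^ 2 - 1) * (2 ^ 6 - 1) * (2 ^ 8 - 1) * (2 ^ 12 - 1) → d + 1 = 2 ^ 12 := by
    decide +kernel
  exact key (a', b', c', e', f') (by simp; omega) h1 h2

end CfsgLib.CKS
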