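import Mathlib
import Cfsg.Agent.Lib.MinDeg.G2d
import Cfsg.Agent.Lib.St.Unip

/-! CKS, package G2: computations in the group `G₂(q)`. -/

namespace CfsgLib.CKS.G2D
open Cfsg Subgroup RGD Stein MinDeg Semi

theorem pos_iff6 : ∀ r : Fin 12, ΦG2.Pos r ↔ 6 ≤ r := by
  intro r
  have h := rf_eq r
  simp only [RootSys.Pos, Fin.forall_fin_two, h.2.1, h.2.2.1]
  revert r
  decide

theorem isSum_tbl {r s k : Fin 12} (hr : 6 ≤ r) (hs : 6 ≤ s) (h : ΦG2.IsSum r s k) : k ∈ (tbl r s).map (·.1) := by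
  obtain ⟨a, b, ha, hb, e⟩ := h
  have e0 := e 0
  have e1 := e 1
  rw [(rf_eq r).2.1, (rf_eq s).2.1, (rf_eq k).2.1] at e0
  rw [(rf_eq r).2.2.1, (rf_eq s).2.2.1, (rf_eq k).2.2.1] at e1
  have h1 : ∀ r : Fin 12, (6 ≤ r → 1 ≤ ra r + rb r) ∧ ra r + rb r ≤ 5 := by decide
  have h2 : (a : ℤ) + b ≤ 5 := by nlinarith [(h1 r).1 hr, (h1 s).1 hs, (h1 k).2]
  have key : ∀ r s k : Fin 12, ∀ a b : Fin 5, (6 ≤ r ∧ 6 ≤ s ∧ 0 < a.1 ∧ 0 < b.1 ∧
      ra k = a.1 * ra r + b.1 * ra s ∧ rb k = a.1 * rb r + b.1 * rb s) → k ∈ (tbl r s).map (·.1) := by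
    decide +kernel
  exact key r s k ⟨a, by omega⟩ ⟨b, by omega⟩ ⟨hr, hs, ha, hb, e0, e1⟩

/-- the sums of roots of `L` and `L'` lie in `K` -/
def Sm (L L' K : List (Fin 12)) : Prop := ∀ r ∈ L, ∀ s ∈ L', 6 ≤ r ∧ 6 ≤ s ∧ ∀ e ∈ tbl r s, e.1 ∈ K

instance (L L' K : List (Fin 12)) : Decidable (Sm L L' K) := by unfold Sm; infer_instance

theorem Sm.ideal {L L' : List (Fin 12)} (h : Sm L L' L') : ∀ r ∈ {r | r ∈ L}, ∀ s ∈ {r | r ∈ L'},
    s ≠ ΦG2.neg r ∧ ∀ k, ΦG2.IsSum r s k → k ∈ {r | r ∈ L'} := fun r hr s hs => by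
  obtain ⟨h1, h2, h3⟩ := h r hr s hs
  refine ⟨ΦG2.ne_neg_of_pos ((pos_iff6 r).2 h1) ((pos_iff6 s).2 h2), fun k hk => ?_⟩
  obtain ⟨e, he, rfl⟩ := List.mem_map.1 (isSum_tbl h1 h2 hk)
  exact h3 e he

theorem Sm.closed {L : List (Fin 12)} (h : Sm L L L) : ΦG2.Closed {r | r ∈ L} :=
  fun r hr s hs => (h.ideal r hr s hs).2

theorem Sm.pos {L : List (Fin 12)} (h : Sm L L L) : ∀ r ∈ {r | r ∈ L}, ΦG2.Pos r :=
  fun r hr => (pos_iff6 r).2 (h r hr r hr).1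

variable {F G : Type*} [Field F] [Group G]

/-- the data of type `G₂` -/
structure GD (S : StSys ΦG2 F G) (R : GS F G) : Prop where
  hx : ∀ r t, R.x r t = S.x r t
  nd : S.Nondeg
  top : S.grp = ⊤
  r3 : R3 S
  cH : Nat.card S.H = (Nat.card F - 1) ^ 2
  cG : Nat.card G = Nat.card F ^ 6 * (Nat.card F ^ 2 - 1) * (Nat.card F ^ 6 - 1)

variable (S : StSys ΦG2 F G) in
/-- the group generated by the root groups of a list -/
abbrev UL (L : List (Fin 12)) : Subgroup G := S.UU {r | r ∈ L}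

variable {S : StSys ΦG2 F G} {R : GS F G}

theorem U_eq : S.U = UL S [7, 6, 8, 9, 10, 11] :=
  congrArg S.UU (Set.ext fun r => (pos_iff6 r).trans (by revert r; decide))

theorem UL_le_U {L : List (Fin 12)} (h : ∀ r ∈ L, 6 ≤ r := by decide) : UL S L ≤ S.U :=
  S.UU_le_U fun r hr => (pos_iff6 r).2 (h r hr)

theorem UL_mono {L L' : List (Fin 12)} (h : L ⊆ L' := by decide) : UL S L ≤ UL S L' := S.UU_mono fun _ hr => h hr

theorem x_mem {L : List (Fin 12)} {r : Fin 12} (t : F) (h : r ∈ L := by decide) : S.x r t ∈ UL S L :=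
  S.x_mem_UU h t

theorem B_norm {L : List (Fin 12)} (h : Sm [7, 6, 8, 9, 10, 11] L L) : ∀ g ∈ S.B, ∀ z ∈ UL S L, g * z * g⁻¹ ∈ UL S L := by
  intro g hg z hz
  obtain ⟨u, hu, a, ha, rfl⟩ := S.mem_B_iff.1 hg
  rw [show u * a * z * (u * a)⁻¹ = u * (a * z * a⁻¹) * u⁻¹ by group]
  exact S.conj_mem_UU h.ideal (U_eq.le hu) (S.H_conj_mem_UU ha hz)

theorem exists_xp {L : List (Fin 12)} {g : G} (hg : g ∈ UL S L) (h : Sm L L L ∧ L.Nodup := by decide) :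
    ∃ t : Fin 12 → F, g = S.xprod L t :=
  (S.exists_xprod h.1.closed h.1.pos h.2 (fun _ h => h) hg).imp fun _ h => h.2

variable (S) in
/-- the normal form in the group `Q` -/
def nf (a b c d e : F) : G := S.x 6 a * (S.x 8 b * (S.x 9 c * (S.x 10 d * (S.x 11 e * 1))))

theorem exists_nf {g : G} (hg : g ∈ UL S [6, 8, 9, 10, 11]) : ∃ a b c d e, g = nf S a b c d e := by
  obtain ⟨t, rfl⟩ := exists_xp hg
  exact ⟨_, _, _, _, _, rfl⟩

theorem exists_nf' {g : G} (hg : g ∈ UL S [8, 9, 10, 11]) : ∃ b c d e, g = nf S 0 b c d e := by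
  obtain ⟨t, rfl⟩ := exists_xp hg
  exact ⟨_, _, _, _, by rw [nf, S.x_zero, one_mul]; rfl⟩

theorem mul_cm (a b : G) : a * b = b * a * cm a b := by rw [cm]; group

theorem mg (r : Fin 12) (s t : F) (g : G) : S.x r s * (S.x r t * g) = S.x r (s + t) * g := by
  rw [S.x_add, mul_assoc]

theorem exists_ne01 (h : 3 ≤ Nat.card F) : ∃ v : F, v ≠ 0 ∧ v ≠ 1 := by
  by_contra! h1
  have := Nat.card_le_card_of_surjective (fun b : Bool => if b then (1 : F) else 0) fun v => by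
    by_cases h0 : v = 0
    exacts [⟨false, h0.symm⟩, ⟨true, (h1 v h0).symm⟩]
  simp at this
  omega

namespace GD

variable (h : GD S R)
include h

theorem card_UL (L : List (Fin 12)) (hL : Sm L L L ∧ L.Nodup := by decide) :
    Nat.card (UL S L) = Nat.card F ^ L.length := by
  rw [h.nd.card_UU hL.1.closed hL.1.pos, ← List.toFinset_card_of_nodup hL.2, ← Set.ncard_coe_finset]
  simp

theorem pg [Finite F] (p : ℕ) [Fact p.Prime] [CharP F p] (L : List (Fin 12)) (hL : Sm L L L := by decide) :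
    IsPGroup p (UL S L) := St.isPGroup_UU h.nd p hL.closed hL.pos

theorem comm (k : ℤ) (hk : (k : F) = 0) (r s : Fin 12) (t u : F) (hc : Cm k [] r s := by decide) :
    Commute (S.x r t) (S.x s u) := h.hx r t ▸ h.hx s u ▸ R.commute hk hc t u

theorem commute_UL (k : ℤ) (hk : (k : F) = 0) {L L' : List (Fin 12)} {g y : G} (hg : g ∈ UL S L) (hy : y ∈ UL S L')
    (hc : ∀ r ∈ L, ∀ s ∈ L', Cm k [] r s := by decide) : Commute g y :=
  S.UU_induction (p := fun g => Commute g y) (Commute.one_left _) (fun r hr t _ _ ih => ih.mul_left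
    (S.UU_induction (p := fun y => Commute (S.x r t) y) (Commute.one_right _)
      (fun s hs u _ _ ih => ih.mul_right (h.comm k hk r s t u (hc r hr s hs))) hy)) hg

theorem cm_mem (k : ℤ) (hk : (k : F) = 0) {L L' K : List (Fin 12)} {g y : G} (hg : g ∈ UL S L) (hy : y ∈ UL S L')
    (hc : ∀ r ∈ L, ∀ s ∈ L', Cm k K r s := by decide) (hc1 : ∀ r ∈ L, ∀ s ∈ K, Cm k [] r s := by decide)
    (hc2 : ∀ r ∈ L', ∀ s ∈ K, Cm k [] r s := by decide) : cm g y ∈ UL S K := by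
  have h0 : ∀ r ∈ L, ∀ s ∈ L', ∀ t u, cm (S.x r t) (S.x s u) ∈ UL S K := fun r hr s hs t u => by
    rcases eq_or_ne r s with rfl | h1
    · rw [cm_eq_one_iff.2 (S.x_comm r t u)]; exact one_mem _
    obtain ⟨h2, h3⟩ := (hc r hr s hs).resolve_left h1
    rw [← h.hx, ← h.hx, R.comm' hk h1 h2]
    refine list_prod_mem fun x hx => ?_
    obtain ⟨e, he, rfl⟩ := List.mem_map.1 hx
    rw [h.hx]
    exact x_mem _ (h3 e he)
  refine S.UU_induction (p := fun g => cm g y ∈ UL S K) (by simp [cm]) (fun r hr t g _ ih => ?_) hg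
  have h1 : cm (S.x r t) y ∈ UL S K := by
    refine S.UU_induction (p := fun y => cm (S.x r t) y ∈ UL S K) (by simp [cm]) (fun s hs u y _ ih => ?_) hy
    rw [show cm (S.x r t) (y * S.x s u) = cm (S.x r t) (S.x s u) * ((S.x s u)⁻¹ * cm (S.x r t) y * S.x s u) by
      simp only [cm]; group, mul_assoc _ (cm _ y), ← (h.commute_UL k hk (x_mem u hs) ih hc2).eq, inv_mul_cancel_left]
    exact mul_mem (h0 r hr s hs t u) ih
  rw [show cm (g * S.x r t) y = (S.x r t)⁻¹ * cm g y * S.x r t * cm (S.x r t) y by simp only [cm]; group,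
    mul_assoc _ (cm g y), ← (h.commute_UL k hk (x_mem t hr) ih hc1).eq, inv_mul_cancel_left]
  exact mul_mem ih h1

theorem sw (r s : Fin 12) (t u : F) (g : G) (hc : Cm 0 [] r s := by decide) :
    S.x r t * (S.x s u * g) = S.x s u * (S.x r t * g) := (h.comm 0 (by simp) r s t u hc).left_comm g

theorem sw1 (r s z : Fin 12) (c : ℤ) (t u : F) (g : G) (hc : One 0 r s z c := by decide) :
    S.x r t * (S.x s u * g) = S.x s u * (S.x r t * (S.x z (-c * u * t) * g)) := by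
  rw [← mul_assoc, mul_cm (S.x r t), ← h.hx, ← h.hx, R.cm_one (k := 0) (by simp) hc, h.hx, h.hx, h.hx]; group

theorem nf_inj {a b c d e a' b' c' d' e' : F} (H : nf S a b c d e = nf S a' b' c' d' e') :
    a = a' ∧ b = b' ∧ c = c' ∧ d = d' ∧ e = e' := by
  have := h.nd.xprod_inj (L := [6, 8, 9, 10, 11]) (by decide) (fun r hr => (pos_iff6 r).2 (by revert r; decide))
    (t := ![0, 0, 0, 0, 0, 0, a, 0, b, c, d, e]) (t' := ![0, 0, 0, 0, 0, 0, a', 0, b', c', d', e']) H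
  exact ⟨this 6 (by decide), this 8 (by decide), this 9 (by decide), this 10 (by decide), this 11 (by decide)⟩

theorem nf_mul (a b c d e a' b' c' d' e' : F) : nf S a b c d e * nf S a' b' c' d' e' =
    nf S (a + a') (b + b') (c + c') (d + d') (e + e' - a' * d - 3 * b' * c) := by
  simp only [nf, mul_assoc, one_mul, h.sw 11 6, h.sw 11 8, h.sw 11 9, h.sw 11 10, h.sw 8 6, h.sw 9 6, h.sw 10 8,
    h.sw 10 9, h.sw1 10 6 11 1, h.sw1 9 8 11 3, mg]
  congr 6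
  push_cast
  ring

theorem conj6 (w a b c d e : F) : (S.x 6 w)⁻¹ * nf S a b c d e * S.x 6 w = nf S a b c d (e - w * d) := by
  have e1 : ∀ w, S.x 6 w = nf S w 0 0 0 0 := fun w => by simp [nf, S.x_zero]
  rw [← S.x_neg, e1, e1, h.nf_mul, h.nf_mul]
  congr 1 <;> ring

theorem conj8 (w a b c d e : F) : (S.x 8 w)⁻¹ * nf S a b c d e * S.x 8 w = nf S a b c d (e - 3 * w * c) := by
  have e1 : ∀ w, S.x 8 w = nf S 0 w 0 0 0 := fun w => by simp [nf, S.x_zero]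
  rw [← S.x_neg, e1, e1, h.nf_mul, h.nf_mul]
  congr 1 <;> ring

theorem conj7 (v a b c d e : F) : ∃ e', (S.x 7 v)⁻¹ * nf S a b c d e * S.x 7 v =
    nf S a (b + v * a) (c + 2 * v * b + v ^ 2 * a) (d - 3 * v * c - 3 * v ^ 2 * b - v ^ 3 * a) e' := by
  have e0 : ∀ r t, (S.x 7 v)⁻¹ * S.x r t * S.x 7 v = S.x r t * cm (R.x r t) (R.x 7 v) := fun r t => by
    rw [h.hx, h.hx, cm]; group
  have e6 : (S.x 7 v)⁻¹ * S.x 6 a * S.x 7 v = nf S a (v * a) (v ^ 2 * a) (-v ^ 3 * a) (-v ^ 3 * a ^ 2) := by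
    rw [e0, R.comm 6 7 (by decide) (by decide),
      show tbl 6 7 = [(8, -1, 1, 1), (9, 1, 2, 1), (10, 1, 3, 1), (11, 1, 3, 2)] from rfl]
    simp only [List.map_cons, List.map_nil, List.prod_cons, List.prod_nil, h.hx, nf]
    push_cast
    ring_nf
  have e8 : (S.x 7 v)⁻¹ * S.x 8 b * S.x 7 v = nf S 0 b (2 * v * b) (-3 * v ^ 2 * b) (-3 * v * b ^ 2) := by
    rw [e0, R.comm 8 7 (by decide) (by decide), show tbl 8 7 = [(9, -2, 1, 1), (10, -3, 2, 1), (11, 3, 1, 2)] from rfl]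
    simp only [List.map_cons, List.map_nil, List.prod_cons, List.prod_nil, h.hx, nf, S.x_zero, one_mul]
    push_cast
    ring_nf
  have e9 : (S.x 7 v)⁻¹ * S.x 9 c * S.x 7 v = nf S 0 0 c (-3 * v * c) 0 := by
    rw [e0, R.cm_one (k := 0) (z := 10) (c := 3) (by simp) (by decide)]
    simp [nf, S.x_zero, h.hx]
  have e10 : (S.x 7 v)⁻¹ * (S.x 10 d * (S.x 11 e * 1)) * S.x 7 v = nf S 0 0 0 d e := by
    rw [mul_assoc, mul_assoc, mul_assoc, one_mul, ← mul_one (S.x 7 v), h.sw 11 7, h.sw 10 7, mul_one (S.x 7 v),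
      inv_mul_cancel_left]
    simp [nf, S.x_zero]
  rw [show (S.x 7 v)⁻¹ * nf S a b c d e * S.x 7 v = (S.x 7 v)⁻¹ * S.x 6 a * S.x 7 v * ((S.x 7 v)⁻¹ * S.x 8 b * S.x 7 v) *
    ((S.x 7 v)⁻¹ * S.x 9 c * S.x 7 v) * ((S.x 7 v)⁻¹ * (S.x 10 d * (S.x 11 e * 1)) * S.x 7 v) by rw [nf]; group,
    e6, e8, e9, e10, h.nf_mul, h.nf_mul, h.nf_mul]
  exact ⟨_, congrFun (by congr 1 <;> ring) _⟩

theorem exists_conj_x (r s : Fin 12) {t : F} (ht : t ≠ 0) : ∃ u, u ≠ 0 ∧ ∃ g : G, S.x (rf r s) t = g * S.x s u * g⁻¹ := by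
  obtain ⟨l, hl, e⟩ := R.n_conj r s
  exact ⟨l⁻¹ * t, by simp [hl, ht], R.n r, by rw [← h.hx s, e, mul_inv_cancel_left₀ hl, h.hx]⟩

theorem isConj_x (r : Fin 12) {t : F} (ht : t ≠ 0) : IsConj (S.x r 1) (S.x r t) := by
  obtain ⟨c, e⟩ := R.tor1 r ht
  exact isConj_iff.2 ⟨R.τ c, by rw [← h.hx, e, mul_one, h.hx]⟩

theorem x_ne_one (r : Fin 12) {t : F} (ht : t ≠ 0) : S.x r t ≠ 1 := fun e => ht (h.nd.eq_zero_of_x_eq_one e)

theorem not_central : S.x 11 1 ∉ center G := fun e => by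
  obtain ⟨u, hu, g, e1⟩ := h.exists_conj_x 6 11 one_ne_zero
  obtain ⟨g', e2⟩ := isConj_iff.1 (h.isConj_x 11 hu)
  rw [← e2, mem_center_iff.1 e g', mul_inv_cancel_right, mem_center_iff.1 e g, mul_inv_cancel_right] at e1
  exact absurd (h.nd.root_eq_of_x_eq one_ne_zero e1) (by decide)

theorem isConj_T {t : G} (ht : t ∈ UL S [10, 11]) (h1 : t ≠ 1) : IsConj (S.x 11 1) t := by
  obtain ⟨c, rfl⟩ := exists_xp ht
  by_cases h0 : c 10 = 0
  · simp only [StSys.xprod_cons, StSys.xprod_nil, h0, S.x_zero, one_mul, mul_one] at h1 ⊢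
    exact h.isConj_x 11 fun e => h1 (by rw [e, S.x_zero])
  obtain ⟨u, hu, g, e1⟩ := h.exists_conj_x 6 11 h0
  have e2 := h.conj6 (-c 11 / c 10) 0 0 0 (c 10) 0
  rw [show (0 : F) - -c 11 / c 10 * c 10 = c 11 by field_simp; ring] at e2
  refine ((h.isConj_x 11 hu).trans (isConj_iff.2 ⟨g, e1.symm⟩)).trans (isConj_iff.2 ⟨(S.x 6 (-c 11 / c 10))⁻¹, ?_⟩)
  simpa [nf, S.x_zero, StSys.xprod_cons, StSys.xprod_nil, show MinDeg.rf 6 11 = 10 by decide] using e2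

theorem card_U : Nat.card S.U = Nat.card F ^ 6 := by rw [U_eq, h.card_UL [7, 6, 8, 9, 10, 11]]; rfl

theorem card_P [Finite F] [Finite G] : Nat.card (S.P {0}) = Nat.card F ^ 6 * (Nat.card F - 1) ^ 2 * (1 + Nat.card F) := by
  classical
  have h1 : (1 : Equiv.Perm (Fin 12)) ≠ ΦG2.s 0 := fun e => by simpa [← e, ΦG2.len_one] using ΦG2.len_s 0
  rw [h.nd.card_P {0} {1, ΦG2.s 0} fun w => ?_, h.nd.card_B, h.card_U, h.cH, Finset.sum_pair h1, ΦG2.len_one,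
    ΦG2.len_s, pow_zero, pow_one]
  rw [RootSys.WJ, Set.image_singleton, Finset.mem_insert, Finset.mem_singleton, ← zpowers_eq_closure]
  refine ⟨by rintro (rfl | rfl); exacts [one_mem _, mem_zpowers _], ?_⟩
  rintro ⟨k, rfl⟩
  have h2 : ΦG2.s 0 ^ (2 : ℤ) = 1 := by rw [zpow_two, ΦG2.s_mul_self]
  obtain ⟨j, rfl | rfl⟩ := Int.even_or_odd' k <;> simp [zpow_add, zpow_mul, h2]

theorem P_norm : ∀ g ∈ S.P {0}, ∀ z ∈ UL S [11], g * z * g⁻¹ ∈ UL S [11] := by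
  intro g hg z hz
  rw [S.P_eq_H_sup_UU, sup_comm] at hg
  obtain ⟨u, hu, a, ha, rfl⟩ := S.mem_UU_sup_H_iff.1 hg
  have h1 : u ∈ UL S [4, 6, 7, 8, 9, 10, 11] := S.UU_mono (fun r hr => by
    have h2 : 6 ≤ r ∨ rb r = 0 := hr.imp (pos_iff6 r).1 fun e => (rf_eq r).2.2.1 ▸ e 1 (by decide)
    clear hr
    revert r
    decide) hu
  have h2 := S.H_conj_mem_UU ha hz
  rw [show u * a * z * (u * a)⁻¹ = u * (a * z * a⁻¹) * u⁻¹ by group, (h.commute_UL 0 (by simp) h1 h2).eq,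
    mul_inv_cancel_right]
  exact h2

end GD

theorem gd_G2 (F : Type*) [Field F] [Fintype F] [Chev.Good Lie.chevG2] :
    GD (gSys F Weyl.rtOKG2 genOKG2) (gsG2 F) := by
  refine ⟨fun _ _ => rfl, gSys_nondeg _ _, Cover.sys_grp _ _ _, gSys_r3 _ _, ?_, card_G2 F Nat.card_eq_fintype_card.symm⟩
  rw [Nat.card_eq_fintype_card (α := F), ← Chev.card_diagonalSubgroup_G2, ← Chev.stSys_H Weyl.rtOKG2,
    ← Stein.map_H ((Lie.chevG2.group F).subtype.comp (MonoidHom.id _)) (Cover.sys_map _ Weyl.rtOKG2 genOKG2)]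
  exact (card_map_of_injective (by simpa using subtype_injective _)).symm

end CfsgLib.CKS.G2D
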