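import Mathlib
import Cfsg.Agent.Lib.CKS.How2
import Cfsg.Agent.Lib.MinDeg.D4
import Cfsg.Agent.Lib.TwMult.D4

/-! CKS, package GEND: the triality groups and the small Ree groups. -/

namespace CfsgLib.CKS
open Cfsg MulAction

section filt
open RGD Twist TwMult
open scoped commutatorElement

variable {ι κ B : Type} [Fintype κ] [DecidableEq κ] {Φ : RootSys ι κ} [Finite ι] {F : Type*} [Field F]
  {G : Type*} [Group G] {S : StSys Φ F G} {T : Tw S B} {n : ℕ} {o : ι → ℕ} {rep : ℕ → ι} (h : Filt T n o rep)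
  {M : Subgroup G} (hM : IsTw T M) {m : ℕ} (hm : m < n)
include h hM hm

theorem gd_co_zero {g : G} (hg : g ∈ S.UU (lev Φ o m \ {rep m})) : co S (lev Φ o m) (rep m) g = 0 :=
  co_eq hM.nondeg (h.closed_diff (h.o_rep m hm)) (fun _ h => h.1) (h.pos m hm) (by simpa [S.x_zero] using hg)

theorem gd_co_x (t : F) : co S (lev Φ o m) (rep m) (S.x (rep m) t) = t :=
  co_eq hM.nondeg (h.closed_diff (h.o_rep m hm)) (fun _ h => h.1) (h.pos m hm) (by simp)

theorem gd_co_conj {g x : G} (hg : g ∈ S.U) (hx : x ∈ S.UU (lev Φ o m)) :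
    co S (lev Φ o m) (rep m) (g * x * g⁻¹) = co S (lev Φ o m) (rep m) x := by
  have k := S.UU_mono (lev_succ_subset (h.o_rep m hm)) (h.comm_mem hg hx)
  rw [show g * x * g⁻¹ = ⁅g, x⁆ * x by group, h.co_mul hM (h.pos m hm) (h.o_rep m hm)
    (S.UU_mono Set.sdiff_subset k) hx, gd_co_zero h hM hm k, zero_add]

theorem gd_step {K : Subgroup G} (hK : K ≤ M) (h1 : S.UU (lev Φ o (m + 1)) ⊓ M ≤ K)
    (h2 : ∀ c, ∃ k ∈ K, k ∈ S.UU (lev Φ o m) ∧ co S (lev Φ o m) (rep m) k = c) : S.UU (lev Φ o m) ⊓ M ≤ K := by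
  rintro g ⟨hg, gM⟩
  obtain ⟨k, k1, k2, e⟩ := h2 (co S (lev Φ o m) (rep m) g)
  exact (mul_mem_cancel_left (inv_mem k1)).1 (h1 ⟨(h.lin hM hm).mem_of_eq (a := ⟨k, hK k1⟩) (b := ⟨g, gM⟩) k2 hg e,
    M.mul_mem (M.inv_mem (hK k1)) gM⟩)

omit hm

theorem gd_co_left (hm : m + 1 < n) {a a' b : G} (ha : a ∈ S.U) (ha' : a' ∈ S.U) (hb : b ∈ S.UU (lev Φ o m)) :
    co S (lev Φ o (m + 1)) (rep (m + 1)) ⁅a * a', b⁆ =
      co S (lev Φ o (m + 1)) (rep (m + 1)) ⁅a, b⁆ + co S (lev Φ o (m + 1)) (rep (m + 1)) ⁅a', b⁆ := by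
  rw [commutatorElement_mul_left_eq_conj_mul, h.co_mul hM (h.pos _ hm) (h.o_rep _ hm)
    (h.conj_mem ha (h.comm_mem ha' hb)) (h.comm_mem ha hb), gd_co_conj h hM hm ha (h.comm_mem ha' hb), add_comm]

theorem gd_co_right (hm : m + 1 < n) {a b b' : G} (ha : a ∈ S.U) (hb : b ∈ S.UU (lev Φ o m)) (hb' : b' ∈ S.UU (lev Φ o m)) :
    co S (lev Φ o (m + 1)) (rep (m + 1)) ⁅a, b * b'⁆ =
      co S (lev Φ o (m + 1)) (rep (m + 1)) ⁅a, b⁆ + co S (lev Φ o (m + 1)) (rep (m + 1)) ⁅a, b'⁆ := by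
  have hU := S.UU_le_U (fun _ h => h.1) hb
  rw [show ⁅a, b * b'⁆ = ⁅a, b⁆ * (b * ⁅a, b'⁆ * b⁻¹) by
    simp only [commutatorElement_def]; group, h.co_mul hM (h.pos _ hm) (h.o_rep _ hm)
    (h.comm_mem ha hb) (h.conj_mem hU (h.comm_mem ha hb')), gd_co_conj h hM hm hU (h.comm_mem ha hb')]

end filt

section d4
open RGD Twist TwMult Stein MinDeg Chev Weyl Lie LieAll
open scoped commutatorElement

variable {K : Type} [Field K] [Fintype K] {q : ℕ} {φ : K →+* K} (hφ : ∀ t, φ t = t ^ q) (hK : Fintype.card K = q ^ 3)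

omit [Fintype K] in
theorem gd_fix (h3 : ∀ t, φ (φ (φ t)) = t) (t : K) :
    xU chevD4 K 15 t * xU chevD4 K 19 (-φ t) * xU chevD4 K 16 (φ (φ t)) ∈ (twD4 φ).Fix := by
  have k0 : ∀ r < 24, ∀ t, xU chevD4 K r t ∈ (stSys rtOKD4 K).grp :=
    fun r h t => xD4_mem ⟨r, h⟩ (Set.mem_univ _) t
  refine ⟨mul_mem (mul_mem (k0 15 (by decide) _) (k0 19 (by decide) _)) (k0 16 (by decide) _), ?_⟩
  rw [(twD4 φ).σ_mul3 (k0 15 (by decide) _) (k0 19 (by decide) _) (k0 16 (by decide) _), twD4_σ_x φ (by decide), twD4_σ_x φ (by decide),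
    twD4_σ_x φ (by decide), mul_assoc (xU chevD4 K 15 t), ((commD4 15 19 _ _).mul_right (commD4 15 16 _ _)).eq]
  simp [rhoD4a, epsD4a, h3]

include hφ hK

theorem gd_onto (c : K) : ∃ s t : K, s * φ (φ t) + φ (φ s) * t = c := by
  have h := ltD4 hφ hK
  have h3 := frob3 hφ hK
  obtain ⟨s, hs⟩ : ∃ s, s + φ (φ s) ≠ 0 := by
    by_contra n
    push Not at n
    have e : ∀ s, φ s = s := fun s => by
      have h1 := n 1
      have h2 := n (φ s)
      rw [map_one, map_one] at h1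
      rw [h3] at h2
      linear_combination h2 - s * h1
    have c1 := h.card_fix
    have c2 := h.two_le
    rw [Nat.card_congr (Equiv.subtypeUnivEquiv e), h.card_F] at c1
    nlinarith [Nat.pow_le_pow_left c2 2]
  obtain ⟨v, rfl⟩ : ∃ v, c = v * (s + φ (φ s)) := ⟨c / _, (div_mul_cancel₀ _ hs).symm⟩
  by_cases v0 : v = 0
  · exact ⟨0, 0, by simp [v0]⟩
  have v1 := (map_ne_zero φ).2 v0
  have v2 := (map_ne_zero φ).2 v1
  refine ⟨(φ (φ v))⁻¹ * s, v * φ v, ?_⟩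
  simp only [map_mul, map_inv₀, h3]
  field_simp

theorem genD4' (p : ℕ) [Fact p.Prime] [CharP K p] : Gen (twD4 φ) (twistedD4 K q) := by
  have h := ltD4 hφ hK
  have h3 := frob3 hφ hK
  have hM := h.tw
  have hf := filtD4 φ
  refine gen_of_chars hM p fun l hl => ?_
  let A := (stSys rtOKD4 K).U ⊓ twistedD4 K q
  let C := l.ker.map A.subtype
  have hC : C ≤ twistedD4 K q := (Subgroup.map_subtype_le _).trans inf_le_right
  have cm : ∀ a ∈ A, ∀ b ∈ A, ⁅a, b⁆ ∈ C := fun a ha b hb =>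
    ⟨⁅(⟨a, ha⟩ : A), ⟨b, hb⟩⁆, by
      rw [SetLike.mem_coe, MonoidHom.mem_ker, map_commutatorElement, commutatorElement_eq_one_iff_mul_comm, mul_comm], rfl⟩
  suffices A ≤ C from MonoidHom.ext fun u => by
    obtain ⟨v, hv, e⟩ := this u.2
    exact Subtype.ext (a2 := u) e ▸ hv
  have lv : ∀ r m, (r < 24 ∧ 24 ≤ 2 * r ∧ m ≤ oD4 r) → ∀ t, xU chevD4 K r t ∈ (stSys rtOKD4 K).UU
      (lev (rootSys rtOKD4) (fun r => oD4 r) m) := fun r m e => xD4_mem ⟨r, e.1⟩ (mem_lev.2 e.2)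
  have lU : ∀ m, (stSys rtOKD4 K).UU (lev (rootSys rtOKD4) (fun r => oD4 r) m) ≤ (stSys rtOKD4 K).U :=
    fun m => (stSys rtOKD4 K).UU_le_U fun _ h => h.1
  have z : ∀ r m, m < 6 → (r < 24 ∧ 24 ≤ 2 * r ∧ m ≤ oD4 r) → r ≠ repD4 m → ∀ t,
      co (stSys rtOKD4 K) (lev (rootSys rtOKD4) (fun r => oD4 r) m) (repD4 m) (xU chevD4 K r t) = 0 :=
    fun r m hm e e' t => gd_co_zero hf hM hm (xD4_mem ⟨r, e.1⟩ (by
      exact ⟨mem_lev.2 e.2, fun k => e' (congrArg Fin.val k)⟩) t)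
  have long : ∀ r s γ : Fin 24, 24 ≤ 2 * (r : ℕ) ∧ 24 ≤ 2 * (s : ℕ) ∧ 24 ≤ 2 * (γ : ℕ) ∧
      symD4.ρ (rtD4 γ) = rtD4 γ ∧ RAdd (rootSys rtOKD4) (rtD4 r) (rtD4 s) (rtD4 γ) →
      (stSys rtOKD4 K).UU (orb symD4 (rtD4 γ)) ⊓ (twD4 φ).Fix ≤ C := by
    rintro r s γ ⟨h1, h2, h4, h5, h6⟩ g hg
    have p1 := (pos_iff_le (h := rtOKD4) (rtD4 r)).2 h1
    obtain ⟨a, ha, a1⟩ := h.exists_ne_one topD4 p1
    obtain ⟨b, hb, e⟩ := h.conj_YY (h.exact_of_fixed h5 h6) p1 ((pos_iff_le _).2 h4) ha a1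
      (z := ⟨g, h.mem_M_orb hg.1 hg.2⟩) hg.1
    have := cm a.1⁻¹ (A.inv_mem ⟨StSys.UU_le_U _ (fun _ => h.pos_orb p1) ha, a.2⟩) b.1
      ⟨StSys.UU_le_U _ (fun _ => h.pos_orb ((pos_iff_le _).2 h2)) hb, b.2⟩
    have e' : b.1 * a.1 * b.1⁻¹ = a.1 * g := congrArg Subtype.val e
    rwa [commutatorElement_def, inv_inv, mul_assoc, mul_assoc, ← mul_assoc b.1, e',
      inv_mul_cancel_left] at this
  have st : ∀ m, Stb symD4 (lev (rootSys rtOKD4) (fun r => oD4 r) m) := fun m r hr =>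
    ⟨(twD4 φ).pos_ρ hr.1, hr.2.trans (hf.ρ r hr.1).ge⟩
  have l4 : (stSys rtOKD4 K).UU (lev (rootSys rtOKD4) (fun r => oD4 r) 4) ⊓ twistedD4 K q ≤ C :=
    (inf_le_inf_left _ hM.le_fix).trans (h.le_of_orb (fun _ h => h.1) (hf.closed 4) (st 4) fun r hr => by
      obtain rfl | rfl : r = rtD4 22 ∨ r = rtD4 23 := by
        rw [mem_lev] at hr
        revert r; decide +kernel
      exacts [long 18 17 22 (by decide +kernel), long 14 22 23 (by decide +kernel)])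
  have a1 : ∀ s, xU chevD4 K 12 s * xU chevD4 K 18 (φ s) * xU chevD4 K 13 (φ (φ s)) ∈ A := fun s => by
    have := (twD4 φ).triple_pos_fix piD4.2.2.2 piD4.1 piD4.2.2.1 orthD4_03.symm orthD4_23.symm h3 s
    have k := lU 1 (mul_mem (mul_mem (lv 12 1 (by decide) s) (lv 18 1 (by decide) (φ s)))
      (lv 13 1 (by decide) (φ (φ s))))
    exact ⟨k, hM.mem_of_mem_U k this⟩
  have l3 := gd_step hf hM (m := 3) (by decide) hC l4 fun c => by
    obtain ⟨s, t, rfl⟩ := gd_onto hφ hK c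
    have b1 := lv 15 2 (by decide) t
    have b2 := lv 19 2 (by decide) (-φ t)
    have b3 := lv 16 2 (by decide) (φ (φ t))
    have b4 := mul_mem (mul_mem b1 b2) b3
    have u := fun r e t => lU 0 (lv r 0 e t)
    refine ⟨_, cm _ (a1 s) _ ⟨lU _ b4, hM.mem_of_mem_U (lU _ b4) (gd_fix h3 t)⟩, hf.comm_mem (a1 s).1 b4, ?_⟩
    have u1 := u 12 (by decide) s
    have u2 := u 18 (by decide) (φ s)
    have u3 := u 13 (by decide) (φ (φ s))
    have R := fun {a} (ha : a ∈ (stSys rtOKD4 K).U) => (gd_co_right hf hM (m := 2) (by decide) ha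
      (mul_mem b1 b2) b3).trans (congrArg (· + _) (gd_co_right hf hM (m := 2) (by decide) ha b1 b2))
    have c0 := fun r s t u h => commutatorElement_eq_one_iff_commute.2 (commD4 (K := K) r s t u h)
    have c1 := fun r s k c (h : r < chevD4.nroots ∧ s < chevD4.nroots ∧ r ≠ chevD4.neg s ∧
      chevD4.commTerms s r = [(k, c, 1, 1)]) => commutator_xU_single (K := K) h.1 h.2.1 h.2.2.1 h.2.2.2
    refine (gd_co_left hf hM (m := 2) (by decide) (mul_mem u1 u2) u3 b4).trans ?_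
    rw [gd_co_left hf hM (m := 2) (by decide) u1 u2 b4, R u1, R u2, R u3]
    rw [c0 12 15 _ _ (by decide +kernel), c0 18 19 _ _ (by decide +kernel), c0 13 16 _ _ (by decide +kernel),
      c1 12 19 20 (-1) (by decide +kernel), c1 12 16 17 (-1) (by decide +kernel),
      c1 18 15 20 1 (by decide +kernel), c1 18 16 21 1 (by decide +kernel), c1 13 15 17 (-1) (by decide +kernel),
      c1 13 19 21 (-1) (by decide +kernel)]
    have z0 := gd_co_zero hf hM (m := 3) (by decide) (one_mem _)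
    have z1 := z 20 3 (by decide) (by decide) (by decide)
    have z2 := z 21 3 (by decide) (by decide) (by decide)
    have z3 := gd_co_x hf hM (m := 3) (by decide)
    exact (congrArg₂ (· + ·) (congrArg₂ (· + ·) (congrArg₂ (· + ·) (congrArg₂ (· + ·) z0 (z1 _)) (z3 _))
      (congrArg₂ (· + ·) (congrArg₂ (· + ·) (z1 _) z0) (z2 _)))
      (congrArg₂ (· + ·) (congrArg₂ (· + ·) (z3 _) (z2 _)) z0)).trans (by push_cast; ring)
  have l2 := gd_step hf hM (m := 2) (by decide) hC l3 fun c => by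
    have b1 := lv 12 1 (by decide) (-c)
    have b2 := lv 18 1 (by decide) (φ (-c))
    have b3 := lv 13 1 (by decide) (φ (φ (-c)))
    have u := lU 0 (lv 14 0 (by decide) 1)
    have c1 := fun r s k c (h : r < chevD4.nroots ∧ s < chevD4.nroots ∧ r ≠ chevD4.neg s ∧
      chevD4.commTerms s r = [(k, c, 1, 1)]) => commutator_xU_single (K := K) h.1 h.2.1 h.2.2.1 h.2.2.2
    refine ⟨_, cm _ ⟨u, hM.mem_of_mem_U u ((twD4 φ).x_pos_fix piD4.2.1 (map_one φ))⟩ _ (a1 (-c)),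
      hf.comm_mem u (mul_mem (mul_mem b1 b2) b3), ?_⟩
    refine (gd_co_right hf hM (m := 1) (by decide) u (mul_mem b1 b2) b3).trans ?_
    rw [gd_co_right hf hM (m := 1) (by decide) u b1 b2]
    rw [c1 14 12 15 1 (by decide +kernel), c1 14 18 19 (-1) (by decide +kernel),
      c1 14 13 16 1 (by decide +kernel)]
    exact (congrArg₂ (· + ·) (congrArg₂ (· + ·) (gd_co_x hf hM (m := 2) (by decide) _)
      (z 19 2 (by decide) (by decide) (by decide) _)) (z 16 2 (by decide) (by decide) (by decide) _)).trans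
      (by push_cast; ring)
  refine (inf_le_inf_left _ hM.le_fix).trans (h.le_of_orb (fun _ h => h) (rootSys rtOKD4).closed_pos
    (stb_pos _) fun r hr g hg => ?_)
  have gM := h.mem_M_orb hg.1 hg.2
  obtain e | ⟨i, rfl⟩ : r ∈ lev (rootSys rtOKD4) (fun r => oD4 r) 2 ∨ ∃ i, r = (rootSys rtOKD4).simple i := by
    have hr' := (pos_iff_le r).1 hr
    rw [mem_lev]
    clear gM hg hr
    revert r; decide +kernel
  · exact l2 ⟨StSys.UU_mono _ ((st 2).orb_subset e) hg.1, gM⟩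
  · exact ⟨⟨g, StSys.UU_le_U _ (fun _ => h.pos_orb hr) hg.1, gM⟩, hl (symD4.orb i) _
      ⟨StSys.UU_mono _ (Stb.orb_subset (fun _ => (twD4 φ).ρ_mem_posJ) (simple_mem_posJ rfl)) hg.1, gM⟩, rfl⟩

end d4

variable {p : ℕ} [Fact p.Prime] {F : Type} [Field F] [Fintype F] [CharP F p] {Ω : Type*}

theorem btr_3D4 {q : ℕ} (hq : IsPrimePow q) (hF : Fintype.card F = q ^ 3) [MulAction (Lie.twistedD4 F q) Ω]
    (H : TwoTr (Lie.twistedD4 F q) Ω) (hp : p ∣ Nat.card Ω) : BTr p (Lie.twistedD4 F q) Ω := by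
  obtain ⟨φ, hφ⟩ := Twist.exists_frob hq hF
  exact btr_of_gen (MinDeg.ltD4 hφ hF).tw (genD4' hφ hF p) H hp

omit [Fact p.Prime] [CharP F p] in
theorem btr_ree {m : ℕ} (hF : Fintype.card F = 3 ^ (2 * m + 1)) [MulAction (Lie.twistedG2 F (3 ^ m)) Ω]
    (H : TwoTr (Lie.twistedG2 F (3 ^ m)) Ω) (hp : 3 ∣ Nat.card Ω) : BTr 3 (Lie.twistedG2 F (3 ^ m)) Ω := by
  obtain ⟨_, θ, hθ, h⟩ := LieAll.exists_ree hF
  have : Fact (Nat.Prime 3) := ⟨Nat.prime_three⟩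
  have : Subsingleton (Quotient (Equiv.Perm.SameCycle.setoid
      (Fin.revPerm : Equiv.Perm (Fin Lie.chevG2.rank)))) := ⟨fun a b => by
    obtain ⟨i, rfl⟩ := LieAll.symG2.orb_surj a
    exact (LieAll.J_symG2 b).ge (Set.mem_univ i)⟩
  exact btr_of_gen h.tw gen_of_subsingleton H hp

end CfsgLib.CKS
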