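import Mathlib
import Cfsg.Agent.Lib.CKS.Abs2
import Cfsg.Agent.Lib.CKS.Abs3
import Cfsg.Agent.Lib.CKS.LinB
import Cfsg.Agent.Lib.Core.Fitting

/-! CKS, package LIN1: linear groups with a transitive Borel subgroup. -/

namespace CfsgLib.CKS
open Cfsg MulAction

namespace Lin1P
open CfsgLib.MinIdx CfsgLib.MinIdx.SL CfsgLib.ClMax Module LinB

variable {F : Type*} [Field F] {V : Type*} [AddCommGroup V] [Module F V] [FiniteDimensional F V] [Finite F]
  {Ω : Type*} [MulAction (SLV F V) Ω] {p : ℕ} [hp : Fact p.Prime] [CharP F p]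

theorem ne_zero_of {x : V} {φ : Dual F V} (h : tv x φ ≠ 1) : φ ≠ 0 := by
  rintro rfl; exact h (tv_zero x)

theorem semi (h3 : 3 ≤ finrank F V) (H : TwoTr (SLV F V) Ω) (hB : BTr p (SLV F V) Ω) {x : V} (hx : x ≠ 0) :
    Semi (R F x) Ω := by
  have := finite_SLV (F := F) (V := V)
  have := finite_V (F := F) (V := V)
  have fixv : ∀ v, (∀ r ∈ R F x, r.1 v = v) → v ∈ Submodule.span F {x} := fun v hv => by
    by_contra h
    obtain ⟨φ, h1, h2⟩ := exists_dual_one_zero h
    have h4 := hv _ (tv_mem h2)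
    rw [tv_apply h2, h1, one_smul] at h4
    exact hx (add_eq_left.1 h4)
  obtain ⟨y, hy⟩ := exists_notMem_pair h3 x x
  obtain ⟨w, hw⟩ := exists_notMem_pair h3 x y
  obtain ⟨φ, a1, a2⟩ := notMem_span_iff.1 hw
  have a3 := a2 x (by simp)
  have a4 := a2 y (by simp)
  obtain ⟨ψ, b1, b2⟩ := exists_dual_one_zero (F := F) (u := y) (v := x) (by simpa using hy)
  have y0 : y ≠ 0 := by rintro rfl; simp at b1
  have tP : tv y φ ∈ lineStab (SLV F V).subtype x := ⟨1, one_ne_zero, by
    change (tv y φ).1 x = _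
    rw [tv_apply a4, a3, zero_smul, add_zero, one_smul]⟩
  have nR : lineStab (SLV F V).subtype x ≤ Subgroup.normalizer (R F x : Set (SLV F V)) := fun g hg =>
    Subgroup.mem_normalizer_fintype fun z hz => conj_R hg z hz
  obtain ⟨U, hU⟩ := (((isPGroup_R (p := p) y0).to_le (Subgroup.zpowers_le.2 (tv_mem a4))).to_sup_of_normal_right'
    (isPGroup_R hx) (Subgroup.zpowers_le.2 (nR tP))).exists_le_sylow
  have RU : R F x ≤ U := le_sup_right.trans hU
  have NP : Subgroup.normalizer (U.1 : Set (SLV F V)) ≤ lineStab (SLV F V).subtype x := fun g hg => by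
    have h1 := flag_inv (SLV F V).subtype RU U.2 (k := 1) (by omega)
      (fun i => if i = 0 then ⊥ else Submodule.span F {x})
      (fun i hi => by interval_cases i <;> simp [finrank_span_singleton hx])
      (fun i hi v hv => by
        obtain rfl : i = 0 := by omega
        exact fixv v fun r hr => sub_eq_zero.1 (hv r hr)) g hg 1 le_rfl x (Submodule.mem_span_singleton_self x)
    obtain ⟨c, hc⟩ := Submodule.mem_span_singleton.1 h1
    refine ⟨c, ?_, hc.symm⟩
    rintro rfl
    exact hx (g.1.map_eq_zero_iff.1 (hc.symm.trans (zero_smul _ _)))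
  have cU : Subgroup.normalizer (U.1 : Set (SLV F V)) ≤
      Subgroup.normalizer (R F x ⊓ Subgroup.centralizer (U.1 : Set (SLV F V)) : Subgroup (SLV F V)) :=
    (le_inf (NP.trans nR) (Core.normalizer_le_normalizer_centralizer _)).trans
      Subgroup.inf_normalizer_le_normalizer_inf
  refine H.line (p := p) (hB U) (Z := R F x ⊓ Subgroup.centralizer (U.1 : Set (SLV F V)))
    (lt_of_le_of_ne inf_le_left fun e => ?_) (fun g hg z hz => (Subgroup.mem_normalizer_iff.1 (cU hg) z).1 hz)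
    (fun g hg => conj_R (NP hg)) (isPGroup_R hx) (fun t ht t1 t' ht' t1' => ?_) fun h => ?_
  · have h1 := (e.ge (tv_mem b2)).2 _ (hU (Subgroup.mem_sup_left (Subgroup.mem_zpowers _)))
    have h2 := congrArg (fun g : SLV F V => g.1 w) h1
    simp only [mul_apply', tv_apply a4, tv_apply b2, map_add, map_smul, a1, a3, b1] at h2
    exact hx (by linear_combination (norm := module) -h2)
  · obtain ⟨χ, c1, rfl⟩ := mem_R.1 ht
    obtain ⟨χ', c2, rfl⟩ := mem_R.1 ht'
    obtain ⟨g, g1, g2⟩ := exists_fix_dual h3 (ne_zero_of t1) (ne_zero_of t1') c1 c2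
    rw [← fx_conj g, conj_tv g c1, g1, g2]
  · obtain ⟨⟨t, ht⟩, t1⟩ := Subgroup.ne_bot_iff_exists_ne_one.1 (Core.inf_centralizer_ne_bot_of_isPGroup
      (isPGroup_R hx) U.2 (Subgroup.le_normalizer.trans (NP.trans nR)) fun e => y0 (by
        have h1 := tv_apply b2 y
        rw [Subgroup.mem_bot.1 (e.le (tv_mem b2)), b1, one_smul] at h1
        exact absurd (left_eq_add.1 h1) hx))
    obtain ⟨χ, c1, rfl⟩ := mem_R.1 ht.1
    obtain ⟨u, hu⟩ := ex_one (ne_zero_of fun e => t1 (Subtype.ext e))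
    obtain ⟨g, hg⟩ := exists_map h3 hx y0
    have h1 := conj_tv g c1
    rw [Subgroup.mem_center_iff.1 (h ht) g, mul_inv_cancel_right, hg] at h1
    have h2 := tv_apply (φ := tr g χ) (x := y) (by rw [← hg, tr_apply, c1]) (g.1 u)
    rw [← h1, tv_apply c1, tr_apply, hu] at h2
    simpa [b1, b2] using congrArg ψ h2

omit [Finite F] in
theorem map_q {x : V} (g : vStab (SLV F V).subtype x) :
    (Submodule.span F {x}).map (g.1.1 : V →ₗ[F] V) = Submodule.span F {x} := by
  rw [Submodule.map_span, Set.image_singleton]; exact congrArg (fun v => Submodule.span F {v}) g.2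

omit [Finite F] in
theorem det_q {x : V} (g : vStab (SLV F V).subtype x) :
    Submodule.Quotient.equiv _ _ g.1.1 (map_q g) ∈ SLV F (V ⧸ Submodule.span F {x}) := by
  have he := Submodule.map_le_iff_le_comap.1 (map_q g).le
  have h1 := LinearMap.det_eq_det_mul_det _ _ he
  have h2 : (g.1.1 : V →ₗ[F] V).restrict he = LinearMap.id := LinearMap.ext fun w => Subtype.ext (by
    obtain ⟨c, hc⟩ := Submodule.mem_span_singleton.1 w.2
    change g.1.1 w = w
    rw [← hc, map_smul, show g.1.1 x = x from g.2])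
  rw [mem_SLV.1 g.1.2, h2, LinearMap.det_id, one_mul] at h1
  exact mem_SLV.2 h1.symm

/-- the action of the stabiliser of `x` on the quotient -/
noncomputable def quo (x : V) : vStab (SLV F V).subtype x →* SLV F (V ⧸ Submodule.span F {x}) :=
  MonoidHom.mk' (fun g => ⟨_, det_q g⟩) fun a b => Subtype.ext (LinearEquiv.ext fun u => by
    obtain ⟨u, rfl⟩ := Submodule.Quotient.mk_surjective _ u
    rfl)

theorem quo_mk {x : V} (g : vStab (SLV F V).subtype x) (u : V) :
    (quo x g).1 (Submodule.Quotient.mk u) = Submodule.Quotient.mk (g.1.1 u) := rfl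

theorem quo_surj (x : V) : Function.Surjective (quo (F := F) x) := fun g => by
  obtain ⟨_, ⟨k, rfl⟩, e⟩ := SLV_le_of_forall (X := (quo x).range.map (SLV F _).subtype) (fun v φ _ h => by
    obtain ⟨v, rfl⟩ := Submodule.Quotient.mk_surjective _ v
    have h1 : (φ ∘ₗ (Submodule.span F {x}).mkQ) v = 0 := h
    refine ⟨_, ⟨_, ⟨⟨tv v (φ ∘ₗ (Submodule.span F {x}).mkQ), ?_⟩, rfl⟩, rfl⟩, fun u => ?_⟩
    · change (tv _ _).1 x = x
      rw [tv_apply h1, LinearMap.comp_apply, Submodule.mkQ_apply,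
        (Submodule.Quotient.mk_eq_zero _).2 (Submodule.mem_span_singleton_self x)]
      simp
    · obtain ⟨u, rfl⟩ := Submodule.Quotient.mk_surjective _ u
      change (quo x _).1 _ = _
      rw [quo_mk, tv_apply h1]
      rfl) g.2
  exact ⟨k, Subtype.ext e⟩

theorem quo_ker {x : V} (hx : x ≠ 0) : (quo x).ker = (R F x).subgroupOf _ := by
  ext g
  rw [MonoidHom.mem_ker, Subgroup.mem_subgroupOf, mem_R]
  refine ⟨fun h => ?_, fun ⟨φ, h1, h2⟩ => ext' fun u => ?_⟩
  · obtain ⟨θ, hθ⟩ := exists_dual_one_of_ne (F := F) hx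
    have h1 : (θ ∘ₗ ((g.1.1 : V →ₗ[F] V) - LinearMap.id)) x = 0 := by simp [show g.1.1 x = x from g.2]
    refine ⟨_, h1, ext' fun u => ?_⟩
    have h2 := quo_mk g u
    rw [h] at h2
    obtain ⟨c, hc⟩ := Submodule.mem_span_singleton.1 ((Submodule.Quotient.eq _).1 h2.symm)
    rw [tv_apply h1]
    change _ = u + θ (g.1.1 u - u) • x
    rw [← hc, map_smul, hθ, smul_eq_mul, mul_one, hc, add_sub_cancel]
  · obtain ⟨u, rfl⟩ := Submodule.Quotient.mk_surjective _ u
    rw [quo_mk, h2, tv_apply h1]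
    exact (Submodule.Quotient.eq _).2 (by simpa using Submodule.smul_mem _ _ (Submodule.mem_span_singleton_self x))

theorem index_ne_two (h3 : 3 ≤ finrank F V) (L : Subgroup (SLV F V)) : L.index ≠ 2 := fun h => by
  have hL : L ≠ ⊤ := by rintro rfl; simp at h
  refine hL (eq_top_iff.2 fun g _ => ?_)
  obtain ⟨k, hk, e⟩ := SLV_le_of_forall (X := L.map (SLV F V).subtype) (fun v φ v0 hv => by
    by_cases h0 : φ = 0
    · exact h0 ▸ hasTv_zero_right v
    obtain ⟨u, hu⟩ := ex_one h0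
    obtain ⟨z, hz⟩ := exists_notMem_pair h3 v u
    obtain ⟨χ, c1, c2⟩ := notMem_span_iff.1 hz
    have c3 := c2 v (by simp)
    obtain ⟨w, a1, a2⟩ : ∃ w, φ w = 0 ∧ χ w = 1 := ⟨z - φ z • u, by simp [hu], by simp [c1, c2 u (by simp)]⟩
    have e : tv v χ * tv w φ = tv v φ * (tv w φ * tv v χ) := ext' fun y => by
      simp only [mul_apply', tv_apply c3, tv_apply a1, tv_apply hv, map_add, map_smul, hv, a1, a2, smul_eq_mul]
      module
    have h1 := Subgroup.mul_mem_iff_of_index_two h (a := tv v χ) (b := tv w φ)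
    rw [e, Subgroup.mul_mem_iff_of_index_two h, Subgroup.mul_mem_iff_of_index_two h] at h1
    exact ⟨_, ⟨tv v φ, by change _ ∈ L; tauto, rfl⟩, tv_apply hv⟩) g.2
  rwa [← Subtype.ext e]

theorem not_pow (h4 : 4 ≤ finrank F V) (H : TwoTr (SLV F V) Ω) {x : V} (hx : x ≠ 0) (hs : Semi (R F x) Ω) :
    Nat.card Ω ≠ Nat.card F ^ finrank F V := fun hn => by
  obtain ⟨p, hc⟩ := CharP.exists F
  have := Fact.mk (CharP.char_is_prime F p)
  have := finite_SLV (F := F) (V := V)
  obtain ⟨k, hk⟩ := card_pow (F := F) (p := p)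
  have h1 := trOn_of_pow H.trans (j := k * finrank F V) (by rw [hn, hk, pow_mul])
    (not_dvd_index_vec (p := p) (by omega) hx)
  obtain ⟨ω⟩ := (Nat.card_pos_iff.1 (show 0 < Nat.card Ω by have := H.big; omega)).1
  have h2 := h1.card_inf_stab ω
  let A := (stabilizer (SLV F V) ω).subgroupOf (vStab (SLV F V).subtype x)
  have h3 := Core.card_map_mul_card_inf_ker (quo x) A
  have h5 : A ⊓ (quo x).ker = ⊥ := eq_bot_iff.2 fun g hg => by
    by_contra h
    exact hs g ((quo_ker hx).le hg.2) (fun e => h (Subtype.ext e)) ω hg.1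
  have h6 : Nat.card (quo (F := F) x).ker = Nat.card F ^ (finrank F V - 1) := by
    rw [quo_ker hx, Nat.card_congr (Subgroup.subgroupOfEquivOfLe fun g hg => ?_).toEquiv, card_R hx]
    obtain ⟨φ, h1, rfl⟩ := mem_R.1 hg
    change (tv _ _).1 x = x
    rw [tv_apply h1, h1, zero_smul, add_zero]
  have h7 := (quo (F := F) x).ker.card_mul_index
  rw [Subgroup.index_ker, MonoidHom.range_eq_top.2 (quo_surj x), Subgroup.card_top, h6,
    ← (A.map (quo x)).card_mul_index] at h7
  rw [h5, Subgroup.card_bot, mul_one] at h3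
  have h8 : Nat.card A = Nat.card ↥(vStab (SLV F V).subtype x ⊓ stabilizer (SLV F V) ω) := by
    rw [← Subgroup.card_map_of_injective (Subgroup.subtype_injective _), Subgroup.subgroupOf_map_subtype, inf_comm]
  have q1 : 1 < Nat.card F := Finite.one_lt_card
  have h9 : (A.map (quo x)).index = Nat.card F := by
    rw [← h8, ← h7, h3, hn, ← Nat.sub_add_cancel (show 1 ≤ finrank F V by omega), pow_succ, Nat.add_sub_cancel] at h2
    refine Nat.eq_of_mul_eq_mul_left (show 0 < Nat.card A * Nat.card F ^ (finrank F V - 1) from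
      Nat.mul_pos Nat.card_pos (by positivity)) ?_
    linarith
  have hd : finrank F (V ⧸ Submodule.span F {x}) + 1 = finrank F V := by
    rw [← finrank_span_singleton (K := F) hx, Submodule.finrank_quotient_add_finrank]
  by_cases h : Nat.card F = 2
  · exact index_ne_two (by omega) _ (h9.trans h)
  have h10 := le_index (F := F) (V := V ⧸ Submodule.span F {x}) (by omega) (fun e => h e.2) (A.map (quo x))
    fun e => by rw [e, Subgroup.index_top] at h9; omega
  have h11 := Nat.pow_le_pow_right q1.le (show 2 ≤ finrank F (V ⧸ Submodule.span F {x}) by omega)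
  rw [h9] at h10
  obtain ⟨q, hq⟩ : ∃ q, Nat.card F = q + 1 := ⟨_, (Nat.sub_add_cancel q1.le).symm⟩
  rw [hq] at h10 h11 q1
  rw [Nat.add_sub_cancel, Nat.sub_le_iff_le_add] at h10
  nlinarith

theorem main (h3 : 3 ≤ finrank F V) (H : TwoTr (SLV F V) Ω) (hB : BTr p (SLV F V) Ω) :
    (finrank F V = 4 ∧ Nat.card F = 2 ∧ Nat.card Ω = 8) ∨ (finrank F V = 3 ∧ Nat.card Ω = Nat.card F ^ 3) := by
  have := finite_SLV (F := F) (V := V)
  have := H.finite
  obtain ⟨x, hx⟩ := exists_notMem_pair h3 (0 : V) 0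
  have hx0 : x ≠ 0 := by simpa using hx
  have hs := semi h3 H hB hx0
  have h1 := hs.card_dvd
  obtain ⟨s, h2⟩ := H.numZ (P := lineStab (SLV F V).subtype x) (fun g hg => conj_R hg) hs.orb
  have h4 := le_index_of_line (SLV F V).subtype hx0 fun u hu => exists_map h3 hx0 hu
  have h5 := fun h => not_pow h H hx0 hs
  have h6 : ¬ (finrank F V = 4 ∧ Nat.card F = 2) → Nat.card F ^ finrank F V - 1 ≤ (Nat.card F - 1) * Nat.card Ω :=
    fun h => H.index_stab (Nat.card_pos_iff.1 (show 0 < Nat.card Ω by have := H.big; omega)).1.some ▸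
      le_index h3 h _ (H.stab_ne_top _)
  rw [card_R hx0] at h1 h2
  have q1 : 1 < Nat.card F := Finite.one_lt_card
  have hb := H.big
  generalize Nat.card F = q at *
  generalize (lineStab (SLV F V).subtype x).index = v at *
  obtain ⟨d, hd⟩ : ∃ d, finrank F V = d + 1 := ⟨_, (Nat.sub_add_cancel (by omega)).symm⟩
  rw [hd] at h1 h2 h3 h4 h5 h6 ⊢
  rw [Nat.add_sub_cancel] at h1 h2
  obtain ⟨t, ht⟩ : q - 1 ∣ q ^ d - 1 := by simpa using Nat.sub_dvd_pow_sub_pow q 1 d
  have h7 : q ^ 2 ≤ q ^ d := Nat.pow_le_pow_right q1.le (by omega)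
  obtain ⟨r, rfl⟩ : ∃ r, q = r + 1 := ⟨_, (Nat.sub_add_cancel q1.le).symm⟩
  rw [pow_succ] at h4 h5 h6
  simp only [Nat.add_sub_cancel] at h4 h6 ht
  have r0 : 0 < r := by omega
  have hQ : (r + 1) ^ d = r * t + 1 := by
    have : 0 < (r + 1) ^ d := by positivity
    omega
  have t0 : 0 < t := by
    by_contra h
    obtain rfl : t = 0 := by omega
    nlinarith
  obtain ⟨h, -⟩ | ⟨m, j, a1, a2, a3, a4, -, a5⟩ := arith (s := s) (t := t) (e := r + 1) h1 (by omega) t0
    (by nlinarith) (by omega) (by rw [h2, ← h4, ht]; ring)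
  · by_cases h8 : d = 2
    · exact .inr ⟨by omega, by rw [h, h8]; ring⟩
    · exact absurd h (h5 (by omega))
  have a6 : m = 1 := by
    by_contra h
    have b1 : t * (r + 1 - m) ≤ t * r := Nat.mul_le_mul_left _ (by omega)
    have b2 : (r + 1) ^ d * 2 ≤ (r + 1) ^ d * m := Nat.mul_le_mul_left _ (by omega)
    have b3 := Nat.le_mul_of_pos_left ((r + 1) ^ d * m - 1) a1
    have := mul_comm r t
    have := Nat.mul_pos r0 t0
    omega
  subst a6
  by_cases h : d + 1 = 4 ∧ r + 1 = 2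
  · exact .inl ⟨h.1, h.2, by rw [a4, h.2, show d = 3 by omega]; rfl⟩
  have h8 := h6 h
  rw [a4, Nat.sub_le_iff_le_add] at h8
  nlinarith

end Lin1P

variable {p : ℕ} [Fact p.Prime] {F : Type} [Field F] [Fintype F] [CharP F p] {Ω : Type*}

theorem lin1 {d : ℕ} (hd : 3 ≤ d) [MulAction (PSL d F) Ω] (H : TwoTr (PSL d F) Ω) (hB : BTr p (PSL d F) Ω) :
    (d = 4 ∧ Fintype.card F = 2 ∧ Nat.card Ω = 8) ∨ (d = 3 ∧ Nat.card Ω = Fintype.card F ^ 3) := by
  obtain ⟨_, H, h⟩ := LinB.lift hd H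
  simpa using Lin1P.main (by simpa using hd) H (h p hB)

end CfsgLib.CKS
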