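import Mathlib
import Cfsg.Agent.Lib.CKS.Defs
import Cfsg.Agent.Lib.MinIdx.OFinal

/-! CKS, package ORTH: long root elements of the orthogonal groups. -/

namespace CfsgLib.CKS
open Cfsg MulAction

open CfsgLib.Forms CfsgLib.RootMax CfsgLib.MinIdx Module Submodule

variable {F : Type} [Field F] [Finite F] {V : Type} [AddCommGroup V] [Module F V] [FiniteDimensional F V]
  {Q : QuadraticForm F V}

local notation "𝔅" => PQ.B (ofQuad Q)

/-- the context of Eichler transformations -/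
abbrev oc (hQ : OrthE.Nondeg Q) (h5 : 5 ≤ finrank F V) : Ctx (ofQuad Q) :=
  ctxOf hQ.ofQuad (rootGroup_quad (hQ.E_eq_commutator_of_finite h5))

/-- the long root elements -/
def LR (hQ : OrthE.Nondeg Q) (h5 : 5 ≤ finrank F V) : Set (Om Q) :=
  {g | ∃ x y, Q x = 0 ∧ Q y = 0 ∧ 𝔅 x y = 0 ∧ x ≠ 0 ∧ y ∉ span F {x} ∧ g = (oc hQ h5).ρ x y}

theorem oc_pt (hQ : OrthE.Nondeg Q) (h5 : 5 ≤ finrank F V) {x : V} : (oc hQ h5).Pt x ↔ Q x = 0 := by
  rw [Ctx.pt_iff]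
  exact and_iff_left fun r hr => by rw [(mem_bot F).1 hr]; simp

theorem oc_dir (hQ : OrthE.Nondeg Q) (h5 : 5 ≤ finrank F V) {x a : V} : (oc hQ h5).Dir x a ↔ 𝔅 x a = 0 :=
  and_iff_right fun r hr => by rw [(mem_bot F).1 hr]; simp

theorem finite_Om (hQ : OrthE.Nondeg Q) (h5 : 5 ≤ finrank F V) : Finite (Om Q) := Ctx.finite_K (C := oc hQ h5)

theorem LR_conj (hQ : OrthE.Nondeg Q) (h5 : 5 ≤ finrank F V) (g : Om Q) : ∀ t ∈ LR hQ h5, g * t * g⁻¹ ∈ LR hQ h5 := by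
  rintro _ ⟨x, y, h1, h2, h3, h4, h6, rfl⟩
  refine ⟨g.1 x, g.1 y, (Ctx.q_map (C := oc hQ h5) g x).trans h1, (Ctx.q_map (C := oc hQ h5) g y).trans h2,
    (Ctx.B_map (C := oc hQ h5) g x y).trans h3, fun h => h4 (g.1.map_eq_zero_iff.1 h), fun h => h6 ?_,
    Ctx.ρ_conj (C := oc hQ h5) g ((oc_pt hQ h5).2 h1) ((oc_dir hQ h5).2 h3)⟩
  obtain ⟨c, hc⟩ := mem_span_singleton.1 h
  exact mem_span_singleton.2 ⟨c, g.1.injective (by rw [map_smul, hc])⟩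

end CfsgLib.CKS
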