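import Mathlib
import Cfsg.Agent.Lib.CKS.OrthDefs
import Cfsg.Agent.Lib.SL2.Basic

/-! CKS, package ORTH: calculus of Eichler elements. -/

set_option linter.unusedSectionVars false

namespace CfsgLib.CKS
open Cfsg MulAction

open CfsgLib.Forms CfsgLib.RootMax CfsgLib.MinIdx Module Submodule

variable {F : Type} [Field F] [Finite F] {V : Type} [AddCommGroup V] [Module F V] [FiniteDimensional F V]
  {Q : QuadraticForm F V}

local notation "𝔅" => PQ.B (ofQuad Q)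

variable (hQ : OrthE.Nondeg Q) (h5 : 5 ≤ finrank F V)

/-- the Eichler element -/
noncomputable def er (x a : V) : Om Q := (oc hQ h5).ρ x a

variable {hQ h5} {x y a b v : V}

local notation "ϱ" => er hQ h5

theorem oq_self (hx : Q x = 0) : 𝔅 x x = 0 := by rw [qB_self, hx, mul_zero]

theorem om_q (g : Om Q) (v : V) : Q (g.1 v) = Q v := by
  obtain ⟨g, hg⟩ := g
  exact (Subgroup.commutator_le_self (H := OrthE.O Q) hg :) v

theorem om_B (g : Om Q) (u v : V) : 𝔅 (g.1 u) (g.1 v) = 𝔅 u v := by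
  have := q_add (Q := Q) (g.1 u) (g.1 v)
  rw [← map_add, om_q, om_q, om_q, q_add] at this
  exact (add_left_cancel this).symm

theorem om_ext {g h : Om Q} (H : ∀ u, g.1 u = h.1 u) : g = h := Subtype.ext (LinearEquiv.ext H)

theorem om_mul (g h : Om Q) (u : V) : (g * h).1 u = g.1 (h.1 u) := rfl

theorem om_inv (g : Om Q) (u : V) : (g⁻¹).1 (g.1 u) = u := g.1.symm_apply_apply u

theorem om_inv_eq {g : Om Q} {u v : V} (h : g.1 u = v) : (g⁻¹).1 v = u := h ▸ om_inv g u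

theorem er_apply (hx : Q x = 0) (ha : 𝔅 x a = 0) (v : V) :
    (ϱ x a).1 v = v + (𝔅 a v - Q a * 𝔅 x v) • x - 𝔅 x v • a :=
  Ctx.ρ_apply ((oc_pt hQ h5).2 hx) ((oc_dir hQ h5).2 ha) v

theorem er_left (hx : Q x = 0) (ha : 𝔅 x a = 0) (hv : 𝔅 x v = 0) : (ϱ x a).1 v = v + 𝔅 a v • x := by
  rw [er_apply hx ha, hv]; simp

theorem er_fix (hx : Q x = 0) (ha : 𝔅 x a = 0) (hv : 𝔅 x v = 0) (hv' : 𝔅 a v = 0) : (ϱ x a).1 v = v := by
  rw [er_left hx ha hv, hv']; simp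

theorem er_self (hx : Q x = 0) (ha : 𝔅 x a = 0) : (ϱ x a).1 x = x := er_fix hx ha (oq_self hx) (qz ha)

theorem er_mul (ha : 𝔅 x a = 0) (hb : 𝔅 x b = 0) : ϱ x a * ϱ x b = ϱ x (a + b) :=
  Ctx.ρ_mul (C := oc hQ h5) ((oc_dir hQ h5).2 ha) ((oc_dir hQ h5).2 hb)

theorem er_zero (x : V) : ϱ x 0 = 1 := Ctx.ρ_zero (C := oc hQ h5) x

theorem er_neg (ha : 𝔅 x a = 0) : ϱ x (-a) = (ϱ x a)⁻¹ := Ctx.ρ_neg (C := oc hQ h5) ((oc_dir hQ h5).2 ha)

theorem er_conj (g : Om Q) (hx : Q x = 0) (ha : 𝔅 x a = 0) : g * ϱ x a * g⁻¹ = ϱ (g.1 x) (g.1 a) :=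
  Ctx.ρ_conj (C := oc hQ h5) g ((oc_pt hQ h5).2 hx) ((oc_dir hQ h5).2 ha)

theorem er_smul_left (hx : Q x = 0) (ha : 𝔅 x a = 0) (t : F) : ϱ (t • x) a = ϱ x (t • a) :=
  Ctx.ρ_smul_left (C := oc hQ h5) ((oc_pt hQ h5).2 hx) ((oc_dir hQ h5).2 ha) t

theorem er_add_self (hx : Q x = 0) (ha : 𝔅 x a = 0) (t : F) : ϱ x (a + t • x) = ϱ x a :=
  Ctx.ρ_add_self (C := oc hQ h5) ((oc_pt hQ h5).2 hx) ((oc_dir hQ h5).2 ha) t

theorem er_pow {p : ℕ} [CharP F p] (ha : 𝔅 x a = 0) : ϱ x a ^ p = 1 := by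
  rw [show ϱ x a ^ p = ϱ x (p • a) from Ctx.ρ_pow (C := oc hQ h5) ((oc_dir hQ h5).2 ha) p,
    ← Nat.cast_smul_eq_nsmul F, CharP.cast_eq_zero, zero_smul, er_zero]

theorem er_comm (ha : 𝔅 x a = 0) (hb : 𝔅 x b = 0) : Commute (ϱ x a) (ϱ x b) := by
  rw [Commute, SemiconjBy, er_mul ha hb, er_mul hb ha, add_comm]

theorem comm_er {g : Om Q} (hx : Q x = 0) (ha : 𝔅 x a = 0) (h : ϱ (g.1 x) (g.1 a) = ϱ x a) :
    Commute g (ϱ x a) := by
  rw [← er_conj g hx ha, mul_inv_eq_iff_eq_mul] at h; exact h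

theorem er_inj (hx : Q x = 0) (h0 : x ≠ 0) (ha : 𝔅 x a = 0) (hb : 𝔅 x b = 0) (h : ϱ x a = ϱ x b) :
    a - b ∈ span F {x} := by
  obtain ⟨v, hv, -⟩ := (ofQuad Q).exists_dual_vec hQ ⊥ (u := x) h0
  have := congrArg (fun g : Om Q => g.1 v) h
  simp only [er_apply hx ha, er_apply hx hb, (qB_comm x v).trans hv] at this
  exact mem_span_singleton.2 ⟨𝔅 a v - Q a - (𝔅 b v - Q b), by linear_combination (norm := module) this⟩

theorem er_of_mem (hx : Q x = 0) (ha : a ∈ span F {x}) : ϱ x a = 1 := by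
  obtain ⟨t, rfl⟩ := mem_span_singleton.1 ha
  rw [← zero_add (t • x), er_add_self hx (map_zero _), er_zero]

theorem q_comb (hx : Q x = 0) (hy : Q y = 0) (h : 𝔅 x y = 0) (s t : F) : Q (s • x + t • y) = 0 := by
  simp [q_add, q_smul, hx, hy, h]

theorem b_comb (hx : Q x = 0) (hy : Q y = 0) (h : 𝔅 x y = 0) (s t s' t' : F) :
    𝔅 (s • x + t • y) (s' • x + t' • y) = 0 := by
  simp [oq_self hx, oq_self hy, h, qz h]

theorem er_det (hx : Q x = 0) (hy : Q y = 0) (h : 𝔅 x y = 0) (s t s' t' : F) :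
    ϱ (s • x + t • y) (s' • x + t' • y) = ϱ x ((s * t' - t * s') • y) := om_ext fun v => by
  rw [er_apply (q_comb hx hy h ..) (b_comb hx hy h ..), er_apply hx (by simp [h]), q_comb hx hy h, q_smul, hy]
  simp only [map_add, map_smul, LinearMap.add_apply, LinearMap.smul_apply, smul_eq_mul]
  module

theorem mem_LR (hx : Q x = 0) (hy : Q y = 0) (h : 𝔅 x y = 0) (h0 : x ≠ 0) (h1 : y ∉ span F {x}) :
    ϱ x y ∈ LR hQ h5 := ⟨x, y, hx, hy, h, h0, h1, rfl⟩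

theorem exists_move (hQ : OrthE.Nondeg Q) (h7 : 7 ≤ finrank F V) (ha : 𝔅 x a = 0) (hb : 𝔅 x b = 0) (ha' : a ∉ span F {x})
    (hb' : b ∉ span F {x}) (h : Q b = Q a) : ∃ g : Om Q, g.1 x = x ∧ g.1 a = b := by
  obtain ⟨g, h1, h2, h3⟩ := om_witt hQ (span F {x}) (by have := finrank_one_le (F := F) x; omega) ha' hb'
    (fun h hh => by obtain ⟨t, rfl⟩ := mem_span_singleton.1 hh; simp [ha, hb]) h
  exact ⟨⟨g, h1⟩, h2 x (mem_span_singleton_self x), h3⟩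

theorem LR_isConj (h7 : 7 ≤ finrank F V) {t t' : Om Q} (h : t ∈ LR hQ h5) (h' : t' ∈ LR hQ h5) : IsConj t t' := by
  obtain ⟨x, y, h1, h2, h3, h4, h6, rfl⟩ := h
  obtain ⟨x', y', k1, k2, k3, k4, k6, rfl⟩ := h'
  obtain ⟨g, rfl⟩ := om_tr0 hQ h5 h4 k4 (k1.trans h1.symm)
  obtain ⟨k, e1, e2⟩ := exists_move hQ h7 ((om_B g x y).trans h3) k3 (fun h => h6 (by
    obtain ⟨c, hc⟩ := mem_span_singleton.1 h
    exact mem_span_singleton.2 ⟨c, g.1.injective (by rw [map_smul, hc])⟩)) k6 (by rw [om_q, h2, k2])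
  exact isConj_iff.2 ⟨k * g, (er_conj _ h1 h3).trans (by rw [om_mul, om_mul, e1, e2]; rfl)⟩

variable (hQ h5) in
/-- the Eichler elements with centre `x` and direction in `U` -/
def EG (x : V) (U : Submodule F V) : Subgroup (Om Q) where
  carrier := {g | ∃ a ∈ U, 𝔅 x a = 0 ∧ g = ϱ x a}
  mul_mem' := by
    rintro _ _ ⟨a, h1, h2, rfl⟩ ⟨b, h3, h4, rfl⟩
    exact ⟨a + b, add_mem h1 h3, by simp [h2, h4], er_mul h2 h4⟩
  one_mem' := ⟨0, zero_mem _, map_zero _, (er_zero x).symm⟩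
  inv_mem' := by
    rintro _ ⟨a, h1, h2, rfl⟩
    exact ⟨-a, neg_mem h1, by simp [h2], (er_neg h2).symm⟩

variable {U : Submodule F V}

theorem mem_EG (h1 : a ∈ U) (h2 : 𝔅 x a = 0) : ϱ x a ∈ EG hQ h5 x U := ⟨a, h1, h2, rfl⟩

theorem EG_pgroup {p : ℕ} [CharP F p] : IsPGroup p (EG hQ h5 x U) := by
  rintro ⟨_, a, h1, h2, rfl⟩
  exact ⟨1, Subtype.ext (by rw [pow_one]; exact er_pow h2)⟩

theorem EG_comm {U' : Submodule F V} : ∀ s ∈ EG hQ h5 x U, ∀ t ∈ EG hQ h5 x U', Commute s t := by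
  rintro _ ⟨a, -, h2, rfl⟩ _ ⟨b, -, h4, rfl⟩
  exact er_comm h2 h4

theorem EG_conj (hx : Q x = 0) {g : Om Q} (h1 : g.1 x ∈ span F {x}) (h2 : ∀ a ∈ U, g.1 a ∈ U) :
    ∀ t ∈ EG hQ h5 x U, g * t * g⁻¹ ∈ EG hQ h5 x U := by
  rintro _ ⟨a, h3, h4, rfl⟩
  obtain ⟨c, hc⟩ := mem_span_singleton.1 h1
  by_cases h : 𝔅 x (g.1 a) = 0
  · rw [er_conj g hx h4, ← hc, er_smul_left hx h]
    exact mem_EG (smul_mem _ _ (h2 a h3)) (by simp [h])
  have h6 := (om_B g x a).trans h4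
  rw [← hc, qB_smul_left, mul_eq_zero, or_iff_left h] at h6
  rw [h6, zero_smul, eq_comm, g.1.map_eq_zero_iff] at hc
  simp [hc] at h

theorem card_EG (hx : Q x = 0) (h0 : x ≠ 0) (h1 : ∀ a ∈ U, 𝔅 x a = 0) (h2 : x ∉ U) :
    Nat.card (EG hQ h5 x U) = Nat.card F ^ finrank F U := by
  rw [← Module.natCard_eq_pow_finrank]
  refine (Nat.card_eq_of_bijective (fun a : U => (⟨_, mem_EG a.2 (h1 _ a.2)⟩ : EG hQ h5 x U))
    ⟨fun a b e => ?_, fun ⟨_, a, h3, _, rfl⟩ => ⟨⟨a, h3⟩, rfl⟩⟩).symm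
  obtain ⟨c, hc⟩ := mem_span_singleton.1 (er_inj hx h0 (h1 _ a.2) (h1 _ b.2) (congrArg Subtype.val e))
  by_cases h : c = 0
  · exact Subtype.ext (sub_eq_zero.1 (by rw [← hc, h, zero_smul]))
  · exact absurd ((smul_mem_iff U h).1 (hc ▸ sub_mem a.2 b.2)) h2

theorem EG_LR (hx : Q x = 0) (h0 : x ≠ 0) (hU : ∀ a ∈ U, Q a = 0) : ∀ t ∈ EG hQ h5 x U, t ≠ 1 → t ∈ LR hQ h5 := by
  rintro _ ⟨a, h1, h2, rfl⟩ h
  exact mem_LR hx (hU a h1) h2 h0 fun h3 => h (er_of_mem hx h3)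

theorem q_line (hy : Q y = 0) : ∀ a ∈ span F {y}, Q a = 0 := fun a ha => by
  obtain ⟨t, rfl⟩ := mem_span_singleton.1 ha
  rw [q_smul, hy, mul_zero]

theorem card_EG_line (hx : Q x = 0) (h : 𝔅 x y = 0) (h0 : x ≠ 0) (h1 : y ∉ span F {x}) :
    Nat.card (EG hQ h5 x (span F {y})) = Nat.card F := by
  rw [card_EG hx h0 (fun a ha => by obtain ⟨t, rfl⟩ := mem_span_singleton.1 ha; simp [h]) (notMem_swap h0 h1),
    finrank_span_singleton (v := y) (fun e => h1 (e ▸ zero_mem _)), pow_one]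

theorem flag_step {W : Submodule F V} (hx : Q x = 0) (h1 : x ∉ W)
    (h2 : 2 * finrank F (W ⊔ span F {x} : Submodule F V) < finrank F V)
    (h : ∀ a ∈ (ofQuad Q).perp (W ⊔ span F {x}), (ϱ x a).1 v - v ∈ W) : v ∈ W ⊔ span F {x} := by
  have h3 : 𝔅 x v = 0 := by
    by_contra h3
    have h4 : (ofQuad Q).perp (W ⊔ span F {x}) ≤ W ⊔ span F {x} := fun a ha => by
      have := h a ha
      rw [er_apply hx (mem_perp_one.1 ha).2] at this
      exact (smul_mem_iff _ h3).1 (mem_sup_one.2 ⟨_, neg_mem this, 𝔅 a v - Q a * 𝔅 x v, by module⟩)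
    have := Submodule.finrank_mono h4
    have := (ofQuad Q).finrank_perp hQ (W ⊔ span F {x})
    omega
  rw [← (ofQuad Q).perp_perp hQ (W ⊔ span F {x})]
  intro a ha
  have := h a ha
  rw [er_left hx (mem_perp_one.1 ha).2 h3, add_sub_cancel_left] at this
  by_contra h4
  exact h1 ((smul_mem_iff _ h4).1 this)

theorem finrank_sup_new {W : Submodule F V} (h : x ∉ W) :
    finrank F (W ⊔ span F {x} : Submodule F V) = finrank F W + 1 := by
  have := Submodule.finrank_sup_add_finrank_inf_eq W (span F {x})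
  have h0 : x ≠ 0 := fun e => h (e ▸ zero_mem W)
  rw [((Submodule.disjoint_span_singleton' h0).2 h).eq_bot, finrank_bot, finrank_span_singleton h0] at this
  exact this

theorem exists_next (hQ : OrthE.Nondeg Q) (h7 : 7 ≤ finrank F V) (x y : V) :
    ∃ w, Q w = 0 ∧ 𝔅 x w = 0 ∧ 𝔅 y w = 0 ∧ w ∉ span F {x} ⊔ span F {y} := by
  obtain ⟨w, h1, h2, h3⟩ := q_exists_sing hQ.ofQuad (U := span F {x} ⊔ span F {y}) (by
    have := finrank_sup_le (span F {x}) (span F {y})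
    have := finrank_one_le (F := F) x
    have := finrank_one_le (F := F) y
    omega)
  exact ⟨w, q_sing.1 h1, (PQ.mem_perp_span_singleton _).1 (mem_perp_one.1 h2).1, (mem_perp_one.1 h2).2, h3⟩

/-- the fibres of the parametrisation of the long root elements -/
theorem er_fibre {x' y' : V} (hx : Q x = 0) (hy : Q y = 0) (h : 𝔅 x y = 0) (h0 : x ≠ 0) (h1 : y ∉ span F {x})
    (hx' : Q x' = 0) (hy' : Q y' = 0) (h' : 𝔅 x' y' = 0) (h0' : x' ≠ 0) (h1' : y' ∉ span F {x'})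
    (e : ϱ x' y' = ϱ x y) : ∃ s t s' t' : F, s * t' - t * s' = 1 ∧ s • x + t • y = x' ∧ s' • x + t' • y = y' := by
  have k : ∀ v, 𝔅 y' v • x' - 𝔅 x' v • y' = 𝔅 y v • x - 𝔅 x v • y := fun v => by
    have := congrArg (fun g : Om Q => g.1 v) e
    simp only [er_apply hx h, er_apply hx' h', hy, hy'] at this
    linear_combination (norm := module) this
  obtain ⟨u, a1, a2⟩ := (ofQuad Q).exists_dual_vec hQ _ h1'
  obtain ⟨v, b1, b2⟩ := (ofQuad Q).exists_dual_vec hQ _ (notMem_swap h0' h1')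
  have e1 := k u
  have e2 := k v
  rw [(qB_comm _ _).trans a1, qz (a2 _ (mem_span_singleton_self _))] at e1
  rw [(qB_comm _ _).trans b1, qz (b2 _ (mem_span_singleton_self _))] at e2
  have e3 : 𝔅 y u • x + (-𝔅 x u) • y = x' := by linear_combination (norm := module) -e1
  have e4 : (-𝔅 y v) • x + 𝔅 x v • y = y' := by linear_combination (norm := module) e2
  refine ⟨_, _, _, _, ?_, e3, e4⟩
  rw [← e3, ← e4, er_det hx hy h] at e
  have := er_inj hx h0 (by simp [h]) h e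
  by_contra hn
  nth_rw 4 [← one_smul F y] at this
  rw [← sub_smul, smul_mem_iff _ (sub_ne_zero.2 hn)] at this
  exact h1 this

theorem comb_inj (h0 : x ≠ 0) (h1 : y ∉ span F {x}) {s t s' t' : F} (e : s • x + t • y = s' • x + t' • y) :
    s = s' ∧ t = t' := by
  have h2 : t = t' := by
    by_contra hn
    exact h1 ((smul_mem_iff _ (sub_ne_zero.2 hn)).1 (mem_span_singleton.2 ⟨s' - s, by
      linear_combination (norm := module) -e⟩))
  rw [h2, add_left_inj] at e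
  exact ⟨smul_left_injective F h0 e, h2⟩

theorem LR_card' {Z : ℕ}
    (hZ : Nat.card {v // Q v = 0} = (Nat.card F - 1) * Nat.card F ^ (finrank F V - 2) + Nat.card F * Z) :
    (LR hQ h5).ncard * (Nat.card F ^ 2 - 1) = (Nat.card {v // Q v = 0} - 1) * (Z - 1) := by
  classical
  have : Finite V := Module.finite_of_finite F
  have := Fintype.ofFinite F
  have := Fintype.ofFinite V
  have h1 : ∀ x : {x // Q x = 0 ∧ x ≠ 0}, Nat.card (Lv Q x.1 0) = Nat.card F * (Z - 1) := fun x => by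
    obtain ⟨f, hf⟩ := hQ.exists_hyp x.2.1 x.2.2
    have h2 := ncard_Lv_add hf 0 1 (.inr ⟨rfl, rfl⟩)
    have h3 := hf.card_level 0
    rw [hZ, hf.finrank_eq, Nat.add_sub_cancel, add_right_inj, Nat.mul_right_inj Nat.card_pos.ne'] at h3
    rw [Nat.card_coe_set_eq, Nat.mul_sub, h3, ← h2, Nat.add_sub_cancel]
  have h2 : Nat.card {x // Q x = 0 ∧ x ≠ 0} = Nat.card {v // Q v = 0} - 1 := by
    rw [show Nat.card {v // Q v = 0} = {v | Q v = 0}.ncard from Nat.card_coe_set_eq _,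
      ← Set.ncard_sdiff_singleton_of_mem (show (0 : V) ∈ {v | Q v = 0} from map_zero Q)]
    exact Nat.card_coe_set_eq _
  choose X Y k1 k2 k3 k4 k5 k6 using fun t : LR hQ h5 => t.2
  have k7 : ∀ (t : LR hQ h5) (g : Matrix.SpecialLinearGroup (Fin 2) F),
      ϱ (g 0 0 • X t + g 0 1 • Y t) (g 1 0 • X t + g 1 1 • Y t) = t := fun t g => by
    rw [er_det (k1 t) (k2 t) (k3 t), ← Matrix.det_fin_two, g.det_coe, one_smul]; exact (k6 t).symm
  have k8 : ∀ (t : LR hQ h5), t.1 ≠ 1 := fun t e => k5 t (by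
    simpa using er_inj (k1 t) (k4 t) (k3 t) (map_zero _) ((k6 t).symm.trans (e.trans (er_zero _).symm)))
  have h3 := Nat.card_eq_of_bijective (fun p : LR hQ h5 × Matrix.SpecialLinearGroup (Fin 2) F =>
    (⟨⟨p.2 0 0 • X p.1 + p.2 0 1 • Y p.1, q_comb (k1 _) (k2 _) (k3 _) _ _, fun e => k8 p.1 (by
        rw [← k7 p.1 p.2, e]
        exact om_ext fun v => by rw [er_apply (map_zero _) (by simp)]; simp)⟩,
      ⟨p.2 1 0 • X p.1 + p.2 1 1 • Y p.1, b_comb (k1 _) (k2 _) (k3 _) .., fun e => k8 p.1 (by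
        rw [← k7 p.1 p.2, er_of_mem (q_comb (k1 _) (k2 _) (k3 _) _ _) e]), q_comb (k1 _) (k2 _) (k3 _) _ _⟩⟩ :
      Σ x : {x // Q x = 0 ∧ x ≠ 0}, Lv Q x.1 0)) ⟨?_, ?_⟩
  · rw [Nat.card_prod, Nat.card_sigma, SL2.card_SL2, ← Nat.card_eq_fintype_card, Nat.card_coe_set_eq] at h3
    simp only [h1, Finset.sum_const, Finset.card_univ, smul_eq_mul, ← Nat.card_eq_fintype_card, h2] at h3
    refine Nat.eq_of_mul_eq_mul_left (Nat.card_pos (α := F)) ?_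
    rw [mul_left_comm, h3, mul_left_comm]
  · rintro ⟨t, g⟩ ⟨t', g'⟩ e
    have e1 := congrArg (fun p : Σ x : {x // Q x = 0 ∧ x ≠ 0}, Lv Q x.1 0 => p.1.1) e
    have e2 := congrArg (fun p : Σ x : {x // Q x = 0 ∧ x ≠ 0}, Lv Q x.1 0 => p.2.1) e
    simp only at e1 e2
    obtain rfl : t = t' := Subtype.ext (by rw [← k7 t g, e1, e2, k7])
    obtain ⟨a1, a2⟩ := comb_inj (k4 t) (k5 t) e1
    obtain ⟨a3, a4⟩ := comb_inj (k4 t) (k5 t) e2
    refine Prod.ext rfl (Matrix.SpecialLinearGroup.ext _ _ fun i j => ?_)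
    fin_cases i <;> fin_cases j
    exacts [a1, a2, a3, a4]
  · rintro ⟨⟨x, h1, h2⟩, y, h3, h4, h6⟩
    obtain ⟨s, t, s', t', e, e1, e2⟩ := er_fibre (k1 ⟨_, mem_LR h1 h6 h3 h2 h4⟩) (k2 _) (k3 _) (k4 _) (k5 _)
      h1 h6 h3 h2 h4 (k6 ⟨_, mem_LR h1 h6 h3 h2 h4⟩)
    exact ⟨(⟨_, mem_LR h1 h6 h3 h2 h4⟩, SL2.mk2 s t s' t' e), Sigma.ext (Subtype.ext e1)
      ((Subtype.heq_iff_coe_eq fun z => by simp [e1]).2 e2)⟩

end CfsgLib.CKS
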