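import Mathlib
import Cfsg.Agent.Lib.CKS.Abs2
import Cfsg.Agent.Lib.CKS.Abs3
import Cfsg.Agent.Lib.CKS.Orth0

/-! CKS, package ORTH1: the long root elements have no fixed points. -/

set_option linter.unusedSectionVars false

namespace CfsgLib.CKS
open Cfsg MulAction

open CfsgLib.Forms CfsgLib.RootMax CfsgLib.MinIdx Module Submodule

variable {F : Type} [Field F] [Finite F] {V : Type} [AddCommGroup V] [Module F V] [FiniteDimensional F V]
  {Q : QuadraticForm F V}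

local notation "𝔅" => PQ.B (ofQuad Q)

variable (hQ : OrthE.Nondeg Q) (h5 : 5 ≤ finrank F V) (h7 : 7 ≤ finrank F V) (hd : (2 : F) = 0 → Even (finrank F V))
  {p : ℕ} [Fact p.Prime] [CharP F p] {Ω : Type*} [MulAction (Om Q) Ω] (H : TwoTr (Om Q) Ω) (hB : BTr p (Om Q) Ω)

include hQ h5 h7 hB in
/-- the stabiliser of a totally singular flag is transitive -/
theorem exists_flagStab {x y w : V} (hx : Q x = 0) (hy : Q y = 0) (hw : Q w = 0) (hxy : 𝔅 x y = 0)
    (hxw : 𝔅 x w = 0) (hyw : 𝔅 y w = 0)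
    (h0 : x ≠ 0) (h1 : y ∉ span F {x}) (h2 : w ∉ span F {x} ⊔ span F {y}) :
    ∃ P : Subgroup (Om Q), TrOn P Ω ∧ ∀ g ∈ P, g.1 x ∈ span F {x} ∧
      (∀ v ∈ span F {x} ⊔ span F {y}, g.1 v ∈ span F {x} ⊔ span F {y}) ∧
      ∀ v ∈ span F {x} ⊔ span F {y} ⊔ span F {w}, g.1 v ∈ span F {x} ⊔ span F {y} ⊔ span F {w} := by
  have : Finite V := Module.finite_of_finite F
  have := finite_Om hQ h5
  let W : ℕ → Submodule F V := fun i => if i = 0 then ⊥ else if i = 1 then span F {x} else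
    if i = 2 then span F {x} ⊔ span F {y} else span F {x} ⊔ span F {y} ⊔ span F {w}
  have d1 : finrank F (span F {x}) = 1 := finrank_span_singleton h0
  have d2 := finrank_sup_new h1
  have d3 := finrank_sup_new h2
  let A1 := EG hQ h5 x ((ofQuad Q).perp (⊥ ⊔ span F {x}))
  let A2 := EG hQ h5 y ((ofQuad Q).perp (span F {x} ⊔ span F {y}))
  let A3 := EG hQ h5 w ((ofQuad Q).perp (span F {x} ⊔ span F {y} ⊔ span F {w}))
  have nrm : ∀ {z : V} {U : Submodule F V} {g : Om Q}, Q z = 0 → z ∈ U → (∀ u ∈ U, g.1 u = u) →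
      g ∈ Subgroup.normalizer (EG hQ h5 z ((ofQuad Q).perp U) : Set (Om Q)) := fun {z U g} hz h3 h4 =>
    Subgroup.mem_normalizer_fintype (EG_conj hz ((h4 z h3).symm ▸ mem_span_singleton_self z) fun a ha u hu => by
      rw [← h4 u hu, om_B]; exact ha u hu)
  have fx : ∀ {z : V} {U U' : Submodule F V}, Q z = 0 → z ∈ (ofQuad Q).perp U → U ≤ U' →
      ∀ g ∈ EG hQ h5 z ((ofQuad Q).perp U'), ∀ u ∈ U, g.1 u = u := by
    rintro z U U' hz h3 h4 _ ⟨a, h6, h8, rfl⟩ u hu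
    exact er_fix hz h8 (qz (h3 u hu)) (qz (h6 u (h4 hu)))
  have mx := mem_span_singleton_self (R := F) x
  have my := mem_span_singleton_self (R := F) y
  have p12 : IsPGroup p (A1 ⊔ A2 : Subgroup (Om Q)) := EG_pgroup.to_sup_of_normal_left' EG_pgroup fun g hg =>
    nrm hx (mem_sup_right mx) (fx hy (mem_perp_one.2 ⟨fun r hr => by simp [(mem_bot F).1 hr], hxy⟩) (by simp) g hg)
  have hw' : w ∈ (ofQuad Q).perp (span F {x} ⊔ span F {y}) :=
    mem_perp_one.2 ⟨(PQ.mem_perp_span_singleton _).2 hxw, hyw⟩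
  have p123 : IsPGroup p (A1 ⊔ A2 ⊔ A3 : Subgroup (Om Q)) := p12.to_sup_of_normal_left' EG_pgroup fun g hg =>
    Subgroup.normalizer_inf_normalizer_le_normalizer_sup _ _ ⟨nrm hx (mem_sup_right mx) fun u hu =>
      fx hw hw' le_sup_left g hg u (mem_sup_left (by simpa using hu)),
      nrm hy (mem_sup_right my) (fx hw hw' le_sup_left g hg)⟩
  obtain ⟨U, hU⟩ := p123.exists_le_sylow
  have key := flag_inv (Om Q).subtype hU U.isPGroup' (k := 3) (by omega) W (fun i hi => by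
      interval_cases i
      exacts [finrank_bot F V, d1, d2.trans (by rw [d1]), d3.trans (by rw [d2, d1])]) fun i hi v h => by
    interval_cases i
    · exact (bot_sup_eq (span F {x})).le (flag_step (hQ := hQ) (h5 := h5) hx h0 (by rw [bot_sup_eq]; omega) fun a ha =>
        h _ (Subgroup.mem_sup_left (Subgroup.mem_sup_left (mem_EG ha (mem_perp_one.1 ha).2))))
    · exact flag_step (hQ := hQ) (h5 := h5) hy h1 (by omega) fun a ha =>
        h _ (Subgroup.mem_sup_left (Subgroup.mem_sup_right (mem_EG ha (mem_perp_one.1 ha).2)))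
    · exact flag_step (hQ := hQ) (h5 := h5) hw h2 (by omega) fun a ha =>
        h _ (Subgroup.mem_sup_right (mem_EG ha (mem_perp_one.1 ha).2))
  exact ⟨_, hB U, fun g hg => ⟨key g hg 1 (by omega) x mx, key g hg 2 (by omega), key g hg 3 le_rfl⟩⟩

theorem exists_pair (hQ : OrthE.Nondeg Q) (h5 : 5 ≤ finrank F V) :
    ∃ x y, Q x = 0 ∧ Q y = 0 ∧ 𝔅 x y = 0 ∧ x ≠ 0 ∧ y ∉ span F {x} := by
  obtain ⟨x, h1, -, h2⟩ := q_exists_sing hQ.ofQuad (U := ⊥) (by rw [finrank_bot]; omega)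
  obtain ⟨y, h3, h4, h6⟩ := q_exists_sing hQ.ofQuad (U := span F {x}) (by have := finrank_one_le (F := F) x; omega)
  exact ⟨x, y, q_sing.1 h1, q_sing.1 h3, (PQ.mem_perp_span_singleton _).1 h4, h2, h6⟩

include h7 hd

theorem LR_card {Z : ℕ} (hZ : Nat.card {v // Q v = 0} = (Nat.card F - 1) * Nat.card F ^ (finrank F V - 2) + Nat.card F * Z) :
    (LR hQ h5).ncard * (Nat.card F ^ 2 - 1) = (Nat.card {v // Q v = 0} - 1) * (Z - 1) := LR_card' hZ

include H hB

theorem LR_fpf : ∀ t ∈ LR hQ h5, ∀ a : Ω, t • a ≠ a := by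
  rintro _ ⟨x, y, hx, hy, hxy, h0, h1, rfl⟩
  have := finite_Om hQ h5
  obtain ⟨w, hw, hxw, hyw, h2⟩ := exists_next hQ h7 x y
  obtain ⟨P, hP, k⟩ := exists_flagStab hQ h5 h7 hB hx hy hw hxy hxw hyw h0 h1 h2
  have mx := mem_span_singleton_self (R := F) x
  have my := mem_span_singleton_self (R := F) y
  have mw := mem_span_singleton_self (R := F) w
  have ts : ∀ a ∈ span F {x} ⊔ span F {y} ⊔ span F {w}, Q a = 0 := fun a ha => by
    obtain ⟨b, hb, s, rfl⟩ := mem_sup_one.1 ha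
    obtain ⟨c, hc, t, rfl⟩ := mem_sup_one.1 hb
    obtain ⟨r, rfl⟩ := mem_span_singleton.1 hc
    simp [q_add, q_smul, hx, hy, hw, hxy, hxw, hyw]
  have nw : er hQ h5 x w ∉ EG hQ h5 x (span F {x} ⊔ span F {y}) := fun ⟨a, h3, h4, e⟩ =>
    h2 (by simpa using add_mem (mem_sup_left (er_inj hx h0 hxw h4 e)) h3)
  have hZ := mem_EG (hQ := hQ) (h5 := h5) (mem_sup_right (S := span F {x}) my) hxy
  have hZT : EG hQ h5 x (span F {x} ⊔ span F {y}) ≤ EG hQ h5 x (span F {x} ⊔ span F {y} ⊔ span F {w}) :=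
    fun _ ⟨a, h3, h4⟩ => ⟨a, mem_sup_left h3, h4⟩
  refine H.line hP (hZT.lt_of_ne fun e => nw (e ▸ mem_EG (mem_sup_right mw) hxw))
    (fun g hg => EG_conj hx (k g hg).1 (k g hg).2.1) (fun g hg => EG_conj hx (k g hg).1 (k g hg).2.2) (EG_pgroup (p := p))
    (fun t ht e t' ht' e' => fx_of_isConj (LR_isConj h7 (EG_LR hx h0 ts t ht e) (EG_LR hx h0 ts t' ht' e')))
    (fun h => ?_) _ (hZT hZ) fun e => h1 (by simpa using er_inj hx h0 hxy (map_zero _) (e.trans (er_zero x).symm))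
  obtain ⟨g, e1, e2⟩ := exists_move hQ h7 hxy hxw h1 (fun e => h2 (mem_sup_left e)) (hw.trans hy.symm)
  have := er_conj (hQ := hQ) (h5 := h5) g hx hxy
  rw [Subgroup.mem_center_iff.1 (h hZ) g, mul_inv_cancel_right, e1, e2] at this
  exact nw (this ▸ hZ)

theorem semi_line {x y : V} (hx : Q x = 0) (hy : Q y = 0) (h0 : x ≠ 0) : Semi (EG hQ h5 x (span F {y})) Ω :=
  fun t ht e => LR_fpf hQ h5 h7 hd H hB t (EG_LR hx h0 (q_line hy) t ht e)

include hQ in
theorem LR_dvd : Nat.card F ^ (finrank F V - 3) ∣ Nat.card Ω := by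
  have h5 : 5 ≤ finrank F V := by omega
  have := finite_Om hQ h5
  have := H.finite
  obtain ⟨x, y, hx, hy, hxy, h0, h1⟩ := exists_pair hQ h5
  obtain ⟨W, w1, w2, w3⟩ := exists_sub_perp hQ.ofQuad (span F {x} ⊔ span F {y})
  have w4 : ∀ a ∈ W, 𝔅 x a = 0 := fun a ha => (PQ.mem_perp_span_singleton _).1 (mem_perp_one.1 (w1 ha)).1
  have h2 := heis_conj (p := p) (A := EG hQ h5 x W) EG_pgroup EG_pgroup EG_comm ?_
    (semi_line hQ h5 h7 hd H hB hx hy h0).orb (by rw [card_EG_line hx hxy h0 h1]; exact one_lt_q F)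
  · rw [card_EG_line hx hxy h0 h1, card_EG hx h0 w4 fun e => h0 (disjoint_def.1 w2 x e
      (mem_sup_left (mem_span_singleton_self x))), ← pow_succ] at h2
    rw [finrank_sup_new h1, finrank_span_singleton h0] at w3
    exact (pow_dvd_pow _ (by omega)).trans h2
  rintro _ ⟨a, h3, h4, rfl⟩ e _ ⟨b, h6, h8, rfl⟩
  obtain ⟨s, rfl⟩ := mem_span_singleton.1 h6
  obtain ⟨c, c1, c2⟩ := (ofQuad Q).exists_dual_vec hQ (span F {x} ⊔ span F {y}) (u := a) fun h =>
    e (by rw [disjoint_def.1 w2 a h3 h, er_zero])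
  have c3 := c2 x (mem_sup_left (mem_span_singleton_self x))
  have c4 : 𝔅 y (s • c) = 0 := by simp [qz (c2 y (mem_sup_right (mem_span_singleton_self y)))]
  refine ⟨er hQ h5 y (s • c), ?_⟩
  rw [er_conj _ hx h4, er_fix hy c4 (qz hxy) (by simp [c3]), er_left hy c4 (mem_perp_one.1 (w1 h3)).2, er_mul h4 h8]
  simp [c1]

end CfsgLib.CKS
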