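import Mathlib
import Cfsg.Agent.Lib.CKS.Orth1

/-! CKS, package ORTH2: degree a power of the characteristic. -/

set_option linter.unusedSectionVars false

namespace CfsgLib.CKS
open Cfsg MulAction

open CfsgLib.Forms CfsgLib.RootMax CfsgLib.MinIdx Module Submodule

theorem orth_cube {X : Type*} [Finite X] (h : Nat.card X = 3) {a b : Equiv.Perm X} (ha : a ^ 3 = 1) (hb : b ^ 3 = 1) :
    (a * b) ^ 3 = 1 := by
  let e := (Finite.equivFinOfCardEq h).permCongrHom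
  refine e.injective ?_
  rw [map_pow, map_mul, map_one]
  exact (by decide +kernel : ∀ a b : Equiv.Perm (Fin 3), a ^ 3 = 1 → b ^ 3 = 1 → (a * b) ^ 3 = 1) _ _
    (by rw [← map_pow, ha, map_one]) (by rw [← map_pow, hb, map_one])

theorem orth_arith {N e j i : ℕ} (he : 1 ≤ e) (he7 : e ≤ 7) (hd : N ∣ 3 ^ j * e) (h2 : 2 ∣ N) (h8 : 8 * 3 ^ i ≤ N)
    (h11 : N < 11 * 3 ^ i) : False := by
  have h0 : 0 < 3 ^ i := by positivity
  obtain ⟨a, k, h3, rfl⟩ := Nat.exists_eq_pow_mul_and_not_dvd (n := N) (by omega) 3 (by decide)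
  have h4 := Nat.le_of_dvd he ((((Nat.prime_three.coprime_iff_not_dvd).2 h3).symm.pow_right j).dvd_of_dvd_mul_left
    ((Dvd.intro_left _ rfl).trans hd))
  have h5 := ((by decide : Nat.Coprime 2 3).pow_right a).dvd_of_dvd_mul_left h2
  have k1 : ∀ b c, b ≤ c → 3 ^ b ≤ 3 ^ c := fun b c => Nat.pow_le_pow_right (by decide)
  obtain rfl | rfl : k = 2 ∨ k = 4 := by omega
  · rcases le_or_gt a (i + 1) with h | h
    · have := k1 _ _ h; rw [pow_succ] at this; omega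
    · have := k1 _ _ h; rw [pow_succ, pow_succ] at this; omega
  · rcases le_or_gt a i with h | h
    · have := k1 _ _ h; omega
    · have := k1 _ _ h; rw [pow_succ] at this; omega

variable {F : Type} [Field F] [Finite F] {V : Type} [AddCommGroup V] [Module F V] [FiniteDimensional F V]
  {Q : QuadraticForm F V}

local notation "𝔅" => PQ.B (ofQuad Q)

theorem pow_of_mat (u : Om Q) (g : Matrix.SpecialLinearGroup (Fin 2) F) {a b : V}
    (ha : u.1 a = g 0 0 • a + g 1 0 • b) (hb : u.1 b = g 0 1 • a + g 1 1 • b) (k : ℕ) :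
    (u ^ k).1 a = (g ^ k) 0 0 • a + (g ^ k) 1 0 • b ∧ (u ^ k).1 b = (g ^ k) 0 1 • a + (g ^ k) 1 1 • b := by
  induction k with
  | zero => simp
  | succ k ih =>
    simp only [pow_succ', om_mul, ih.1, ih.2, map_add, map_smul, ha, hb, Matrix.SpecialLinearGroup.coe_mul,
      Matrix.mul_apply, Fin.sum_univ_two]
    constructor <;> module

variable (Q) in
/-- two orthogonal hyperbolic pairs -/
structure H4 (x x' y y' : V) : Prop where
  qx : Q x = 0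
  qx' : Q x' = 0
  qy : Q y = 0
  qy' : Q y' = 0
  xx' : 𝔅 x x' = 1
  yy' : 𝔅 y y' = 1
  xy : 𝔅 x y = 0
  xy' : 𝔅 x y' = 0
  x'y : 𝔅 x' y = 0
  x'y' : 𝔅 x' y' = 0

theorem exists_H4 (hQ : OrthE.Nondeg Q) (h7 : 7 ≤ finrank F V) : ∃ x x' y y', H4 Q x x' y y' := by
  obtain ⟨x, x', h1, h2, h3, -⟩ := q_exists_hyp hQ.ofQuad (U := ⊥) (by rw [finrank_bot]; omega)
  obtain ⟨y, y', k1, k2, k3, k4, k5⟩ := q_exists_hyp hQ.ofQuad (U := span F {x, x'}) (by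
    have := finrank_two_le (F := F) x x'; omega)
  exact ⟨x, x', y, y', h1, h2, k1, k2, (qB_comm _ _).trans h3, (qB_comm _ _).trans k3, (mem_perp_pair.1 k4).1,
    (mem_perp_pair.1 k5).1, (mem_perp_pair.1 k4).2, (mem_perp_pair.1 k5).2⟩

variable {hQ : OrthE.Nondeg Q} {h5 : 5 ≤ finrank F V} {x x' y y' : V} {c : F}

local notation "ϱ" => er hQ h5

theorem er_comm2 (hx : Q x = 0) (hx' : Q x' = 0) (hy : Q y = 0) (h : 𝔅 x y = 0) (h' : 𝔅 x' y = 0) (s c : F) :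
    Commute (ϱ x (s • y)) (ϱ x' (c • y)) := by
  have k : ∀ x (s : F), Q x = 0 → 𝔅 x y = 0 → ϱ x (s • y) = ϱ y ((-s) • x) := fun x s hx h => by
    simpa using (er_det (hQ := hQ) (h5 := h5) hx hy h 0 1 (-s) 0).symm
  rw [k x s hx h, k x' c hx' h']
  exact er_comm (by simp [qz h]) (by simp [qz h'])

namespace H4
variable (h : H4 Q x x' y y')
include h

theorem swap : H4 Q x x' y' y :=
  ⟨h.qx, h.qx', h.qy', h.qy, h.xx', (qB_comm _ _).trans h.yy', h.xy', h.xy, h.x'y', h.x'y⟩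

theorem flip : H4 Q x' x y y' :=
  ⟨h.qx', h.qx, h.qy, h.qy', (qB_comm _ _).trans h.xx', h.yy', h.x'y, h.x'y', h.xy, h.xy'⟩

theorem tab : (𝔅 x x = 0 ∧ 𝔅 x x' = 1 ∧ 𝔅 x y = 0 ∧ 𝔅 x y' = 0) ∧ (𝔅 x' x = 1 ∧ 𝔅 x' x' = 0 ∧ 𝔅 x' y = 0 ∧ 𝔅 x' y' = 0) ∧
    (𝔅 y x = 0 ∧ 𝔅 y x' = 0 ∧ 𝔅 y y = 0 ∧ 𝔅 y y' = 1) ∧ (𝔅 y' x = 0 ∧ 𝔅 y' x' = 0 ∧ 𝔅 y' y = 1 ∧ 𝔅 y' y' = 0) ∧
    Q x = 0 ∧ Q x' = 0 ∧ Q y = 0 ∧ Q y' = 0 :=
  ⟨⟨oq_self h.qx, h.xx', h.xy, h.xy'⟩, ⟨h.flip.xx', oq_self h.qx', h.x'y, h.x'y'⟩,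
    ⟨qz h.xy, qz h.x'y, oq_self h.qy, h.yy'⟩, ⟨qz h.xy', qz h.x'y', h.swap.yy', oq_self h.qy'⟩, h.qx, h.qx', h.qy, h.qy'⟩

theorem ne : x ≠ 0 := fun e => by simpa [e] using h.xx'

theorem notMem (hc : c ≠ 0) : c • y ∉ span F {x} := fun e => by
  obtain ⟨t, e⟩ := mem_span_singleton.1 e
  simpa [h.tab, hc.symm] using congrArg (𝔅 y') e

theorem mem (hc : c ≠ 0) : ϱ x (c • y) ∈ LR hQ h5 :=
  mem_LR h.qx (by rw [q_smul, h.qy, mul_zero]) (by simp [h.xy]) h.ne (h.notMem hc)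

theorem app (c : F) (v : V) : (ϱ x (c • y)).1 v = v + (c * 𝔅 y v) • x - (c * 𝔅 x v) • y := by
  rw [er_apply h.qx (by simp [h.xy]), q_smul, h.qy]
  simp [smul_smul, mul_comm]

theorem inv : (ϱ x y)⁻¹ = ϱ x ((-1 : F) • y) := by rw [neg_one_smul, er_neg h.xy]

theorem u_pow {p : ℕ} (hc : GoodTr p (2 + c)) :
    ∃ r j : ℕ, r.Prime ∧ r ≠ p ∧ ((ϱ x y)⁻¹ * ϱ x' (c • y')) ^ r ^ j = 1 := by
  obtain ⟨-, r, j, h1, h2, h3⟩ := hc
  refine ⟨r, j, h1, h2, om_ext fun v => ?_⟩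
  let g := SL2.mk2 (1 + c) (-1) (-c) 1 (by ring)
  have hg : g ^ r ^ j = 1 := h3 g (by rw [Matrix.trace_fin_two]; change 1 + c + 1 = _; ring)
  set u := (ϱ x y)⁻¹ * ϱ x' (c • y') with hu
  have k : ∀ v, u.1 v = v + (c * 𝔅 y' v) • x' - (c * 𝔅 x' v) • y' - (𝔅 y v - c * 𝔅 x' v) • x +
      (𝔅 x v + c * 𝔅 y' v) • y := fun v => by
    rw [hu, om_mul, h.inv, h.flip.swap.app, h.app]
    simp only [map_add, map_sub, map_smul, h.tab]
    module
  have a1 := pow_of_mat u g (a := x) (b := y') (by simp only [k, h.tab, g, SL2.mk2_00, SL2.mk2_10]; module)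
    (by simp only [k, h.tab, g, SL2.mk2_01, SL2.mk2_11]; module) (r ^ j)
  have a2 := pow_of_mat u g (a := y) (b := -x') (by simp only [k, h.tab, g, SL2.mk2_00, SL2.mk2_10]; module)
    (by simp only [k, map_neg, h.tab, g, SL2.mk2_01, SL2.mk2_11]; module) (r ^ j)
  simp only [hg, Matrix.SpecialLinearGroup.coe_one, Matrix.one_apply_eq, one_smul, ne_eq, zero_ne_one, one_ne_zero,
    not_false_eq_true, Matrix.one_apply_ne, zero_smul, add_zero, zero_add, map_neg, neg_inj] at a1 a2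
  have a3 : ∀ w, u.1 w = w → ∀ n, (u ^ n).1 w = w := fun w e n => by
    induction n with
    | zero => rfl
    | succ n ih => rw [pow_succ, om_mul, e, ih]
  have a4 := a3 (v - 𝔅 x' v • x - 𝔅 x v • x' - 𝔅 y' v • y - 𝔅 y v • y') (by rw [k]; simp [h.tab]) (r ^ j)
  simp only [map_sub, map_smul, a1.1, a1.2, a2.1, a2.2, sub_left_inj] at a4
  exact a4

theorem comm (s : F) : Commute (ϱ x (s • y')) ((ϱ x y)⁻¹ * ϱ x' (c • y')) :=
  (er_comm (by simp [h.xy']) h.xy).inv_right.mul_right (er_comm2 h.qx h.qx' h.qy' h.xy' h.x'y' s c)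

theorem comm' (s : F) : Commute (ϱ x' (s • y)) ((ϱ x y)⁻¹ * ϱ x' (c • y')) := by
  refine (Commute.inv_right ?_).mul_right (er_comm (by simp [h.x'y]) (by simp [h.x'y']))
  simpa using er_comm2 (hQ := hQ) (h5 := h5) h.qx' h.qx h.qy h.x'y h.xy s 1

theorem conj_x {g : Om Q} (hg : g ∈ stabilizer (Om Q) x ⊓ stabilizer (Om Q) y) :
    (g * ϱ x' (c • y') * g⁻¹).1 x = x - c • g.1 y' ∧ (g * ϱ x' (c • y') * g⁻¹).1 y = y + c • g.1 x' := by
  have h1 : g.1 x = x := hg.1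
  have h2 : g.1 y = y := hg.2
  simp only [om_mul, om_inv_eq h1, om_inv_eq h2]
  simp [h.flip.swap.app, h.tab, h1, h2]

theorem comm_Y : ∀ g ∈ stabilizer (Om Q) x ⊓ stabilizer (Om Q) y, Commute g (ϱ x y) := fun g hg =>
  comm_er h.qx h.xy (by rw [show g.1 x = x from hg.1, show g.1 y = y from hg.2])

theorem le_cOrb (hc : c ≠ 0) : Nat.card F ^ (2 * finrank F V - 7) ≤
    (cOrb (stabilizer (Om Q) x ⊓ stabilizer (Om Q) y) (ϱ x' (c • y'))).ncard := by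
  have := finite_Om hQ h5
  let W := (ofQuad Q).perp (span F {x, x', y, y'})
  have w1 : ∀ a : W, (𝔅 x a = 0 ∧ 𝔅 x' a = 0 ∧ 𝔅 y a = 0 ∧ 𝔅 y' a = 0) ∧
      𝔅 a x = 0 ∧ 𝔅 a x' = 0 ∧ 𝔅 a y = 0 ∧ 𝔅 a y' = 0 := fun a => by
    have := (PQ.mem_perp_span _).1 a.2
    simp only [Set.mem_insert_iff, Set.mem_singleton_iff, forall_eq_or_imp, forall_eq] at this
    exact ⟨this, qz this.1, qz this.2.1, qz this.2.2.1, qz this.2.2.2⟩
  have d1 : ∀ (a : W) (s : F), 𝔅 x (a + s • y) = 0 := fun a s => by simp [w1, h.xy]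
  let g : W × W × F → Om Q := fun z => ϱ x (z.1 + z.2.2 • y) * ϱ y z.2.1
  have g1 : ∀ z v, (g z).1 v = (ϱ x (z.1 + z.2.2 • y)).1 ((ϱ y z.2.1).1 v) := fun _ _ => rfl
  simp only [er_apply h.qx (d1 _ _), er_apply h.qy (w1 _).1.2.2.1] at g1
  have g2 : ∀ z, g z ∈ stabilizer (Om Q) x ⊓ stabilizer (Om Q) y := fun z =>
    ⟨(g1 z x).trans (by simp [w1, h.tab]), (g1 z y).trans (by simp [w1, h.tab])⟩
  have h1 := Nat.card_le_card_of_injective (fun z => (⟨_, g z, g2 z, rfl⟩ :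
      cOrb (stabilizer (Om Q) x ⊓ stabilizer (Om Q) y) (ϱ x' (c • y')))) fun z z' e => by
    have e1 := h.conj_x (hQ := hQ) (h5 := h5) (c := c) (g2 z)
    have e2 := h.conj_x (hQ := hQ) (h5 := h5) (c := c) (g2 z')
    rw [show g z * _ * (g z)⁻¹ = g z' * _ * (g z')⁻¹ from congrArg Subtype.val e, e2.1, e2.2, sub_right_inj,
      add_right_inj, smul_right_inj hc, smul_right_inj hc, g1, g1, g1, g1] at e1
    obtain ⟨a, b, s⟩ := z
    obtain ⟨a', b', s'⟩ := z'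
    obtain ⟨e3, e4⟩ := e1
    simp only [map_add, map_sub, map_smul, LinearMap.add_apply, LinearMap.smul_apply, w1, h.tab] at e3 e4
    have a1 := congrArg (𝔅 x') e3
    have a2 := congrArg (𝔅 y') e3
    have a3 := congrArg (𝔅 x') e4
    have a4 := congrArg (𝔅 y') e4
    simp only [map_add, map_sub, map_smul, w1, h.tab, smul_eq_mul] at a1 a2 a3 a4
    refine Prod.ext (Subtype.ext ?_) (Prod.ext (Subtype.ext ?_) ?_)
    · linear_combination (norm := module) e4 - a3 • x - a4 • y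
    · linear_combination (norm := module) e3 - a1 • x - a2 • y
    · linear_combination a4
  rw [Nat.card_coe_set_eq, Nat.card_prod, Nat.card_prod, Module.natCard_eq_pow_finrank (K := F) (V := W),
    ← pow_succ, ← pow_add] at h1
  have := (ofQuad Q).finrank_perp hQ (span F {x, x', y, y'})
  have := finrank_four_le (F := F) x x' y y'
  exact (Nat.pow_le_pow_right Nat.card_pos (by simp only [W]; omega)).trans h1

end H4

theorem three_cases (h : Nat.card F = 3) (c : F) : c = 0 ∨ c = 1 ∨ c = -1 := by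
  have := Fintype.ofFinite F
  refine or_iff_not_imp_left.2 fun hc => mul_self_eq_one_iff.1 ?_
  have h1 := FiniteField.pow_card_sub_one_eq_one c hc
  rwa [← Nat.card_eq_fintype_card, h, show 3 - 1 = 2 from rfl, sq] at h1

theorem level_three (hQ : OrthE.Nondeg Q) (h5 : 5 ≤ finrank F V) (h : Nat.card F = 3) {c : F} (hc : c ≠ 0)
    (h2 : (2 : F) ≠ 0) : 2 ∣ {v | Q v = c}.ncard ∧ 8 * 3 ^ (finrank F V - 3) ≤ {v | Q v = c}.ncard ∧
      {v | Q v = c}.ncard < 11 * 3 ^ (finrank F V - 3) := by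
  classical
  have : Finite V := Module.finite_of_finite F
  have := Fintype.ofFinite V
  have h1 := level_ge c 0 (.inl rfl) _ Q hQ rfl
  have h3 := level_ge (-c) 0 (.inl rfl) _ Q hQ rfl
  have h4 := level_ge 0 1 (.inr ⟨rfl, rfl⟩) _ Q hQ rfl
  have e : ∀ c, Nat.card {v // Q v = c} = {v | Q v = c}.ncard := fun c => Nat.card_coe_set_eq _
  have h6 := ncard_le_card' ({v | Q v = c} ∪ {v | Q v = -c} ∪ {v | Q v = 0})
  rw [Set.ncard_union_eq (Set.disjoint_left.2 (by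
      rintro v (a | a) b
      exacts [hc (a.symm.trans b), hc (neg_eq_zero.1 (a.symm.trans b))])),
    Set.ncard_union_eq (s := {v | Q v = c}) (t := {v | Q v = -c}) (Set.disjoint_left.2 fun v (a : Q v = c) (b : Q v = -c) => hc ((mul_eq_zero.1 (by
      linear_combination b - a)).resolve_left h2)),
    Module.natCard_eq_pow_finrank (K := F), h] at h6
  obtain ⟨k, hk⟩ : ∃ k, finrank F V = k + 3 := ⟨finrank F V - 3, by omega⟩
  have h7 : 3 ^ ((k + 3) / 2) ≤ 3 ^ k := Nat.pow_le_pow_right (by decide) (by omega)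
  simp only [e, h, hk, Nat.add_sub_cancel, show k + 3 - 1 = k + 1 + 1 from rfl, pow_succ] at h1 h3 h4 h6 ⊢
  refine ⟨?_, by omega, by omega⟩
  have h8 := Equiv.Perm.card_fixedPoints_modEq (α := {v // Q v = c}) (p := 2) (n := 1)
    (f := fun v => ⟨-v.1, by rw [QuadraticMap.map_neg, v.2]⟩) (funext fun v => Subtype.ext (neg_neg _))
  rw [← Nat.card_eq_fintype_card, e, Fintype.card_eq_zero_iff.2 ⟨fun ⟨v, hv⟩ => hc (by
    have h8 : -v.1 = v.1 := congrArg Subtype.val hv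
    have h9 : (2 : F) • v.1 = 0 := by linear_combination (norm := module) -h8
    rw [← v.2, (smul_eq_zero.1 h9).resolve_left h2, map_zero])⟩] at h8
  exact (Nat.modEq_zero_iff_dvd).1 h8

theorem level_aniso (h : Nat.card F = 3) (h3 : (3 : F) = 0) {A : Submodule F V} (hA : ∀ a ∈ A, Q a = 0 → a = 0)
    {v : V} (hv : v ∈ A) (h0 : Q v ≠ 0) : {a | a ∈ A ∧ Q a = Q v}.ncard ≤ 7 := by
  have : Finite V := Module.finite_of_finite F
  have h1 : finrank F A ≤ 2 := by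
    by_contra hn
    obtain ⟨x, h1, h2, h4⟩ := quad_exists_sing Q (Z := A) (by omega)
    exact h2 (hA x h1 h4)
  have h2 := Set.ncard_sdiff_singleton_of_mem (s := (A : Set V)) (zero_mem A)
  have h4 : 3 ^ finrank F A ≤ 3 ^ 2 := Nat.pow_le_pow_right (by decide) h1
  rw [ncard_submodule, h] at h2
  by_contra hn
  have h6 := Set.eq_of_subset_of_ncard_le (s := {a | a ∈ A ∧ Q a = Q v}) (t := (A : Set V) \ {0})
    (fun a ha => ⟨ha.1, fun e => h0 (by rw [← ha.2, e, map_zero])⟩) (by omega)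
  obtain ⟨b, hb, h7⟩ := Set.exists_mem_notMem_of_ncard_lt_ncard (s := {v, -v}) (t := {a | a ∈ A ∧ Q a = Q v})
    (lt_of_le_of_lt (Set.ncard_insert_le _ _) (by rw [Set.ncard_singleton]; omega))
  have a1 := (h6.ge ⟨add_mem hv hb.1, fun e => h7 (.inr (eq_neg_of_add_eq_zero_right e))⟩).2
  have a2 := (h6.ge ⟨sub_mem hv hb.1, fun e => h7 (.inl (sub_eq_zero.1 e).symm)⟩).2
  rw [q_add, hb.2] at a1
  rw [q_sub, hb.2] at a2
  exact h0 (by linear_combination Q v * h3 - a1 - a2)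

variable (hQ h5) (h7 : 7 ≤ finrank F V) (hd : (2 : F) = 0 → Even (finrank F V))
  {p : ℕ} [Fact p.Prime] [CharP F p] {Ω : Type*} [MulAction (Om Q) Ω] (H : TwoTr (Om Q) Ω) (hB : BTr p (Om Q) Ω)
include h7 hd H hB

theorem orth_fx (h : H4 Q x x' y y') (hc : GoodTr p (2 + c)) {j : ℕ} (hn : Nat.card Ω = p ^ j) :
    0 < fx Ω ((ϱ x y)⁻¹ * ϱ x' (c • y')) ∧ Nat.card F ∣ fx Ω ((ϱ x y)⁻¹ * ϱ x' (c • y')) := by
  have := H.finite
  obtain ⟨r, i, h1, h2, h3⟩ := h.u_pow (hQ := hQ) (h5 := h5) hc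
  refine ⟨fx_pos (j := i) h1 (fun e => h2 ((Nat.prime_dvd_prime_iff_eq h1 Fact.out).1 (h1.dvd_of_dvd_pow (hn ▸ e))))
    fun a => by rw [h3, one_smul], ?_⟩
  rw [← card_EG_line (hQ := hQ) (h5 := h5) h.qx h.xy' h.ne (by simpa using h.swap.notMem one_ne_zero)]
  refine (semi_line hQ h5 h7 hd H hB h.qx h.qy' h.ne).card_dvd_fx ?_
  rintro _ ⟨a, ha, -, rfl⟩
  obtain ⟨s, rfl⟩ := mem_span_singleton.1 ha
  exact h.comm s

theorem orth_last (h3 : Nat.card F = 3) (h : H4 Q x x' y y') {v : V} (h1 : 𝔅 x v = 0) (h2 : 𝔅 x' v = 0) (h0 : Q v ≠ 0)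
    {ω : Ω} (hω : ϱ x v • ω = ω) {j : ℕ} (hn : Nat.card Ω = 3 ^ j) (c3 : (3 : F) = 0) : False := by
  have := H.finite
  have := finite_Om hQ h5
  have : Finite V := Module.finite_of_finite F
  obtain ⟨w, hw, hxw, hyw, h4⟩ := exists_next hQ h7 x y
  obtain ⟨P, hP, k⟩ := exists_flagStab hQ h5 h7 hB h.qx h.qy hw h.xy hxw hyw h.ne
    (by simpa using h.notMem one_ne_zero) h4
  have nm : ∀ a, Q a = Q v → a ∉ span F {x} := fun a e e' => h0 (e ▸ q_line h.qx a e')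
  have h6 := hP.count (O := {o | ∃ a, 𝔅 x a = 0 ∧ Q a = Q v ∧ o = ϱ x a}) (f := fx Ω (ϱ x v)) (by
      rintro g hg _ ⟨a, a1, a2, rfl⟩
      obtain ⟨t, ht⟩ := mem_span_singleton.1 (k g hg).1
      have t0 : t ≠ 0 := fun e => h.ne (g.1.map_eq_zero_iff.1 (by rw [← ht, e, zero_smul]))
      have a3 := (om_B g x a).trans a1
      rw [← ht, qB_smul_left, mul_eq_zero, or_iff_right t0] at a3
      refine ⟨t • g.1 a, by simp [a3], ?_, by rw [er_conj g h.qx a1, ← ht, er_smul_left h.qx a3]⟩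
      rw [q_smul, om_q, a2, mul_self_eq_one_iff.2 ((three_cases h3 t).resolve_left t0), one_mul]) (by
      rintro _ ⟨a, a1, a2, rfl⟩
      obtain ⟨g, e1, e2⟩ := exists_move hQ h7 h1 a1 (nm v rfl) (nm a a2) a2
      rw [← fx_conj g (ϱ x v), er_conj g h.qx h1, e1, e2]) ω
  have hy : OrthE.Hyp Q x x' := ⟨h.qx, h.qx', h.xx'⟩
  have inj : ∀ a b, 𝔅 x a = 0 → 𝔅 x' a = 0 → 𝔅 x b = 0 → 𝔅 x' b = 0 → ϱ x a = ϱ x b → a = b := fun a b a1 a2 b1 b2 e => by
    obtain ⟨t, ht⟩ := mem_span_singleton.1 (er_inj h.qx h.ne a1 b1 e)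
    have := congrArg (𝔅 x') ht
    simp only [map_smul, map_sub, a2, b2, h.tab, smul_eq_mul, mul_one, sub_zero] at this
    rw [this, zero_smul] at ht
    exact sub_eq_zero.1 ht.symm
  have prj : ∀ a, 𝔅 x a = 0 → ∃ b, 𝔅 x b = 0 ∧ 𝔅 x' b = 0 ∧ Q b = Q a ∧ ϱ x a = ϱ x b := fun a a1 =>
    ⟨a + (-𝔅 x' a) • x, by simp [a1, h.tab], by simp [h.tab], by simp [q_sub, ← sub_eq_add_neg, q_smul, h.tab, qz a1],
      (er_add_self h.qx a1 _).symm⟩
  have h8 : {o | ∃ a, 𝔅 x a = 0 ∧ Q a = Q v ∧ o = ϱ x a}.ncard = {w | OrthE.QW Q x x' w = Q v}.ncard :=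
    Eq.symm (Set.ncard_congr (fun w _ => ϱ x w.1) (fun w hw => ⟨_, qz w.2.1, hw, rfl⟩)
      (fun a b _ _ e => Subtype.ext (inj _ _ (qz a.2.1) (qz a.2.2) (qz b.2.1) (qz b.2.2) e)) (by
        rintro _ ⟨a, a1, a2, rfl⟩
        obtain ⟨b, b1, b2, b3, e⟩ := prj a a1
        exact ⟨⟨b, qz b1, qz b2⟩, b3.trans a2, e.symm⟩))
  let A : Submodule F V :=
    { carrier := {a | 𝔅 x a = 0 ∧ 𝔅 x' a = 0 ∧ ϱ x a • ω = ω}
      add_mem' := fun {a b} ha hb => ⟨by simp [ha.1, hb.1], by simp [ha.2.1, hb.2.1], by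
        rw [← er_mul ha.1 hb.1, mul_smul, hb.2.2, ha.2.2]⟩
      zero_mem' := ⟨map_zero _, map_zero _, by rw [er_zero, one_smul]⟩
      smul_mem' := fun t a ha => ⟨by simp [ha.1], by simp [ha.2.1], by
        obtain rfl | rfl | rfl := three_cases h3 t
        · rw [zero_smul, er_zero, one_smul]
        · rw [one_smul, ha.2.2]
        · rw [neg_one_smul, er_neg ha.1, inv_smul_eq_iff, ha.2.2]⟩ }
  have h9 := level_aniso (Q := Q) h3 c3 (A := A) (fun a ha e => by_contra fun a0 => LR_fpf hQ h5 h7 hd H hB _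
    (mem_LR h.qx e ha.1 h.ne fun e' => a0 (inj _ _ ha.1 ha.2.1 (map_zero _) (map_zero _)
      ((er_of_mem h.qx e').trans (er_zero x).symm))) ω ha.2.2) ⟨h1, h2, hω⟩ h0
  have h10 := hy.finrank_eq
  obtain ⟨l1, l2, l3⟩ := level_three (hy.nondeg_W hQ) (by omega) h3 h0 fun e => one_ne_zero (α := F) (by
    linear_combination c3 - e)
  rw [h8, hn] at h6
  refine orth_arith ?_ (le_trans ?_ h9) (Dvd.intro _ h6.symm) l1 l2 l3
  · exact (Set.ncard_pos (Set.toFinite _)).2 ⟨_, ⟨v, h1, rfl, rfl⟩, hω⟩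
  refine le_trans (Set.ncard_le_ncard ?_) (Set.ncard_image_le (f := ϱ x))
  rintro _ ⟨⟨a, a1, a2, rfl⟩, a3⟩
  obtain ⟨b, b1, b2, b3, e⟩ := prj a a1
  exact ⟨b, ⟨⟨b1, b2, e ▸ a3⟩, b3.trans a2⟩, e.symm⟩

theorem orth_end (h3 : 3 ≤ Nat.card F) {j s : ℕ} (hn : Nat.card Ω = p ^ j) (hs : (LR hQ h5).ncard = (Nat.card Ω - 1) * s)
    (hlt : Nat.card Ω * s < Nat.card Ω + 2 * Nat.card F ^ (2 * finrank F V - 6)) : False := by
  have := H.finite
  have := finite_Om hQ h5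
  obtain ⟨s', k1, k2⟩ := H.num_set (LR_conj hQ h5)
  obtain ⟨ω0⟩ : Nonempty Ω := (Nat.card_pos_iff.1 (lt_of_lt_of_le (by decide) H.big)).1
  have k3 := k2 ω0
  rw [hs, Set.eq_empty_of_forall_notMem (s := {t | t ∈ LR hQ h5 ∧ t • ω0 = ω0}) fun t ht =>
    LR_fpf hQ h5 h7 hd H hB t ht.1 ω0 ht.2, Set.ncard_empty, zero_add] at k3
  obtain rfl : s = s' := Nat.eq_of_mul_eq_mul_left (by have := H.big; omega) k3
  have e6 : Nat.card F ^ (2 * finrank F V - 6) = Nat.card F ^ (2 * finrank F V - 7) * Nat.card F := by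
    rw [← pow_succ]; congr 1; omega
  have c0 : ∀ {c : F}, GoodTr p (2 + c) → c ≠ 0 := fun hc e => hc.1 (by rw [e, add_zero])
  have sub : ∀ {x x' y y' : V} {c : F}, H4 Q x x' y y' → c ≠ 0 → cOrb (stabilizer (Om Q) x ⊓ stabilizer (Om Q) y)
      (ϱ x' (c • y')) ⊆ LR hQ h5 ∧ ϱ x y ∉ cOrb (stabilizer (Om Q) x ⊓ stabilizer (Om Q) y) (ϱ x' (c • y')) :=
    fun {x x' y y' c} h hc => ⟨fun _ ⟨g, _, e⟩ => e ▸ LR_conj hQ h5 g _ (h.flip.swap.mem hc), fun ⟨g, hg, e⟩ => by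
      have := (h.conj_x (hQ := hQ) (h5 := h5) (c := c) hg).1
      rw [← e, er_self h.qx h.xy, eq_comm, sub_eq_self, smul_eq_zero, g.1.map_eq_zero_iff] at this
      exact this.elim hc fun e => by simpa [e] using h.yy'⟩
  have mt : ∀ {x x' y y' : V}, H4 Q x x' y y' → ϱ x y ∈ LR hQ h5 := fun h => by simpa using h.mem one_ne_zero
  obtain ⟨x, x', y, y', h⟩ := exists_H4 hQ h7
  rcases h3.lt_or_eq with h3 | h3
  · obtain ⟨τ, τ', ne, g1, g2⟩ := exists_goodTr_two (p := p) F h3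
    rw [← add_sub_cancel 2 τ] at g1
    rw [← add_sub_cancel 2 τ'] at g2
    have le : ∀ {c : F}, GoodTr p (2 + c) → ∀ d ∈ cOrb (stabilizer (Om Q) x ⊓ stabilizer (Om Q) y) (ϱ x' (c • y')),
        Nat.card F ≤ fx Ω ((ϱ x y)⁻¹ * d) := fun hc d hd' => by
      rw [fx_of_mem_cOrb h.comm_Y hd']
      exact Nat.le_of_dvd (orth_fx hQ h5 h7 hd H hB h hc hn).1 (orth_fx hQ h5 h7 hd H hB h hc hn).2
    have := pair_set k1 (mt h) (LR_fpf hQ h5 h7 hd H hB _ (mt h)) (sub h (c0 g1)).1 (sub h (c0 g2)).1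
      (Set.disjoint_left.2 fun _ ⟨g, hg, e⟩ ⟨g', hg', e'⟩ => ne (by
        have a1 := congrArg (𝔅 y) (h.conj_x (hQ := hQ) (h5 := h5) (c := τ - 2) hg).1
        have a2 := congrArg (𝔅 y) (h.conj_x (hQ := hQ) (h5 := h5) (c := τ' - 2) hg').1
        have b1 := om_B g y y'
        have b2 := om_B g' y y'
        rw [show g.1 y = y from hg.2] at b1
        rw [show g'.1 y = y from hg'.2] at b2
        rw [← e', e, a1] at a2
        simpa [b1, b2, h.tab] using a2)) (sub h (c0 g1)).2 (sub h (c0 g2)).2 (le g1) (le g2)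
    have a1 := Nat.mul_le_mul_right (Nat.card F) (h.le_cOrb (hQ := hQ) (h5 := h5) (c0 g1))
    have a2 := Nat.mul_le_mul_right (Nat.card F) (h.le_cOrb (hQ := hQ) (h5 := h5) (c0 g2))
    omega
  obtain rfl : p = 3 := (Nat.prime_dvd_prime_iff_eq Fact.out Nat.prime_three).1 (h3 ▸ Ctx.char_dvd_card)
  obtain ⟨τ, g1⟩ := exists_goodTr (p := 3) F
  rw [← add_sub_cancel 2 τ] at g1
  generalize τ - 2 = c at g1
  have f3 : ∀ {x x' y y' : V}, H4 Q x x' y y' → (fixedBy Ω ((ϱ x y)⁻¹ * ϱ x' (c • y'))).ncard = 3 := fun {x x' y y'} h => by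
    have a0 := pair_set k1 (mt h) (LR_fpf hQ h5 h7 hd H hB _ (mt h)) (sub h (c0 g1)).1 (Set.empty_subset _)
      (Set.disjoint_empty _) (sub h (c0 g1)).2 (Set.notMem_empty _) (f₂ := 0)
      (fun d hd' => (fx_of_mem_cOrb h.comm_Y hd').ge) fun _ _ => Nat.zero_le _
    obtain ⟨a1, a2⟩ := orth_fx hQ h5 h7 hd H hB h g1 hn
    have a3 := Nat.mul_le_mul_right (fx Ω ((ϱ x y)⁻¹ * ϱ x' (c • y'))) (h.le_cOrb (hQ := hQ) (h5 := h5) (c0 g1))
    have a4 := Nat.lt_of_mul_lt_mul_left (a := Nat.card F ^ (2 * finrank F V - 7)) (c := 6)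
      (lt_of_le_of_lt a3 (by rw [← h3] at hlt e6 ⊢; omega))
    rw [← Nat.card_coe_set_eq]
    rw [← h3] at a2
    change fx Ω _ = 3
    omega
  obtain ⟨r, i, r1, r2, r3⟩ := h.swap.u_pow (hQ := hQ) (h5 := h5) g1
  set u := (ϱ x y)⁻¹ * ϱ x' (c • y')
  set u' := (ϱ x y')⁻¹ * ϱ x' (c • y)
  have e1 : fixedBy Ω u = fixedBy Ω u' := by
    refine Set.eq_of_subset_of_ncard_le (fun a ha => ?_) ((f3 h.swap).trans (f3 h).symm).le
    let := fixAct (Ω := Ω) (P := Subgroup.centralizer {u}) (u := u) fun g hg => Subgroup.mem_centralizer_singleton_iff.1 hg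
    let φ := MulAction.toPermHom (Subgroup.centralizer {u}) (fixedBy Ω u)
    let t1 : Subgroup.centralizer {u} := ⟨ϱ x ((-1 : F) • y'), Subgroup.mem_centralizer_singleton_iff.2 (h.comm _)⟩
    let t2 : Subgroup.centralizer {u} := ⟨ϱ x' (c • y), Subgroup.mem_centralizer_singleton_iff.2 (h.comm' _)⟩
    have a1 := orth_cube ((Nat.card_coe_set_eq _).trans (f3 h)) (a := φ t1) (b := φ t2)
      (by rw [← map_pow, show t1 ^ 3 = 1 from Subtype.ext (er_pow (by simp [h.xy'])), map_one])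
      (by rw [← map_pow, show t2 ^ 3 = 1 from Subtype.ext (er_pow (by simp [h.x'y])), map_one])
    have a2 : (t1 * t2).1 = u' := congrArg (· * _) h.swap.inv.symm
    have a3 := pow_gcd_eq_one.2 ⟨a1, show (φ t1 * φ t2) ^ r ^ i = 1 by
      rw [← map_mul, ← map_pow, show (t1 * t2) ^ r ^ i = 1 from Subtype.ext ((congrArg (· ^ r ^ i) a2).trans r3), map_one]⟩
    rw [((Nat.coprime_primes Nat.prime_three r1).2 r2.symm).pow_right i, pow_one, ← map_mul] at a3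
    exact (congrArg (· • a) a2).symm.trans (congrArg Subtype.val (DFunLike.congr_fun a3 ⟨a, ha⟩) :)
  obtain ⟨ω, hω⟩ := (Set.ncard_pos (Set.toFinite _)).1 (f3 h.swap ▸ by decide : 0 < (fixedBy Ω u').ncard)
  have mv : ∀ {g w : Om Q}, Commute g w → ω ∈ fixedBy Ω w → g • ω ∈ fixedBy Ω w := fun e k => by
    rw [mem_fixedBy, ← mul_smul, ← e.eq, mul_smul, k]
  obtain ⟨t, ht⟩ := ((Nat.bijective_iff_injective_and_card (fun t : F => (⟨_, mv (h.swap.comm t) hω⟩ :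
    fixedBy Ω u'))).2 ⟨fun t t' e => by_contra fun ne => LR_fpf hQ h5 h7 hd H hB _ (h.mem (sub_ne_zero.2 ne)) ω (by
      rw [sub_smul, sub_eq_neg_add, ← er_mul (by simp [h.xy]) (by simp [h.xy]), er_neg (by simp [h.xy]), mul_smul,
        inv_smul_eq_iff]
      exact congrArg Subtype.val e), by rw [← h3, Nat.card_coe_set_eq, f3 h.swap]⟩).2
    ⟨_, e1 ▸ mv (h.comm 1) (e1 ▸ hω)⟩
  replace ht : ϱ x (t • y) • ω = ϱ x ((1 : F) • y') • ω := congrArg Subtype.val ht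
  refine orth_last hQ h5 h7 hd H hB h3.symm h (v := -(t • y) + (1 : F) • y') (ω := ω) (by simp [h.tab]) (by simp [h.tab])
    (fun e => LR_fpf hQ h5 h7 hd H hB _ (h.swap.mem one_ne_zero) ω ?_) ?_ hn (CharP.cast_eq_zero F 3)
  · obtain rfl : t = 0 := by simpa [q_add, q_smul, h.tab] using e
    rw [← ht, zero_smul, er_zero, one_smul]
  · rw [← er_mul (by simp [h.xy]) (by simp [h.xy']), er_neg (by simp [h.xy]), mul_smul, inv_smul_eq_iff, ht]

end CfsgLib.CKS
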