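import Mathlib
import Cfsg.Agent.Lib.CKS.Orth2
import Cfsg.Agent.S2146
import Cfsg.Agent.S2147

/-! CKS, package ORTH3: the orthogonal families. -/

namespace CfsgLib.CKS
open Cfsg MulAction

theorem arith_even {q X c n s L S Z : ℕ} {ε : ℤ} (hε : ε = 1 ∨ ε = -1) (hq : 2 ≤ q) (hX : q ^ 2 ≤ X)
    (hc : (X : ℤ) ^ 2 - 1 = (q ^ 2 - 1) * c) (hS : (S : ℤ) = q ^ 3 * X ^ 2 + ε * (q ^ 2 * X - q * X))
    (hZ : (Z : ℤ) = q * X ^ 2 + ε * (q * X - X)) (hL : L * (q ^ 2 - 1) = (S - 1) * (Z - 1)) (hn : 2 ≤ n)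
    (hd : q * X ^ 2 ∣ n) (hs : L = (n - 1) * s) : n = q ^ 2 * X ^ 2 ∧ s ≤ 2 * X ^ 2 := by
  have q4 : 4 ≤ q ^ 2 := Nat.pow_le_pow_left hq 2
  have hq' : (2 : ℤ) ≤ q := by exact_mod_cast hq
  have q4' : (4 : ℤ) ≤ q ^ 2 := by exact_mod_cast q4
  have hX' : (q : ℤ) ^ 2 ≤ X := by exact_mod_cast hX
  have X0 : (0 : ℤ) ≤ X := by omega
  have e1 : ε ≤ 1 ∧ -1 ≤ ε := by omega
  have e2 : ε * ε = 1 := by rcases hε with rfl | rfl <;> rfl
  have b1 : 3 * (c : ℤ) ≤ (q ^ 2 - 1) * c := mul_le_mul_of_nonneg_right (by omega) (by omega)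
  have b2 : 4 * (X : ℤ) ≤ X * X := mul_le_mul_of_nonneg_right (by omega) X0
  have b3 : (q : ℤ) ^ 2 * X ≤ X * X := mul_le_mul_of_nonneg_right hX' X0
  have b4 : 2 * ((X : ℤ) * X) ≤ q * (X * X) := mul_le_mul_of_nonneg_right hq' (by positivity)
  have b5 : 2 * (q : ℤ) ≤ q * q := mul_le_mul_of_nonneg_right hq' (by omega)
  have b6 : ∀ y : ℤ, 0 ≤ y → ε * y ≤ y ∧ -y ≤ ε * y := fun y hy => by rcases hε with rfl | rfl <;> omega
  have b7 : 2 * (X : ℤ) ≤ q * X := mul_le_mul_of_nonneg_right hq' X0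
  have b8 : (q : ℤ) * (4 * X) ≤ q * (X * X) := mul_le_mul_of_nonneg_left b2 (by omega)
  have b9 : 2 * ((q : ℤ) * X) ≤ q * (q * X) := mul_le_mul_of_nonneg_right hq' (by positivity)
  have b10 : (q : ℤ) ^ 2 * (2 * (X * X)) ≤ q ^ 2 * (q * (X * X)) := mul_le_mul_of_nonneg_left b4 (by positivity)
  have b11 : (q : ℤ) ^ 2 * (4 * X) ≤ q ^ 2 * (X * X) := mul_le_mul_of_nonneg_left b2 (by positivity)
  obtain ⟨t, ht⟩ := Int.eq_ofNat_of_zero_le (a := X * (X + ε) + c) (by linarith [(b6 X X0).2])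
  have Z1 : 1 ≤ Z := by zify; linarith [(b6 (q * X - X) (by linarith)).2]
  have S1 : 1 ≤ S := by zify; linarith [(b6 (q ^ 2 * X - q * X) (by linarith)).2]
  have t1 : (t : ℤ) * (q ^ 2 - 1) = (q ^ 2 * X - ε) * (X + ε) := by
    rw [← ht]; linear_combination (-1 : ℤ) * hc + e2
  have t2 : (t : ℤ) ≤ 2 * X ^ 2 - X := by linarith [(b6 X X0).1]
  have Q1 : 1 ≤ q * X ^ 2 * q := Nat.mul_pos (Nat.mul_pos (by omega) (Nat.pow_pos (by omega))) (by omega)
  have hL' : L = t * (q * X ^ 2 * q - 1) := by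
    refine Nat.eq_of_mul_eq_mul_right (show 0 < q ^ 2 - 1 by omega) ?_
    rw [hL]
    zify [Z1, S1, Q1, show 1 ≤ q ^ 2 by omega]
    rw [mul_right_comm, t1, hS, hZ]
    rcases hε with rfl | rfl <;> ring
  obtain ⟨k1, k2⟩ | ⟨m, j, k1, k2, k3, -, -, k4⟩ := arith (s := s) (e := q) (t := t) hd hn
    (by zify; linarith [(b6 X X0).2]) (by zify; linarith) (by omega) (hs ▸ hL')
  · exact ⟨by rw [k1]; ring, by rw [k2]; zify; omega⟩
  · exfalso
    have a2 : q * X ^ 2 - 1 ≤ j * (q * X ^ 2 * m - 1) :=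
      (Nat.sub_le_sub_right (Nat.le_mul_of_pos_right _ k2) 1).trans (Nat.le_mul_of_pos_left _ k1)
    have a3 := Nat.mul_le_mul_left t (show q - m ≤ q - 1 by omega)
    rw [← k4] at a3
    have a4 := a2.trans a3
    rw [Nat.sub_le_iff_le_add] at a4
    zify [show 1 ≤ q by omega] at a4
    have a5 := mul_le_mul_of_nonneg_right a4 (show (0 : ℤ) ≤ q + 1 by omega)
    linarith [(b6 (q ^ 2 * X - X) (by linarith)).1]

theorem arith_odd {q X t n s L : ℕ} (hq : 2 ≤ q) (hX : 1 ≤ X) (hc : q ^ 2 * X - 1 = (q ^ 2 - 1) * t)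
    (hL : L * (q ^ 2 - 1) = (q ^ 2 * X * q ^ 2 - 1) * (q ^ 2 * X - 1)) (hn : 2 ≤ n)
    (hd : q ^ 2 * X ∣ n) (hs : L = (n - 1) * s) :
    (n = q ^ 2 * X ∨ n = q ^ 2 * X * q ^ 2) ∧ n * s < n + 2 * (q ^ 2 * X) ^ 2 := by
  have q4 : 4 ≤ q ^ 2 := by nlinarith
  generalize q ^ 2 = e at *
  obtain ⟨e, rfl⟩ : ∃ a, e = a + 1 := ⟨e - 1, by omega⟩
  rw [Nat.add_sub_cancel] at hc hL
  have a0 : 1 ≤ (e + 1) * X := Nat.one_le_iff_ne_zero.2 (by positivity)
  have a1 : (e + 1) * X = e * t + 1 := by omega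
  have t0 : 0 < t := Nat.pos_of_ne_zero (by rintro rfl; nlinarith)
  have t1 : t ≤ 2 * X := by nlinarith
  obtain ⟨k1, k2⟩ | ⟨m, j, k1, k2, k3, k4, k5, k6⟩ := arith (s := s) (e := e + 1) (t := t) hd hn t0
    (by nlinarith) (by omega) (hs ▸ Nat.eq_of_mul_eq_mul_right (show 0 < e by omega) (by rw [hL, hc]; ring))
  · refine ⟨.inr k1, ?_⟩
    rw [k1, k2]
    have := Nat.mul_le_mul_left ((e + 1) * X * (e + 1)) t1
    nlinarith
  · obtain rfl : m = 1 := by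
      by_contra c
      have a2 : (e + 1) * X * 2 - 1 ≤ j * ((e + 1) * X * m - 1) :=
        (Nat.sub_le_sub_right (Nat.mul_le_mul_left _ (by omega)) 1).trans (Nat.le_mul_of_pos_left _ k1)
      have a3 := Nat.mul_le_mul_left t (show e + 1 - m ≤ e by omega)
      rw [← k6, mul_comm t] at a3
      omega
    rw [mul_one, Nat.add_sub_cancel, hc, mul_comm t] at k6
    obtain rfl : j = 1 := Nat.eq_of_mul_eq_mul_right (Nat.mul_pos (show 0 < e by omega) t0) (k6.trans (one_mul _).symm)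
    refine ⟨.inl (by omega), ?_⟩
    rw [k4, k5]
    nlinarith

variable {p : ℕ} [Fact p.Prime] {F : Type} [Field F] [Fintype F] [CharP F p] {Ω : Type*}

section
open CfsgLib.Forms CfsgLib.RootMax CfsgLib.MinIdx Module

theorem om_lift {ι : Type} [Fintype ι] [DecidableEq ι] {Q : QuadraticForm F (ι → F)} {q : (ι → F) → F}
    (hq : ∀ x, q x = Q x) (hQ : OrthE.Nondeg Q) (h5 : 5 ≤ finrank F (ι → F)) [MulAction (POmega F q) Ω]
    (H : TwoTr (POmega F q) Ω) (hB : BTr p (POmega F q) Ω) :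
    ∃ _ : MulAction (Om Q) Ω, TwoTr (Om Q) Ω ∧ BTr p (Om Q) Ω := by
  have hE := hQ.E_eq_commutator_of_finite h5
  have := finite_Om hQ h5
  let e : Om Q →* OrthE.E Q :=
    { toFun := fun g => ⟨⟨g.1, Om_le Q g.2⟩, hE ▸ (mem_Om_iff _).1 g.2⟩
      map_one' := rfl
      map_mul' := fun _ _ => rfl }
  have he : Function.Surjective e := fun g => ⟨⟨g.1.1, (mem_Om_iff _).2 (hE ▸ g.2)⟩, rfl⟩
  let f := (OrthE.pomegaEquiv hq hE).symm.toMonoidHom.comp ((QuotientGroup.mk' _).comp e)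
  have hf : Function.Surjective f :=
    (OrthE.pomegaEquiv hq hE).symm.surjective.comp ((QuotientGroup.mk'_surjective _).comp he)
  letI := MulAction.compHom Ω f
  refine ⟨this, H.lift f hf (fun _ _ => rfl) fun g hg => ?_, hB.lift f hf fun _ _ => rfl⟩
  have := OrthE.isSimpleGroup_POmega hq hQ (by rwa [finrank_fintype_fun_eq_card] at h5)
  rcases (inferInstance : (Subgroup.center (POmega F q)).Normal).eq_bot_or_eq_top with k | k
  · rw [k, Subgroup.mem_bot] at hg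
    have h3 : e g ∈ Subgroup.center (OrthE.E Q) := by simpa [f] using hg
    exact Subgroup.mem_center_iff.2 fun a => Subtype.ext
      (congrArg (fun t : OrthE.E Q => t.1.1) (Subgroup.mem_center_iff.1 h3 (e a)))
  · have := H.finite
    obtain ⟨a⟩ : Nonempty Ω := (Nat.card_pos_iff.1 (lt_of_lt_of_le (by decide) H.big)).1
    exact absurd (top_le_iff.1 fun g _ => H.center_smul (k ▸ Subgroup.mem_top g) a) (H.stab_ne_top a)

variable {V : Type} [AddCommGroup V] [Module F V] [FiniteDimensional F V] {Q : QuadraticForm F V}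
  (hQ : OrthE.Nondeg Q) [MulAction (Om Q) Ω] (H : TwoTr (Om Q) Ω) (hB : BTr p (Om Q) Ω)
include hQ H hB

theorem om_num (h5 : 5 ≤ finrank F V) (h7 : 7 ≤ finrank F V) (hd : (2 : F) = 0 → Even (finrank F V)) :
    ∃ s, (LR hQ h5).ncard = (Nat.card Ω - 1) * s := by
  have := finite_Om hQ h5
  obtain ⟨s, -, hs⟩ := H.num_set (LR_conj hQ h5)
  obtain ⟨a⟩ : Nonempty Ω := (Nat.card_pos_iff.1 (lt_of_lt_of_le (by decide) H.big)).1
  refine ⟨s, ?_⟩
  rw [hs a, show {t | t ∈ LR hQ h5 ∧ t • a = a} = ∅ from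
    Set.eq_empty_of_forall_notMem fun t ht => LR_fpf hQ h5 h7 hd H hB t ht.1 a ht.2, Set.ncard_empty, zero_add]

theorem om_even {k : ℕ} (hk : 2 ≤ k) (hd : finrank F V = 2 * k + 4) {ε : ℤ} (hε : ε = 1 ∨ ε = -1)
    (hS : (Nat.card {v // Q v = 0} : ℤ) =
      Nat.card F ^ (2 * (k + 1) + 1) + ε * (Nat.card F ^ (k + 1 + 1) - Nat.card F ^ (k + 1))) :
    Fintype.card F = 2 ∧ Nat.card Ω = 2 ^ (2 * k + 2) := by
  have h5 : 5 ≤ finrank F V := by omega
  have h7 : 7 ≤ finrank F V := by omega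
  have he : (2 : F) = 0 → Even (finrank F V) := fun _ => ⟨k + 2, by omega⟩
  have hq : 2 ≤ Nat.card F := Finite.one_lt_card
  have hq' : (2 : ℤ) ≤ Nat.card F := by exact_mod_cast hq
  obtain ⟨s, hs⟩ := om_num hQ H hB h5 h7 he
  have hX : Nat.card F ^ 2 ≤ Nat.card F ^ k := Nat.pow_le_pow_right (by omega) hk
  have hX' : (1 : ℤ) ≤ Nat.card F ^ k := one_le_pow₀ (by omega)
  obtain ⟨Z, hZ⟩ := Int.eq_ofNat_of_zero_le (a := Nat.card F * (Nat.card F ^ k) ^ 2 +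
    ε * (Nat.card F * Nat.card F ^ k - Nat.card F ^ k)) (by
      rcases hε with rfl | rfl <;> nlinarith [mul_le_mul_of_nonneg_left hX' (by positivity :
        (0 : ℤ) ≤ Nat.card F * Nat.card F ^ k)])
  obtain ⟨c, hc⟩ := Nat.sub_dvd_pow_sub_pow (Nat.card F ^ 2) 1 k
  have k1 := LR_card hQ h5 h7 he (Z := Z) (by
    zify [show 1 ≤ Nat.card F by omega]
    rw [hS, ← hZ, hd, show 2 * k + 4 - 2 = 2 * k + 2 from rfl]; ring)
  have k2 := LR_dvd hQ h7 he H hB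
  obtain ⟨k3, k4⟩ := arith_even (X := Nat.card F ^ k) (c := c) hε hq hX (by
      zify [Nat.one_le_pow 2 _ (show 0 < Nat.card F by omega), Nat.pow_le_pow_left
        (Nat.one_le_pow 2 _ (show 0 < Nat.card F by omega)) k] at hc
      push_cast; linear_combination hc) (by rw [hS]; push_cast; ring) (by rw [← hZ]; push_cast; ring) k1
    (le_trans (by decide) H.big) (by
      rw [hd] at k2; convert k2 using 1; rw [show 2 * k + 4 - 3 = 2 * k + 1 from rfl]; ring) hs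
  obtain h2 | h3 : Nat.card F = 2 ∨ 3 ≤ Nat.card F := by omega
  · exact ⟨by rwa [← Nat.card_eq_fintype_card], by rw [k3, h2]; ring⟩
  obtain ⟨a, -, ha⟩ := FiniteField.card F p
  refine (orth_end hQ h5 h7 he H hB h3 (j := a * (2 * k + 2))
    (by rw [k3, pow_mul, ← ha, Nat.card_eq_fintype_card]; ring) hs ?_).elim
  have := Nat.mul_le_mul_left (Nat.card Ω) k4
  have := H.big
  rw [hd, show 2 * (2 * k + 4) - 6 = 4 * k + 2 by omega,
    show 2 * Nat.card F ^ (4 * k + 2) = Nat.card Ω * (2 * (Nat.card F ^ k) ^ 2) by rw [k3]; ring]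
  omega

theorem om_odd {k : ℕ} (hk : 1 ≤ k) (hd : finrank F V = 2 * (k + 2) + 1) (h2 : (2 : F) ≠ 0)
    (h3 : 3 ≤ Nat.card F) : False := by
  have h5 : 5 ≤ finrank F V := by omega
  have h7 : 7 ≤ finrank F V := by omega
  have he : (2 : F) = 0 → Even (finrank F V) := fun e => absurd e h2
  obtain ⟨s, hs⟩ := om_num hQ H hB h5 h7 he
  have hS := OrthE.card_zeros_odd _ Q hQ hd
  obtain ⟨t, ht⟩ := Nat.sub_dvd_pow_sub_pow (Nat.card F ^ 2) 1 (k + 1)
  have k1 := LR_card hQ h5 h7 he (Z := Nat.card F ^ 2 * Nat.card F ^ (2 * k)) (by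
    zify [show 1 ≤ Nat.card F by omega]
    rw [hS, hd, show 2 * (k + 2) + 1 - 2 = 2 * k + 3 from rfl]; push_cast; ring)
  have k2 := LR_dvd hQ h7 he H hB
  obtain ⟨k3, k4⟩ := arith_odd (X := Nat.card F ^ (2 * k)) (t := t) (show 2 ≤ Nat.card F by omega)
    (Nat.one_le_pow _ _ (by omega)) (by rw [← ht]; congr 1 <;> ring) (by rw [k1, hS]; congr 2; ring)
    (le_trans (by decide) H.big) (by
      rw [hd] at k2; convert k2 using 1; rw [show 2 * (k + 2) + 1 - 3 = 2 * k + 2 from rfl]; ring) hs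
  obtain ⟨a, -, ha⟩ := FiniteField.card F p
  obtain ⟨j, hj⟩ : ∃ j, Nat.card Ω = p ^ j := k3.elim
    (fun e => ⟨a * (2 * k + 2), by rw [e, pow_mul p, ← ha, Nat.card_eq_fintype_card]; ring⟩)
    fun e => ⟨a * (2 * k + 4), by rw [e, pow_mul p, ← ha, Nat.card_eq_fintype_card]; ring⟩
  refine orth_end hQ h5 h7 he H hB h3 hj hs ?_
  convert k4 using 3
  rw [hd, show 2 * (2 * (k + 2) + 1) - 6 = 4 * k + 4 by omega]; ring

end

theorem o_odd {m : ℕ} (hm : 3 ≤ m) (hq : Odd (Fintype.card F)) [MulAction (POmega F (quadFormOdd m F)) Ω]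
    (H : TwoTr (POmega F (quadFormOdd m F)) Ω) (hB : BTr p (POmega F (quadFormOdd m F)) Ω) : False := by
  obtain ⟨k, rfl⟩ : ∃ k, m = k + 2 := ⟨m - 2, by omega⟩
  have h2 := OrthE.two_ne_zero_of_odd hq
  have hQ := OrthE.nondeg_qOdd (F := F) h2 (k + 2)
  have hd : Module.finrank F (Unit ⊕ (Fin (k + 2) ⊕ Fin (k + 2)) → F) = 2 * (k + 2) + 1 := by simp; ring
  obtain ⟨_, H', hB'⟩ := om_lift (OrthE.qOdd_eq _) hQ (by omega) H hB
  refine om_odd hQ H' hB' (by omega) hd h2 ?_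
  have := Fintype.one_lt_card (α := F)
  rw [Nat.odd_iff] at hq
  rw [Nat.card_eq_fintype_card]
  omega

theorem o_plus {m : ℕ} (hm : 4 ≤ m) [MulAction (POmega F (quadFormPlus m F)) Ω]
    (H : TwoTr (POmega F (quadFormPlus m F)) Ω) (hB : BTr p (POmega F (quadFormPlus m F)) Ω) : False := by
  obtain ⟨k, rfl⟩ : ∃ k, m = k + 2 := ⟨m - 2, by omega⟩
  have hQ := OrthE.nondeg_qPlus (F := F) (k + 2)
  have hd : Module.finrank F (Fin (k + 2) ⊕ Fin (k + 2) → F) = 2 * k + 4 := by simp; ring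
  obtain ⟨_, H', hB'⟩ := om_lift (OrthE.qPlus_eq _) hQ (by omega) H hB
  obtain ⟨k1, k2⟩ := om_even hQ H' hB' (by omega) hd (.inl rfl) (OrthE.card_zeros_qPlus (k + 1))
  have := H.le_card (Agent.S2146.result k1 _ hm).1
  rw [k2, show 2 * k + 2 = k + 1 + (k + 1) by ring, pow_add 2 (k + 1), show k + 2 - 1 = k + 1 from rfl] at this
  have k3 := Nat.le_of_mul_le_mul_left this (by positivity)
  have := Nat.one_le_two_pow (n := k)
  simp only [pow_succ] at k3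
  omega

theorem o_minus {m : ℕ} (hm : 4 ≤ m) {a b : F}
    (hab : ∀ z₁ z₂ : F, z₁ ^ 2 + a * z₁ * z₂ + b * z₂ ^ 2 = 0 → z₁ = 0 ∧ z₂ = 0)
    [MulAction (POmega F (quadFormMinus (m - 1) F a b)) Ω] (H : TwoTr (POmega F (quadFormMinus (m - 1) F a b)) Ω)
    (hB : BTr p (POmega F (quadFormMinus (m - 1) F a b)) Ω) : False := by
  obtain ⟨k, rfl⟩ : ∃ k, m = k + 2 := ⟨m - 2, by omega⟩
  have hQ := OrthE.nondeg_qMinus (F := F) (k + 2 - 1) hab
  have hd : Module.finrank F ((Fin (k + 2 - 1) ⊕ Fin (k + 2 - 1)) ⊕ Fin 2 → F) = 2 * k + 4 := by simp; ring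
  obtain ⟨_, H', hB'⟩ := om_lift (OrthE.qMinus_eq (k + 2 - 1) a b) hQ (by omega) H hB
  obtain ⟨k1, k2⟩ := om_even hQ H' hB' (by omega) hd (.inr rfl) (OrthE.card_zeros_qMinus (k + 1) hab)
  have := H.le_card (Agent.S2147.result k1 _ hm a b hab).1
  rw [k2, show 2 * k + 2 = k + k + 2 by ring, show k + 2 - 1 = k + 1 from rfl, Nat.div_one] at this
  have k3 : 2 ^ 2 ≤ 2 ^ k := Nat.pow_le_pow_right (by decide) (by omega)
  simp only [pow_succ, pow_add] at this k3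
  generalize 2 ^ k = Y at *
  obtain ⟨Y, rfl⟩ : ∃ a, Y = a + 1 := ⟨Y - 1, by omega⟩
  rw [show (Y + 1) * 2 - 1 = 2 * Y + 1 by omega] at this
  nlinarith

end CfsgLib.CKS
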