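import Mathlib
import Cfsg.Agent.Lib.CKS.Abs2
import Cfsg.Agent.Lib.CKS.Abs3
import Cfsg.Agent.Lib.MinIdx.UFinal

/-! CKS: the groups of transvections of a symplectic or unitary group. -/

namespace CfsgLib.CKS
open MulAction CfsgLib.MinIdx CfsgLib.MinIdx.Ctx CfsgLib.Forms CfsgLib.RootMax Module Submodule
open scoped commutatorElement

section abstract

variable {G : Type*} [Group G] {Ω : Type*}

theorem TwoTr.center_bot [MulAction G Ω] [IsSimpleGroup G] (H : TwoTr G Ω) : Subgroup.center G = ⊥ := by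
  refine (Subgroup.Normal.eq_bot_or_eq_top inferInstance).resolve_right fun e => ?_
  have := H.finite
  have : Nontrivial Ω := Finite.one_lt_card_iff_nontrivial.1 (by have := H.big; omega)
  obtain ⟨a, b, h⟩ := exists_pair_ne Ω
  obtain ⟨g, rfl⟩ := H.trans a b
  exact h (H.center_smul (e ▸ Subgroup.mem_top g) a).symm

/-- lifting an action of a simple central factor group -/
theorem TwoTr.exists_lift {L K : Type*} [Group L] [Group K] [IsSimpleGroup (L ⧸ Subgroup.center L)]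
    [MulAction (L ⧸ Subgroup.center L) Ω] (H : TwoTr (L ⧸ Subgroup.center L) Ω) (e : L ≃* K) :
    ∃ _ : MulAction K Ω, TwoTr K Ω ∧ ∀ (p : ℕ) [Fact p.Prime] [Finite K], BTr p (L ⧸ Subgroup.center L) Ω →
      BTr p K Ω := by
  let f := (QuotientGroup.mk' (Subgroup.center L)).comp e.symm.toMonoidHom
  have hf : Function.Surjective f := (QuotientGroup.mk'_surjective _).comp e.symm.surjective
  letI := MulAction.compHom Ω f
  refine ⟨this, H.lift f hf (fun _ _ => rfl) fun g hg => ?_, fun p _ _ hB => hB.lift f hf fun _ _ => rfl⟩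
  rw [H.center_bot, Subgroup.mem_bot] at hg
  have h1 : e.symm g ∈ Subgroup.center L := (QuotientGroup.eq_one_iff _).1 hg
  refine Subgroup.mem_center_iff.2 fun k => e.symm.injective ?_
  rw [map_mul, map_mul, Subgroup.mem_center_iff.1 h1]

theorem le_of_num {n s v r m : ℕ} (hr : 1 < r) (hn : 1 ≤ n) (hm : m ∣ n) (hv : v ≡ 1 [MOD m])
    (h : (n - 1) * s = v * (r - 1)) : m + 1 ≤ s + r := by
  obtain ⟨r, rfl⟩ : ∃ k, r = k + 1 := ⟨r - 1, by omega⟩
  obtain ⟨n, rfl⟩ : ∃ k, n = k + 1 := ⟨n - 1, by omega⟩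
  simp only [Nat.add_sub_cancel] at h
  have h1 : (n + 1) * s ≡ 0 * s [MOD m] := ((Nat.modEq_zero_iff_dvd).2 hm).mul_right s
  have h2 : v * r + s ≡ 1 * r + s [MOD m] := (hv.mul_right r).add_right s
  rw [add_mul, h, one_mul, zero_mul] at h1
  rw [one_mul] at h2
  have := Nat.le_of_dvd (by omega) ((Nat.modEq_zero_iff_dvd).1 (h2.symm.trans h1))
  omega

theorem modEq_one_of {v Q N : ℕ} (hQ : 1 ≤ Q) (h : v * (Q - 1) + 1 = N) (hN : Q ∣ N) : v ≡ 1 [MOD Q] := by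
  obtain ⟨Q, rfl⟩ : ∃ k, Q = k + 1 := ⟨Q - 1, by omega⟩
  rw [Nat.add_sub_cancel] at h
  have h1 : N + v ≡ 0 + v [MOD (Q + 1)] := ((Nat.modEq_zero_iff_dvd).2 hN).add_right v
  have h2 : v * (Q + 1) + 1 ≡ 0 + 1 [MOD (Q + 1)] :=
    ((Nat.modEq_zero_iff_dvd).2 (dvd_mul_left _ _)).add_right 1
  rw [zero_add] at h1 h2
  exact h1.symm.trans ((show N + v = v * (Q + 1) + 1 by rw [← h]; ring) ▸ h2)

end abstract

universe u v

variable {F : Type u} [Field F] {σ : F →+* F} {V : Type v} [AddCommGroup V] [Module F V] {P : PQ σ V}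

/-- the transvections with centre `x` -/
noncomputable def zG (C : Ctx P) (x : V) : Subgroup C.K := (C.zfam x).hom.range

/-- the root elements with centre `x` -/
noncomputable def rG (C : Ctx P) (x : V) : Subgroup C.K := (C.heisHom x).range

variable {C : Ctx P} {x : V}

theorem mem_zG {g : C.K} : g ∈ zG C x ↔ ∃ c ∈ P.Λ, C.el x 0 c = g :=
  ⟨fun ⟨c, h⟩ => ⟨_, (Multiplicative.toAdd c).2, h⟩, fun ⟨c, hc, h⟩ => ⟨Multiplicative.ofAdd ⟨c, hc⟩, h⟩⟩

theorem mem_rG {g : C.K} : g ∈ rG C x ↔ ∃ a c, C.Val x a c ∧ C.el x a c = g :=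
  ⟨fun ⟨c, h⟩ => ⟨_, _, c.2, h⟩, fun ⟨a, c, hc, h⟩ => ⟨⟨(a, c), hc⟩, h⟩⟩

theorem el_mem_zG {c : F} (hc : c ∈ P.Λ) : C.el x 0 c ∈ zG C x := mem_zG.2 ⟨c, hc, rfl⟩

theorem el_mem_rG {a : V} {c : F} (h : C.Val x a c) : C.el x a c ∈ rG C x := mem_rG.2 ⟨a, c, h, rfl⟩

theorem zG_le_rG : zG C x ≤ rG C x := fun _ hg =>
  let ⟨_, hc, h⟩ := mem_zG.1 hg
  h ▸ el_mem_rG (val_zero_iff.2 hc)

theorem card_zG [FiniteDimensional F V] (hx : C.Pt x) (hx0 : x ≠ 0) : Nat.card (zG C x) = Nat.card P.Λ :=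
  (Nat.card_congr (MonoidHom.ofInjective ((injective_iff_map_eq_one (C.zfam x).hom).2 fun c hc =>
    Subtype.ext (eq_zero_of_el_eq_one hx hx0 (Multiplicative.toAdd c).2 hc))).toEquiv).symm

theorem z_conj (hx : C.Pt x) (g : C.K) {c : F} (hc : c ∈ P.Λ) : g * C.el x 0 c * g⁻¹ = C.el (g.1 x) 0 c := by
  rw [el_conj g hx (val_zero_iff.2 hc), map_zero]

theorem zG_norm (hx : C.Pt x) : ∀ g ∈ lineStab C.K.subtype x, ∀ z ∈ zG C x, g * z * g⁻¹ ∈ zG C x := by
  rintro g ⟨t, -, ht⟩ z hz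
  obtain ⟨c, hc, rfl⟩ := mem_zG.1 hz
  rw [z_conj hx g hc, show g.1 x = t • x from ht, el_smul_left hx (val_zero_iff.2 hc), smul_zero]
  exact el_mem_zG (P.Λ_smul t c hc)

theorem comm_zG (hx : C.Pt x) {g : C.K} (hg : g.1 x = x) : ∀ z ∈ zG C x, Commute g z := fun z hz => by
  obtain ⟨c, hc, rfl⟩ := mem_zG.1 hz
  have := z_conj hx g hc
  rw [hg] at this
  exact mul_inv_eq_iff_eq_mul.1 this

theorem rG_fix (hx : C.Pt x) {g : C.K} (hg : g ∈ rG C x) : g.1 x = x := by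
  obtain ⟨a, c, h, rfl⟩ := mem_rG.1 hg
  exact el_apply_self hx h

theorem rG_norm (hx : C.Pt x) {g : C.K} (hg : g.1 x = x) : ∀ z ∈ rG C x, g * z * g⁻¹ ∈ rG C x := fun z hz => by
  obtain ⟨a, c, h, rfl⟩ := mem_rG.1 hz
  have := h.map g
  rw [el_conj g hx h]
  rw [hg] at this ⊢
  exact el_mem_rG this

theorem el_comm {a u : V} {c d : F} (h : C.Val x a c) (h' : C.Val x u d) :
    C.el x u d * C.el x a c = C.el x a c * C.el x 0 (P.ε * P.B u a - σ (P.B u a)) * C.el x u d := by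
  have hz : C.Val x 0 (P.ε * P.B u a - σ (P.B u a)) := val_zero_iff.2 (ε_sub_σ_mem P _)
  rw [el_mul h' h, el_mul h hz, el_mul (h.add hz) h', add_zero a, add_comm u a, P.symm u a, map_zero]
  congr 1
  linear_combination (-σ (P.B u a)) * P.εε

variable [FiniteDimensional F V]

theorem el_not_center (hR : C.R = ⊥) (hx : C.Pt x) (hx0 : x ≠ 0) {c : F} (hc : c ∈ P.Λ) (h0 : c ≠ 0) :
    C.el x 0 c ∉ Subgroup.center C.K := fun h => by
  obtain ⟨y, hy, e, -⟩ := P.exists_partner C.nondeg ⊥ hx.1 hx0 (by simp)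
  have hy' : C.Pt y := ⟨hy, by rw [hR, P.perp_bot]; trivial⟩
  have e1 := z_conj hy' (C.el x 0 c) hc
  rw [← Subgroup.mem_center_iff.1 h, mul_inv_cancel_right] at e1
  have e2 := congrArg (fun g : C.K => g.1 x) e1
  have e3 := B_map (C.el x 0 c) y x
  rw [el_apply_self hx (val_zero_iff.2 hc), e] at e3
  simp only [el_apply hy' (val_zero_iff.2 hc), el_apply (hy'.map _) (val_zero_iff.2 hc)] at e2
  rw [rt_def, rt_def, e3, e, el_apply hx (val_zero_iff.2 hc), rt_def] at e2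
  have e4 : P.B x y ≠ 0 := fun k => by simp [P.B_eq_zero_comm.1 k] at e
  simp [h0, e4, hx0] at e2

theorem exists_conj_z (hR : C.R = ⊥) (hΛ : ∀ c ∈ P.Λ, ∃ t, c = P.ε * t - σ t) {a : V} {d : F} (h : C.Val x a d)
    (ha : a ∉ span F {x}) {z : C.K} (hz : z ∈ zG C x) : ∃ b ∈ rG C x, b * C.el x a d * b⁻¹ = C.el x a d * z := by
  obtain ⟨c, hc, rfl⟩ := mem_zG.1 hz
  obtain ⟨t, rfl⟩ := hΛ c hc
  obtain ⟨u, h1, h2⟩ := P.exists_dual_vec C.nondeg _ ha
  have hu : C.Val x (σ t • u) _ := val_self (by rw [hR, P.perp_bot]; trivial) (by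
    rw [P.B_smul_right, P.B_eq_zero_comm.1 (h2 x (mem_span_singleton_self x)), mul_zero])
  refine ⟨_, el_mem_rG hu, ?_⟩
  rw [el_comm h hu, mul_inv_cancel_right, P.B_smul_left, P.σσ, h1, mul_one]

theorem zG_le_comm (hR : C.R = ⊥) (hΛ : ∀ c ∈ P.Λ, ∃ t, c = P.ε * t - σ t) (hx0 : x ≠ 0) (h3 : 3 ≤ finrank F V) :
    zG C x ≤ ⁅rG C x, rG C x⁆ := fun z hz => by
  obtain ⟨a, h1, h2⟩ := exists_mem_notMem (W := P.perp (span F {x})) (W' := span F {x}) (by
    have := P.finrank_perp C.nondeg (span F {x})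
    rw [finrank_span_singleton hx0] at this ⊢
    omega)
  have h := val_self (C := C) (x := x) (a := a) (by rw [hR, P.perp_bot]; trivial) (P.mem_perp_span_singleton.1 h1)
  obtain ⟨b, hb, e⟩ := exists_conj_z hR hΛ h h2 hz
  have := Subgroup.commutator_mem_commutator (inv_mem (el_mem_rG h)) hb
  rwa [commutatorElement_def, inv_inv, mul_assoc, mul_assoc, ← mul_assoc b, e, inv_mul_cancel_left] at this

theorem exists_aG (hx : C.Pt x) (hx0 : x ≠ 0) {y : V} (hy : C.Pt y) (xy : P.B x y = 0) (ny : y ∉ span F {x}) :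
    ∃ A : Subgroup C.K, A ≤ rG C x ∧ Nat.card A = Nat.card F ∧ ∀ a ∈ A, a ≠ 1 → ∃ u, C.Val x u 0 ∧ u ∉ span F {x} ∧
      a = C.el x u 0 := by
  have hv : ∀ s : F, C.Val x (s • y) 0 := fun s =>
    val_of_sing (hy.smul s) (by rw [P.B_smul_right, xy, mul_zero]) P.Λ.zero_mem
  have hn : ∀ s : F, s ≠ 0 → s • y ∉ span F {x} := fun s h0 h => ny ((smul_mem_iff _ h0).1 h)
  let f : Multiplicative F →* C.K := MonoidHom.mk' (fun s => C.el x (Multiplicative.toAdd s • y) 0) fun s t => by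
    rw [el_mul (hv _) (hv _), toAdd_mul, add_smul, P.B_smul_left, P.B_smul_right, hy.self_eq]
    simp
  refine ⟨f.range, by rintro _ ⟨s, rfl⟩; exact el_mem_rG (hv _), (Nat.card_congr (MonoidHom.ofInjective
    ((injective_iff_map_eq_one f).2 fun s hs => by_contra fun h0 =>
      hn _ h0 (mem_span_of_el_eq_one hx hx0 (hv _) hs))).toEquiv).symm, ?_⟩
  rintro _ ⟨s, rfl⟩ h1
  exact ⟨_, hv _, hn _ fun e => h1 (by rw [show s = 1 from e, map_one]), rfl⟩

variable [Finite F] {p : ℕ} [Fact p.Prime] [CharP F p]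

theorem pgroup_rG : IsPGroup p (rG C x) := by
  have := Fintype.ofFinite F
  obtain ⟨n, hp, hn⟩ := FiniteField.card F p
  obtain ⟨k, -, hk⟩ := (Nat.dvd_prime_pow hp).1 (show Nat.card (C.Heis x) ∣ p ^ (n * (finrank F (P.perp
    (C.R ⊔ span F {x})) + 1)) by
      rw [card_heis, Module.natCard_eq_pow_finrank (K := F), pow_mul, ← hn, ← Nat.card_eq_fintype_card, pow_succ]
      exact Nat.mul_dvd_mul_left _ (AddSubgroup.card_addSubgroup_dvd_card _))
  exact (IsPGroup.of_card hk).of_surjective _ (C.heisHom x).rangeRestrict_surjective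

theorem pgroup_zG : IsPGroup p (zG C x) := pgroup_rG.to_le zG_le_rG

variable {Ω : Type*} [MulAction C.K Ω]

theorem BTr.trOn_line (hB : BTr p C.K Ω) (hR : C.R = ⊥) (hΛ : P.Λ ≠ ⊥) (hx : C.Pt x) (hx0 : x ≠ 0) :
    TrOn (lineStab C.K.subtype x) Ω := by
  have := C.finite_V
  obtain ⟨U, hU⟩ := (pgroup_rG (C := C) (x := x) (p := p)).exists_le_sylow
  refine (hB U).mono fun g hg => ?_
  have h1 := flag_inv C.K.subtype hU U.isPGroup' (k := 1) (finrank_pos_iff_exists_ne_zero.2 ⟨x, hx0⟩)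
    (fun i => if i = 0 then ⊥ else span F {x}) (fun i hi => by
      by_cases h : i = 0
      · rw [if_pos h, h, finrank_bot]
      · rw [if_neg h, finrank_span_singleton hx0]; omega) (fun i hi v hv => by
      obtain rfl : i = 0 := by omega
      simp only [if_true, mem_bot, sub_eq_zero, Subgroup.coe_subtype, zero_add, one_ne_zero, if_false] at hv ⊢
      obtain ⟨c, hc, h0⟩ := (AddSubgroup.bot_or_exists_ne_zero P.Λ).resolve_left hΛ
      have e1 := hv _ (el_mem_rG (val_zero_iff.2 hc))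
      rw [el_apply hx (val_zero_iff.2 hc), rt_def] at e1
      have e2 : P.B x v = 0 := by simpa [h0, hx0] using e1
      rw [← P.perp_perp C.nondeg (span F {x})]
      intro a ha
      have h := val_self (C := C) (x := x) (a := a) (by rw [hR, P.perp_bot]; trivial) (P.mem_perp_span_singleton.1 ha)
      have e3 := hv _ (el_mem_rG h)
      rw [el_apply hx h, rt_of_orth_left P _ _ e2] at e3
      simpa [hx0] using e3) g hg 1 le_rfl x (by simp)
  simp only [one_ne_zero, if_false] at h1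
  obtain ⟨t, ht⟩ := mem_span_singleton.1 h1
  exact ⟨t, by rintro rfl; exact hx0 ((C.K.subtype g).map_eq_zero_iff.1 (by rw [← ht, zero_smul])), ht.symm⟩

theorem root_num (H : TwoTr C.K Ω) (hB : BTr p C.K Ω) (hR : C.R = ⊥) (hΛ : P.Λ ≠ ⊥) (hx : C.Pt x) (hx0 : x ≠ 0) :
    ∃ r s, 1 < r ∧ Orb (zG C x) Ω r ∧ r ∣ Nat.card P.Λ ∧
      (Nat.card Ω - 1) * s = (lineStab C.K.subtype x).index * (r - 1) := by
  have := finite_K (C := C)
  have := H.finite
  have : Nonempty Ω := (Nat.card_pos_iff.1 (by have := H.big; omega)).1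
  obtain ⟨r, hr⟩ := (hB.trOn_line hR hΛ hx hx0).exists_orb (zG_norm hx)
  obtain ⟨s, hs⟩ := H.numZ (zG_norm hx) hr
  obtain ⟨c, hc, h0⟩ := (AddSubgroup.bot_or_exists_ne_zero P.Λ).resolve_left hΛ
  exact ⟨r, s, hr.one_lt H fun e => el_not_center hR hx hx0 hc h0 (e (el_mem_zG hc)), hr,
    card_zG hx hx0 ▸ hr.dvd_card, hs⟩

end CfsgLib.CKS
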