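import Mathlib
import Cfsg.Agent.Lib.CKS.RootC
import Cfsg.Agent.S2141
import Cfsg.Agent.S0270

/-! CKS, package SP. -/

namespace CfsgLib.CKS
open Cfsg MulAction
open CfsgLib.MinIdx CfsgLib.MinIdx.Ctx CfsgLib.Forms CfsgLib.RootMax Module Submodule
open scoped commutatorElement

theorem four_dvd {G Ω : Type*} [Group G] [MulAction G Ω] [Finite Ω] {u : G} (hu : u ^ 4 = 1) :
    (Nat.card Ω - fx Ω (u ^ 2)) / 2 % 2 = 0 := by
  classical
  have := Fintype.ofFinite Ω
  have h := Equiv.Perm.sign_of_pow_two_eq_one (σ := toPerm (β := Ω) (u ^ 2)) (by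
    rw [← toPermHom_apply, ← map_pow, ← pow_mul, hu, map_one])
  rw [← toPermHom_apply, map_pow, map_pow, Int.units_sq, ← Nat.card_eq_fintype_card, ← Nat.card_eq_fintype_card,
    ← map_pow, eq_comm, neg_one_pow_eq_one_iff_even (by decide)] at h
  exact Nat.even_iff.1 h

section abstract

variable {F : Type*} [Field F] {V : Type*} [AddCommGroup V] [Module F V] [FiniteDimensional F V] [Finite F]
  {P : PQ (RingHom.id F) V} {C : Ctx P} {Ω : Type*} [MulAction C.K Ω] {r c : ℕ}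

theorem sp_Λ (h : C.SH Ω r c) : P.Λ ≠ ⊥ := fun e => one_ne_zero (α := F) (AddSubgroup.mem_bot.1 (e ▸ h.hΛ 1))

theorem sp_partner (h : C.SH Ω r c) {x : V} (hx : x ≠ 0) : ∃ y, P.B x y = 1 ∧ P.B y x = -1 := by
  obtain ⟨y, -, e, -⟩ := P.exists_partner C.nondeg ⊥ (h.pt x).1 hx (by simp)
  exact ⟨-y, by rw [map_neg, h.bs, e, neg_neg], by simp [e]⟩

theorem sp_cube (h : C.SH Ω r c) {x y : V} (h1 : P.B x y = 1) (h2 : P.B y x = -1) :
    (C.el x 0 3 * C.el y 0 1) ^ 3 = 1 := ext' fun v => by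
  simp only [pow_succ, pow_zero, one_mul, mul_apply', h.z_apply, map_sub, map_smul, smul_eq_mul, h.bb, h1, h2]
  change _ = v
  module

theorem sp_sq (h : C.SH Ω r c) {x y : V} (h1 : P.B x y = 1) (h2 : P.B y x = -1) (v : V) :
    ((C.el x 0 2 * C.el y 0 1) ^ 2).1 v = v + (2 * P.B y v) • x - (2 * P.B x v) • y := by
  simp only [pow_succ, pow_zero, one_mul, mul_apply', h.z_apply, map_sub, map_smul, smul_eq_mul, h.bb, h1, h2]
  module

theorem sp_four (h : C.SH Ω r c) {x y : V} (h1 : P.B x y = 1) (h2 : P.B y x = -1) :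
    (C.el x 0 2 * C.el y 0 1) ^ 4 = 1 := ext' fun v => by
  rw [show 4 = 2 + 2 from rfl, pow_add, mul_apply', sp_sq h h1 h2, sp_sq h h1 h2]
  simp only [map_sub, map_add, map_smul, smul_eq_mul, h.bb, h1, h2]
  change _ = v
  module

theorem sp_cls (h : C.SH Ω r c) {x y : V} (hx : x ≠ 0) (hy : y ≠ 0) {d : F} (hd : d ≠ 0) :
    C.el y 0 d ∈ Cls (zG C x) := by
  obtain ⟨g, rfl⟩ := h.tr0 hx hy
  exact ⟨_, el_mem_zG (h.hΛ d), fun e => hd (eq_zero_of_el_eq_one (h.pt x) hx (h.hΛ d) e), g, (h.z_conj g x d).symm⟩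

theorem sp_ne (h : C.SH Ω r c) {x y : V} (h2 : P.B y x = -1) (d : F) : C.el y 0 1 ≠ C.el x 0 d := fun e => by
  have := congrArg (fun g : C.K => g.1 x) e
  simp only [h.z_apply, h.bb, h2] at this
  have e : y = 0 := by simpa using this
  simp [e] at h2

/-- two non-commuting transvections with a product of order prime to `p` -/
theorem sp_pair (h : C.SH Ω r c) [Finite Ω] {x : V} (hx : x ≠ 0) {j : ℕ} (hn : Nat.card Ω = Nat.card F ^ j) :
    ∃ y d, y ≠ 0 ∧ d ≠ 0 ∧ C.el y 0 1 ≠ C.el x 0 d ∧ 0 < fx Ω ((C.el x 0 d)⁻¹ * C.el y 0 1) := by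
  obtain ⟨y, h1, h2⟩ := sp_partner h hx
  have := Fintype.ofFinite F
  obtain ⟨p, _, n, hp, hq⟩ := FiniteField.card' F
  have key : ∀ l : ℕ, l.Prime → (l : F) ≠ 0 → ¬ l ∣ Nat.card Ω := fun l hl h0 e => h0 (by
    rw [hn, Nat.card_eq_fintype_card, hq, ← pow_mul] at e
    rw [(Nat.prime_dvd_prime_iff_eq hl hp).1 (hl.dvd_of_dvd_pow e), CharP.cast_eq_zero])
  have inv : ∀ d : F, (C.el x 0 (-d))⁻¹ = C.el x 0 d := fun d => by
    rw [el_inv (val_zero_iff.2 (h.hΛ _))]
    simp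
  have y0 : y ≠ 0 := by rintro rfl; simp at h1
  by_cases h3 : ((3 : ℕ) : F) = 0
  · have h4 : ((2 : ℕ) : F) ≠ 0 := fun e => one_ne_zero (α := F) (by push_cast at h3 e; linear_combination h3 - e)
    refine ⟨y, -2, y0, neg_ne_zero.2 (by exact_mod_cast h4), sp_ne h h2 _,
      fx_pos (j := 2) Nat.prime_two (key 2 Nat.prime_two h4) fun a => ?_⟩
    rw [inv, show 2 ^ 2 = 4 from rfl, sp_four h h1 h2, one_smul]
  · refine ⟨y, -3, y0, neg_ne_zero.2 (by exact_mod_cast h3), sp_ne h h2 _,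
      fx_pos (j := 1) Nat.prime_three (key 3 Nat.prime_three h3) fun a => ?_⟩
    rw [inv, pow_one, sp_cube h h1 h2, one_smul]

theorem sp_heis {p : ℕ} [Fact p.Prime] [CharP F p] (h : C.SH Ω r c) [Finite Ω] (hr : 2 ≤ r) {x : V} (hx : x ≠ 0) {k : ℕ} (hk : Orb (zG C x) Ω k)
    (h1 : 1 < k) : p * k ∣ Nat.card Ω := by
  have := finite_K (C := C)
  obtain ⟨y, k1, k2⟩ := exists_mem_notMem (W := P.perp (span F {x})) (W' := span F {x}) (by
    have := P.finrank_perp C.nondeg (span F {x})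
    have := h.h4
    rw [finrank_span_singleton hx] at *
    omega)
  have xy := P.mem_perp_span_singleton.1 k1
  have fix : ∀ g ∈ zG C y, g.1 x = x := fun g hg => by
    obtain ⟨d, -, rfl⟩ := mem_zG.1 hg
    exact h.z_fix d xy
  obtain ⟨a, ay, ax⟩ := P.exists_dual_vec C.nondeg _ k2
  have xa : P.B x a = 0 := P.B_eq_zero_comm.1 (ax x (mem_span_singleton_self x))
  have ya : P.B y a = -1 := by rw [h.bs, ay]
  obtain ⟨l, l0, l1⟩ : ∃ l : F, l ≠ 0 ∧ l ≠ 1 := by
    by_contra k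
    push Not at k
    have := (Set.ncard_le_ncard (show (Set.univ : Set F) ⊆ {0, 1} from fun t _ => or_iff_not_imp_left.2 (k t))).trans
      (Set.ncard_insert_le _ _)
    rw [Set.ncard_univ, h.hq, Set.ncard_singleton] at this
    omega
  refine heis0 (D := rG C x ⊔ zG C y) (pgroup_rG.to_sup_of_normal_left' pgroup_zG fun g hg =>
    Subgroup.mem_normalizer_fintype fun z hz => rG_norm (h.pt x) (fix g hg) z hz) (fun g hg => comm_zG (h.pt x) ?_)
    (fun z hz => ?_) hk h1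
  · letI := MulAction.compHom V C.K.subtype
    exact (sup_le (fun g hg => rG_fix (h.pt x) hg) fix : rG C x ⊔ zG C y ≤ stabilizer C.K x) hg
  obtain ⟨d, -, rfl⟩ := mem_zG.1 hz
  have key : ∀ w β : F, β ≠ 0 → C.el x (w • y) (-(w * β)) ∈ ⁅rG C x ⊔ zG C y, rG C x ⊔ zG C y⁆ := fun w β h0 => by
    have hv := h.val (x := x) (a := β • a) (by rw [P.B_smul_right, xa, mul_zero]) 0
    have := Subgroup.commutator_mem_commutator
      (Subgroup.mem_sup_right (S := rG C x) (el_mem_zG (x := y) (h.hΛ (w / β))))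
      (Subgroup.mem_sup_left (T := zG C y) (el_mem_rG hv))
    have e := hv.map (C.el y 0 (w / β))
    rw [commutatorElement_def, el_conj _ (h.pt x) hv, el_inv hv] at this
    rw [h.z_fix _ xy] at this e
    rw [el_mul e hv.neg, h.z_apply] at this
    convert this using 2
    · rw [P.B_smul_right, ya, mul_neg_one, mul_neg, div_mul_cancel₀ _ h0]
      module
    · simp only [h.bb, h.hε, map_neg, map_sub, map_smul, bl, ya, smul_eq_mul, LinearMap.sub_apply,
        LinearMap.smul_apply, LinearMap.neg_apply, map_smulₛₗ, RingHom.id_apply]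
      field_simp
      ring
  have l2 : l - 1 ≠ 0 := sub_ne_zero.2 l1
  have hv : ∀ w t : F, C.Val x (w • y) t := fun w t => h.val (by rw [P.B_smul_right, xy, mul_zero]) t
  have := mul_mem (key (d / (l - 1)) 1 one_ne_zero) (inv_mem (key (d / (l - 1)) l l0))
  rw [el_inv (hv _ _), el_mul (hv _ _) (hv _ _).neg] at this
  convert this using 2
  · simp
  · simp only [h.bb, map_neg, neg_zero, mul_zero, add_zero]
    field_simp
    ring

end abstract

variable {p : ℕ} [Fact p.Prime] {F : Type} [Field F] [Fintype F] [CharP F p] {Ω : Type*}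

omit [Fact p.Prime] [CharP F p] in
theorem sp_SH' {m r : ℕ} (hm : 2 ≤ m) (hr : Nat.card F = r + 1)
    [MulAction (ctxOf (spPQ_nondeg (Fin m) F) (rootGroup_sp m)).K Ω]
    (H : TwoTr (ctxOf (spPQ_nondeg (Fin m) F) (rootGroup_sp m)).K Ω) :
    (ctxOf (spPQ_nondeg (Fin m) F) (rootGroup_sp m)).SH Ω r ((r + 1) ^ (2 * m - 2)) where
  hΛ _ := trivial
  hε := rfl
  hR := rfl
  hK := rfl
  gen T h1 h2 g hg := alt_mem_of_transvections _ _ (spB_nondegenerate _ _) T h1 h2 g hg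
  h4 := by simp; omega
  hq := hr
  hc := by
    rw [hr, ← pow_succ']
    congr 1
    simp; omega
  nt := by
    have := H.finite
    have : Nontrivial Ω := Finite.one_lt_card_iff_nontrivial.1 (by have := H.big; omega)
    obtain ⟨a, b, h⟩ := exists_pair_ne Ω
    obtain ⟨g, rfl⟩ := H.trans a b
    exact ⟨g, a, h.symm⟩

theorem sp {m : ℕ} (hm : 2 ≤ m) (hq : 3 ≤ Fintype.card F) [MulAction (PSp m F) Ω] (H : TwoTr (PSp m F) Ω)
    (hB : BTr p (PSp m F) Ω) : False := by
  have := Agent.S0270.result (F := F) m hm fun _ => hq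
  obtain ⟨_, H', hB'⟩ := H.exists_lift (K := (ctxOf (spPQ_nondeg (Fin m) F) (rootGroup_sp m)).K) (spEquiv (Fin m) F)
  obtain ⟨q, hq'⟩ : ∃ q, Fintype.card F = q + 1 := ⟨Fintype.card F - 1, by omega⟩
  have hF : Nat.card F = q + 1 := by rw [Nat.card_eq_fintype_card, hq']
  have h := sp_SH' hm hF H'
  have low : ¬ (m = 2 ∧ q + 1 = 3) → ((q + 1) ^ (2 * m) - 1) / (q + 1 - 1) ≤ Nat.card Ω := fun e =>
    H.le_card (Agent.S2141.result hq' m hm (by omega) e).1
  have hΛ : Nat.card (spPQ (Fin m) F).Λ = q + 1 :=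
    (Nat.card_congr (Equiv.subtypeUnivEquiv fun _ => trivial)).trans hF
  have hd : finrank F (Fin m ⊕ Fin m → F) = 2 * m := by simp; omega
  generalize ctxOf (spPQ_nondeg (Fin m) F) (rootGroup_sp m) = C at *
  have := finite_K (C := C)
  replace hB' := hB' p hB
  have := H.finite
  have n3 := H.big
  obtain ⟨x, hx⟩ : ∃ v : Fin m ⊕ Fin m → F, v ≠ 0 := (finrank_pos_iff_exists_ne_zero (R := F)).1 (by omega)
  obtain ⟨r, s, r1, hr, rq, hs⟩ := root_num H' hB' h.hR (sp_Λ h) (h.pt x) hx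
  rw [hΛ] at rq
  have hv : (lineStab C.K.subtype x).index * q + 1 = (q + 1) ^ (2 * m) := by
    have h1 := index_lineStab_mul C.K.subtype hx
    have h3 := Set.ncard_add_ncard_compl ({0} : Set F)
    rw [show {c : F | ∃ g, C.K.subtype g x = c • x} = {0}ᶜ from Set.ext fun c =>
        ⟨by rintro ⟨g, k⟩ rfl; exact g.1.map_ne_zero_iff.2 hx (by simpa using k),
          fun k => h.tr0 hx (smul_ne_zero k hx)⟩,
      show {u | ∃ g, C.K.subtype g x = u} = {u | u ≠ 0} from Set.ext fun u =>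
        ⟨by rintro ⟨g, rfl⟩; exact g.1.map_ne_zero_iff.2 hx, h.tr0 hx⟩,
      show ({0}ᶜ : Set F).ncard = q by rw [Set.ncard_singleton, hF] at h3; omega] at h1
    rw [h1, h.card_ne, ← pow_add]
    congr 1
    omega
  have hv1 := modEq_one_of (Q := q + 1) (by omega) hv (dvd_pow_self _ (by omega))
  have h1 := sp_heis (p := p) h (by omega) hx hr r1
  have pp : p.Prime := Fact.out
  obtain ⟨k, -, hk⟩ := FiniteField.card F p
  have fin : s = 1 → False := by
    rintro rfl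
    obtain ⟨i, i1, rfl⟩ := (Nat.dvd_prime_pow pp).1 (hk ▸ hq' ▸ rq : r ∣ p ^ (k : ℕ))
    rcases i1.eq_or_lt with rfl | i2
    swap
    · have := le_of_num r1 (by omega) h1 (hv1.of_dvd (by rw [← hq', hk, ← pow_succ']; exact pow_dvd_pow _ i2)) hs
      have := Nat.mul_le_mul_right (p ^ i) pp.two_le
      omega
    rw [← hk, hq'] at hr hs
    rw [← hΛ, ← card_zG (h.pt x) hx] at hr
    obtain ⟨s, k1, k2⟩ := H'.numZ_pairY (zG_norm (h.pt x)) hr.semi
    rw [card_zG (h.pt x) hx, hΛ, ← hs, mul_one] at k1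
    obtain rfl : s = 1 := Nat.eq_of_mul_eq_mul_left (by omega) (k1.trans (mul_one _).symm)
    obtain ⟨y, d, y0, d0, ne, pos⟩ := sp_pair h hx (j := 2 * m) (by
      rw [hF, ← hv, ← Nat.add_sub_cancel (n := q) (m := 1), ← hs]
      omega)
    have := k2 _ (sp_cls h hx hx d0) _ (sp_cls h hx y0 one_ne_zero) ne ⊥
      (fun y hy => by rw [Subgroup.mem_bot.1 hy]; exact Commute.one_left _) fun y hy _ => Subgroup.mem_bot.1 hy
    rw [Subgroup.card_bot] at this
    omega
  generalize (lineStab C.K.subtype x).index = v at *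
  by_cases e : m = 2 ∧ q + 1 = 3
  swap
  · have k1 := low e
    rw [← hv, Nat.add_sub_cancel, Nat.add_sub_cancel, Nat.mul_div_cancel _ (by omega)] at k1
    have k2 : q + 1 ≤ v := by
      have := Nat.pow_le_pow_right (n := q + 1) (by omega) (show 2 ≤ 2 * m by omega)
      nlinarith
    have k3 := Nat.le_of_dvd (by omega) rq
    refine fin (arith_one r1 hr.dvd (hv1.of_dvd rq) hs ?_)
    obtain ⟨r, rfl⟩ : ∃ k, r = k + 1 := ⟨r - 1, by omega⟩
    obtain ⟨v, rfl⟩ : ∃ k, v = k + 1 := ⟨v - 1, by omega⟩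
    have := Nat.mul_le_mul_right (r + 1 + 1) (show v ≤ Nat.card Ω - 1 by omega)
    rw [Nat.add_sub_cancel]
    nlinarith
  obtain ⟨rfl, e⟩ := e
  obtain rfl : q = 2 := by omega
  obtain rfl : v = 40 := by omega
  obtain rfl : r = 3 := ((Nat.dvd_prime Nat.prime_three).1 rq).resolve_left (by omega)
  obtain rfl : p = 3 := (Nat.prime_dvd_prime_iff_eq pp Nat.prime_three).1 (by
    rw [show 3 = p ^ (k : ℕ) from hq'.symm.trans hk]
    exact dvd_pow_self _ k.ne_zero)
  have n9 : Nat.card Ω = 9 := by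
    by_contra n9
    obtain ⟨j, hj⟩ := h1
    have k1 : Nat.card Ω - 1 ≤ 80 := Nat.le_of_dvd (by omega) ⟨s, hs.symm⟩
    rw [hj] at hs n9 k1 n3
    have k2 : j ≤ 9 := by omega
    refine fin ?_
    interval_cases j <;> omega
  obtain ⟨y, k1, k2⟩ := sp_partner h hx
  obtain ⟨w, k3, k4⟩ := exists_mem_notMem (W := (spPQ (Fin 2) F).perp (span F {x, y})) (W' := ⊥) (by
    have := (spPQ (Fin 2) F).finrank_perp C.nondeg (span F {x, y})
    have := finrank_two_le (F := F) x y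
    rw [finrank_bot]
    omega)
  have xw := k3 x (subset_span (by simp))
  have yw := k3 y (subset_span (by simp))
  rw [← e, ← hΛ, ← card_zG (h.pt x) hx] at hr
  have k5 : Semi (zG C w) Ω := hr.semi.of_cls fun t ht t1 => by
    obtain ⟨d, -, rfl⟩ := mem_zG.1 ht
    exact sp_cls h hx k4 (by rintro rfl; exact t1 (el_zero w))
  have k6 := k5.card_dvd_fx (u := (C.el x 0 2 * C.el y 0 1) ^ 2) fun z hz =>
    (comm_zG (h.pt w) (by rw [sp_sq h k1 k2, xw, yw]; simp) z hz).symm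
  rw [card_zG (h.pt w) k4, hΛ] at k6
  have k7 := fx_modEq (Ω := Ω) (j := 1) Nat.prime_two (u := (C.el x 0 2 * C.el y 0 1) ^ 2) fun a => by
    rw [pow_one, ← pow_mul, sp_four h k1 k2, one_smul]
  have k8 := four_dvd (Ω := Ω) (sp_four h k1 k2)
  have k9 : fx Ω ((C.el x 0 2 * C.el y 0 1) ^ 2) ≤ Nat.card Ω :=
    Nat.card_le_card_of_injective _ Subtype.val_injective
  have k10 : fx Ω ((C.el x 0 2 * C.el y 0 1) ^ 2) = Nat.card Ω := by
    rw [n9] at k7 k8 k9 ⊢
    unfold Nat.ModEq at k7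
    omega
  have k11 := Subgroup.mem_center_iff.1 (H'.ker _ fun a => (Set.eq_univ_iff_forall.1
    ((Set.eq_univ_iff_ncard _).2 k10) a)) (C.el (x + w) 0 1)
  have k12 := congrArg (fun g : C.K => g.1 y) k11
  have wx : (spPQ (Fin 2) F).B w x = 0 := by rw [h.bs, xw, neg_zero]
  have wy : (spPQ (Fin 2) F).B w y = 0 := by rw [h.bs, yw, neg_zero]
  simp only [mul_apply', sp_sq h k1 k2, h.z_apply, map_sub, map_add, map_smul, smul_eq_mul, LinearMap.add_apply,
    h.bb, k1, k2, xw, yw, wx, wy] at k12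
  have k13 : (2 : F) • w = 0 := by linear_combination (norm := module) k12
  have k14 : ((3 : ℕ) : F) = 0 := CharP.cast_eq_zero F 3
  refine k4 ((smul_eq_zero.1 k13).resolve_left fun e => one_ne_zero (α := F) ?_)
  push_cast at k14
  linear_combination k14 - e

end CfsgLib.CKS
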