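import Mathlib
import Cfsg.Agent.Lib.CKS.Sp
import Cfsg.Agent.S2142

/-! CKS, package SP2. -/

namespace CfsgLib.CKS
open Cfsg MulAction
open CfsgLib.MinIdx CfsgLib.MinIdx.Ctx CfsgLib.Forms CfsgLib.RootMax Module Submodule

/-- the algebra of the incidence matrix -/
theorem sp2_alg {Ω X : Type*} [Fintype Ω] [DecidableEq Ω] [DecidableEq X] (s : Finset X) (i : Ω → X → ℤ)
    (b : X → X → ℤ) {c μ f δ α β γ Q : ℤ} (hL : ∀ ω ω', ∑ x ∈ s, i ω x * i ω' x = (if ω = ω' then c else 0) + μ)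
    (col : ∀ x ∈ s, ∑ ω, i ω x = f) (row : ∀ ω, ∑ x ∈ s, i ω x = δ) (sq : ∀ ω x, i ω x * i ω x = i ω x)
    (hM : ∀ x ∈ s, ∀ y ∈ s, ∑ ω, i ω x * i ω y = (if x = y then α else 0) + β * b x y + γ)
    (symm : ∀ x y, b x y = b y x) (hB : ∀ x ∈ s, ∑ z ∈ s, b x z = 2 * Q ^ 2)
    (hBB : ∀ x ∈ s, ∀ y ∈ s, ∑ z ∈ s, b x z * b y z = (if x = y then Q ^ 2 else 0) + Q ^ 2)
    (hN : (s.card : ℤ) + 1 = 4 * Q ^ 2) {x y z : X} (hx : x ∈ s) (hy : y ∈ s) (hz : z ∈ s) (xy : x ≠ y) (xz : x ≠ z)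
    (bxx : ∀ x, b x x = 0) (bxy : b x y = 0) (bxz : b x z = 1) (c0 : c ≠ 0) (n1 : (Fintype.card Ω : ℤ) ≠ 1) (ω : Ω) :
    (Fintype.card Ω : ℤ) = s.card ∨ (Fintype.card Ω : ℤ) = Q * (2 * Q + 1) ∨ (Fintype.card Ω : ℤ) = Q * (2 * Q - 1) := by
  have E : ∀ y ∈ s, (if x = y then α * α + β * β * Q ^ 2 else 0) + 2 * α * (β * b x y + γ) + β * β * Q ^ 2 +
      4 * β * γ * Q ^ 2 + γ * γ * s.card = c * ((if x = y then α else 0) + β * b x y + γ) + μ * (f * f) := by
    intro y hy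
    have e1 : ∑ z ∈ s, (∑ ω, i ω x * i ω z) * (∑ ω, i ω y * i ω z) =
        ∑ ω, ∑ ω', i ω x * i ω' y * ∑ z ∈ s, i ω z * i ω' z := by
      simp_rw [Finset.sum_mul_sum]
      simp_rw [Finset.mul_sum]
      rw [Finset.sum_comm]
      refine Finset.sum_congr rfl fun ω _ => Finset.sum_comm.trans (Finset.sum_congr rfl fun ω' _ =>
        Finset.sum_congr rfl fun z _ => by ring)
    have e2 : ∑ ω, ∑ ω', i ω x * i ω' y * ((if ω = ω' then c else 0) + μ) =
        (∑ ω, i ω x * i ω y) * c + (∑ ω, i ω x) * (∑ ω, i ω y) * μ := by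
      rw [Finset.sum_mul_sum]
      simp only [mul_add, Finset.sum_add_distrib, mul_ite, mul_zero, Finset.sum_ite_eq, Finset.mem_univ, if_true,
        Finset.sum_mul]
    simp only [hL] at e1
    rw [e2, hM x hx y hy, col x hx, col y hy, Finset.sum_congr rfl fun z hz => by rw [hM x hx z hz, hM y hy z hz]] at e1
    have e3 : ∀ z, ((if x = z then α else 0) + β * b x z + γ) * ((if y = z then α else 0) + β * b y z + γ) =
        (if x = z then α * ((if y = z then α else 0) + β * b y z + γ) else 0) +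
        (if y = z then α * (β * b x z + γ) else 0) + β * β * (b x z * b y z) + β * γ * b x z + β * γ * b y z + γ * γ :=
      fun z => by split_ifs <;> ring
    simp only [e3, Finset.sum_add_distrib, Finset.sum_ite_eq, hx, hy, if_true, ← Finset.mul_sum, hB x hx, hB y hy,
      hBB x hx y hy, Finset.sum_const, nsmul_eq_mul, symm y x, eq_comm (a := y) (b := x)] at e1
    split_ifs at e1 ⊢ <;> linear_combination e1
  have e1 := E x hx
  have e2 := E y hy
  have e3 := E z hz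
  rw [if_pos rfl, if_pos rfl, bxx] at e1
  rw [if_neg xy, if_neg xy, bxy] at e2
  rw [if_neg xz, if_neg xz, bxz] at e3
  have e4 : f = α + γ := by simpa [sq, col x hx, bxx] using hM x hx x hx
  have e5 : δ = c + μ := by simpa [sq, row] using hL ω ω
  have e6 : s.card * f = Fintype.card Ω * δ := by
    have := Finset.sum_comm (s := s) (t := Finset.univ) (f := fun x ω => i ω x)
    simpa [row, Finset.sum_congr rfl col] using this
  have e7 : f * δ = α + β * (2 * Q ^ 2) + s.card * γ := by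
    have := Finset.sum_congr rfl (hM x hx)
    rw [Finset.sum_comm] at this
    simpa [← Finset.mul_sum, row, ← Finset.sum_mul, col x hx, Finset.sum_add_distrib, hx, hB x hx] using this
  have e8 : δ * f = c + Fintype.card Ω * μ := by
    have := Finset.sum_congr (s₁ := Finset.univ) rfl fun ω' _ => hL ω ω'
    rw [Finset.sum_comm, Finset.sum_congr rfl fun x hx => by rw [← Finset.mul_sum, col x hx]] at this
    simpa [← Finset.sum_mul, row, Finset.sum_add_distrib] using this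
  have k1 : α * α + β * β * Q ^ 2 = c * α := by linear_combination e1 - e2
  have k2 : (2 * α - c) * β = 0 := by linear_combination e3 - e2
  have k3 : c * (Fintype.card Ω - 1) = α * (s.card - 1) - β * (2 * Q ^ 2) := by
    linear_combination -e6 - Fintype.card Ω * e5 + s.card * e4 - e7 + e8
  rcases mul_eq_zero.1 k2 with k2 | rfl
  · obtain rfl : c = 2 * α := by linear_combination -k2
    have a0 : α ≠ 0 := fun e => c0 (by rw [e, mul_zero])
    have k4 : (α - β * Q) * (α + β * Q) = 0 := by linear_combination -k1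
    refine Or.inr ((mul_eq_zero.1 k4).symm.imp (fun e => mul_left_cancel₀ c0 ?_) fun e => mul_left_cancel₀ c0 ?_)
    · linear_combination k3 + α * hN - 2 * Q * e
    · linear_combination k3 + α * hN + 2 * Q * e
  · have a0 : α ≠ 0 := fun e => mul_ne_zero c0 (sub_ne_zero.2 n1) (by rw [k3, e]; ring)
    obtain rfl : α = c := mul_right_cancel₀ a0 (by linear_combination k1)
    exact Or.inl (mul_left_cancel₀ c0 (by linear_combination k3))

section abstract

variable {F : Type*} [Field F] {V : Type*} [AddCommGroup V] [Module F V] [FiniteDimensional F V] [Finite F]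
  {P : PQ (RingHom.id F) V} {C : Ctx P} {Ω : Type*} [MulAction C.K Ω] {c : ℕ}

open _root_.Classical in
/-- the indicator of non-orthogonality -/
noncomputable def sp2b (P : PQ (RingHom.id F) V) (x y : V) : ℤ := if P.B x y = 0 then 0 else 1

theorem sp2b_add (hF : Nat.card F = 2) (x y z : V) :
    1 - 2 * sp2b P (x + y) z = (1 - 2 * sp2b P x z) * (1 - 2 * sp2b P y z) := by
  have h2 : (1 : F) + 1 = 0 := by rw [one_add_one_eq_two, two_eq_zero_of_card hF]
  unfold sp2b
  rw [P.B_add_left]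
  rcases eq_zero_or_one_of_card hF (P.B x z) with e | e <;> rcases eq_zero_or_one_of_card hF (P.B y z) with e' | e' <;>
    simp [e, e', h2]

theorem sp2b_symm (x y : V) : sp2b P x y = sp2b P y x := by
  classical
  unfold sp2b
  congr 1
  exact propext P.B_eq_zero_comm

theorem sp2b_sum [Fintype V] (h : C.SH Ω 1 c) {x : V} (hx : x ≠ 0) : 2 * ∑ z, sp2b P x z = Fintype.card V := by
  obtain ⟨y, h1, -⟩ := sp_partner h hx
  have e1 := Equiv.sum_comp (Equiv.addRight y) fun z => 1 - 2 * sp2b P z x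
  have e2 : sp2b P y x = 1 := by rw [sp2b_symm, sp2b, h1, if_neg one_ne_zero]
  simp only [Equiv.coe_addRight, sp2b_add h.hq, e2, ← Finset.sum_mul] at e1
  simp only [Finset.sum_sub_distrib, ← Finset.mul_sum, Finset.sum_const, Finset.card_univ, nsmul_eq_mul,
    sp2b_symm _ x] at e1
  linarith

theorem sp2b_sum2 [Fintype V] (h : C.SH Ω 1 c) {x y : V} (hx : x ≠ 0) (hy : y ≠ 0) (xy : x ≠ y) :
    4 * ∑ z, sp2b P x z * sp2b P y z = Fintype.card V := by
  have e1 := sp2b_sum h (x := x + y) fun e => xy (by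
    rw [← add_zero x, ← zero_smul F y, ← two_eq_zero_of_card h.hq, two_smul, ← add_assoc, e, zero_add])
  have e2 : ∀ z, 4 * (sp2b P x z * sp2b P y z) = 2 * sp2b P x z + 2 * sp2b P y z - 2 * sp2b P (x + y) z := fun z => by
    linear_combination -sp2b_add (P := P) h.hq x y z
  rw [Finset.mul_sum]
  simp only [e2, Finset.sum_sub_distrib, Finset.sum_add_distrib, ← Finset.mul_sum, sp2b_sum h hx, sp2b_sum h hy, e1]
  ring

theorem sp2_witt (h : C.SH Ω 1 c) {x y x' y' : V} (hx : x ≠ 0) (hy : y ≠ 0) (xy : x ≠ y) (hx' : x' ≠ 0) (hy' : y' ≠ 0)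
    (xy' : x' ≠ y') (e : P.B x' y' = P.B x y) : ∃ g : C.K, g.1 x = x' ∧ g.1 y = y' := by
  obtain ⟨g, rfl⟩ := h.tr0 hx hx'
  have key : ∀ u, u ≠ 0 → g.1 x ≠ u → u ∉ span F {g.1 x} := fun u h1 h2 k => by
    obtain ⟨t, rfl⟩ := mem_span_singleton.1 k
    rcases eq_zero_or_one_of_card h.hq t with rfl | rfl
    exacts [h1 (zero_smul _ _), h2 (one_smul _ _).symm]
  obtain ⟨k, k1, k2⟩ := h.witt _ (key _ (g.1.map_ne_zero_iff.2 hy) (g.1.injective.ne xy)) (key _ hy' xy') fun t ht => by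
    obtain ⟨t, rfl⟩ := mem_span_singleton.1 ht
    rw [bl, bl, e, B_map]
  exact ⟨k * g, k1 _ (mem_span_singleton_self _), k2⟩

theorem sp2_main (h : C.SH Ω 1 c) (H : TwoTr C.K Ω) {Q : ℕ} (hV : Nat.card V = 4 * Q ^ 2) (hQ : 4 ≤ Q)
    (hQ3 : ¬ 3 ∣ Q) (low : Q * (2 * Q - 1) ≤ Nat.card Ω) (hp : 2 ∣ Nat.card Ω) :
    Nat.card Ω = Q * (2 * Q + 1) ∨ Nat.card Ω = Q * (2 * Q - 1) := by
  classical
  have := C.finite_V
  have := H.finite
  have := Fintype.ofFinite V
  have := Fintype.ofFinite Ω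
  have n3 := H.big
  have nt : Nontrivial Ω := Finite.one_lt_card_iff_nontrivial.1 (by omega)
  obtain ⟨ω₀, ω₁, hω⟩ := exists_pair_ne Ω
  obtain ⟨x, hx⟩ : ∃ v : V, v ≠ 0 := (finrank_pos_iff_exists_ne_zero (R := F)).1 (by have := h.h4; omega)
  obtain ⟨z, xz, zx⟩ := sp_partner h hx
  have z0 : z ≠ 0 := by rintro rfl; simp at xz
  have hN : Nat.card {v : V // v ≠ 0} + 1 = 4 * Q ^ 2 := by
    rw [← hV, Nat.card_eq_fintype_card, Nat.card_eq_fintype_card, Fintype.card_subtype_compl,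
      Fintype.card_subtype_eq, Nat.sub_add_cancel Fintype.card_pos]
  by_cases hδ : ∀ v, v ≠ 0 → ∀ a : Ω, C.el v 0 1 • a ≠ a
  · obtain ⟨s, h1, h2⟩ := H.num (fun v : {v : V // v ≠ 0} => C.el v.1 0 1) fun g =>
      ⟨g.1.toEquiv.subtypeEquiv fun v => g.1.map_ne_zero_iff.symm, fun v => h.z_conj g v 1⟩
    have h3 := h2 ω₀
    rw [show {i : {v : V // v ≠ 0} | C.el i.1 0 1 • ω₀ = ω₀} = ∅ from Set.eq_empty_of_forall_notMem
      fun i => hδ _ i.2 ω₀, Set.ncard_empty, zero_add] at h3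
    obtain rfl : s = 1 := by
      obtain ⟨Q, rfl⟩ : ∃ k, Q = k + 1 := ⟨Q - 1, by omega⟩
      rw [show 2 * (Q + 1) - 1 = 2 * Q + 1 by omega] at low
      have k1 : s < 3 := by
        by_contra k
        have := Nat.mul_le_mul (show (Q + 1) * (2 * Q + 1) - 1 ≤ Nat.card Ω - 1 by omega) (not_lt.1 k)
        have k2 : 1 ≤ (Q + 1) * (2 * Q + 1) := Nat.mul_pos (by omega) (by omega)
        zify [k2] at this
        rw [← Nat.cast_mul, ← h3] at this
        zify at hN
        nlinarith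
      interval_cases s <;> omega
    have h4 := pair h1 ⟨⟨x, hx⟩, rfl⟩ (hδ x hx) (D₁ := {C.el z 0 1}) (D₂ := ∅)
      (by rintro _ rfl; exact ⟨⟨z, z0⟩, rfl⟩) (Set.empty_subset _) (Set.disjoint_empty _) (sp_ne h zx 1).symm
      (Set.notMem_empty _) (f₁ := 1) (f₂ := 0) (by
        rintro _ rfl
        refine fx_pos (j := 1) Nat.prime_three (fun k => hQ3 (Nat.prime_three.dvd_of_dvd_pow (n := 2)
          (Nat.Coprime.dvd_of_dvd_mul_left (m := 4) (by norm_num) (by rwa [← hN, h3, mul_one,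
            Nat.sub_add_cancel (by omega)])))) fun a => ?_
        rw [el_inv (val_zero_iff.2 (h.hΛ _)), neg_zero, show P.ε * P.B 0 0 - 1 = 3 by
          linear_combination (-2) * two_eq_zero_of_card h.hq + P.ε * h.bb 0, pow_one, sp_cube h xz zx, one_smul])
      fun _ k => k.elim
    simp at h4
  push Not at hδ
  obtain ⟨x₁, hx₁, a₁, ha₁⟩ := hδ
  obtain ⟨y, k1, k2⟩ := exists_mem_notMem (W := P.perp (span F {x})) (W' := span F {x}) (by
    have := P.finrank_perp C.nondeg (span F {x})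
    have := h.h4
    rw [finrank_span_singleton hx] at *
    omega)
  have xy := P.mem_perp_span_singleton.1 k1
  have y0 : y ≠ 0 := by rintro rfl; exact k2 (zero_mem _)
  have xy' : x ≠ y := by rintro rfl; exact k2 (mem_span_singleton_self _)
  have xz' : x ≠ z := by rintro rfl; simp [h.bb] at xz
  let i : Ω → V → ℤ := fun ω v => if C.el v 0 1 • ω = ω then 1 else 0
  let s : Finset V := Finset.univ.erase 0
  have ms : ∀ {v}, v ∈ s ↔ v ≠ 0 := by simp [s]
  have inv : ∀ (g : C.K) ω v, i (g • ω) (g.1 v) = i ω v := fun g ω v => by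
    simp only [i, ← h.z_conj, mul_smul, inv_smul_smul, smul_left_cancel_iff]
  have sq : ∀ ω v, i ω v * i ω v = i ω v := fun ω v => by simp only [i]; split_ifs <;> simp
  have invL : ∀ (g : C.K) ω ω', ∑ v ∈ s, i (g • ω) v * i (g • ω') v = ∑ v ∈ s, i ω v * i ω' v := fun g ω ω' =>
    (Finset.sum_equiv g.1.toEquiv (fun v => by simp [ms]) fun v _ => by
      rw [← inv g ω, ← inv g ω']; rfl).symm
  have invM : ∀ (g : C.K) u v, ∑ ω, i ω (g.1 u) * i ω (g.1 v) = ∑ ω, i ω u * i ω v := fun g u v => by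
    rw [← Equiv.sum_comp (toPerm g)]
    simp only [toPerm_apply, inv]
  have row : ∀ ω, ∑ v ∈ s, i ω v = ∑ v ∈ s, i ω₀ v := fun ω => by
    obtain ⟨g, rfl⟩ := H.trans ω₀ ω
    simpa only [sq] using invL g ω₀ ω₀
  have col : ∀ v ∈ s, ∑ ω, i ω v = ∑ ω, i ω x := fun v hv => by
    obtain ⟨g, rfl⟩ := h.tr0 hx (ms.1 hv)
    simpa only [sq] using invM g x x
  have hL : ∀ ω ω', ω ≠ ω' → ∑ v ∈ s, i ω v * i ω' v = ∑ v ∈ s, i ω₀ v * i ω₁ v := fun ω ω' k => by
    obtain ⟨g, rfl, rfl⟩ := H.tr _ _ _ _ hω k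
    exact invL g _ _
  have b0 : ∀ v, sp2b P v 0 = 0 := fun v => by simp [sp2b]
  have hV' : (Fintype.card V : ℤ) = 4 * Q ^ 2 := by rw [← Nat.card_eq_fintype_card, hV]; norm_cast
  have hB : ∀ v ∈ s, ∑ u ∈ s, sp2b P v u = 2 * Q ^ 2 := fun v hv => by
    have := sp2b_sum h (ms.1 hv)
    rw [Finset.sum_erase _ (b0 v)]
    linarith
  have key := sp2_alg s i (sp2b P) (c := ∑ v ∈ s, i ω₀ v - ∑ v ∈ s, i ω₀ v * i ω₁ v) (μ := ∑ v ∈ s, i ω₀ v * i ω₁ v)
    (α := ∑ ω, i ω x - ∑ ω, i ω x * i ω y) (β := ∑ ω, i ω x * i ω z - ∑ ω, i ω x * i ω y) (γ := ∑ ω, i ω x * i ω y)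
    (Q := Q) (fun ω ω' => by
      split_ifs with k
      · subst k; simp only [sq, row ω, sub_add_cancel]
      · rw [hL ω ω' k, zero_add]) col row sq (fun u hu v hv => by
      split_ifs with k
      · subst k; simp [sq, col u hu, sp2b, h.bb]
      rcases eq_zero_or_one_of_card h.hq (P.B u v) with e | e
      · obtain ⟨g, rfl, rfl⟩ := sp2_witt h hx y0 xy' (ms.1 hu) (ms.1 hv) k (e.trans xy.symm)
        simp [invM, sp2b, e]
      · obtain ⟨g, rfl, rfl⟩ := sp2_witt h hx z0 xz' (ms.1 hu) (ms.1 hv) k (e.trans xz.symm)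
        simp [invM, sp2b, e]) sp2b_symm hB (fun u hu v hv => by
      split_ifs with k
      · subst k
        rw [← two_mul, ← hB u hu]
        exact Finset.sum_congr rfl fun w _ => by unfold sp2b; split_ifs <;> simp
      · have := sp2b_sum2 h (ms.1 hu) (ms.1 hv) k
        rw [Finset.sum_erase _ (by rw [b0, zero_mul])]
        linarith) (by rw [← hV']; exact_mod_cast Finset.card_erase_add_one (Finset.mem_univ _))
    (ms.2 hx) (ms.2 y0) (ms.2 z0) xy' xz' (fun v => by simp [sp2b, h.bb]) (by simp [sp2b, xy]) (by simp [sp2b, xz])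
    (fun e => el_not_center h.hR (h.pt x₁) hx₁ (h.hΛ 1) one_ne_zero (H.ker _ fun a => by
      by_contra k
      have k3 : a₁ ≠ a := fun e => k (e ▸ ha₁)
      rw [← row a₁, ← hL a₁ a k3, ← Finset.sum_sub_distrib, Finset.sum_eq_zero_iff_of_nonneg fun v _ => by
        simp only [i]; split_ifs <;> simp] at e
      simpa [i, ha₁, k] using e x₁ (ms.2 hx₁)))
    (by rw [← Nat.card_eq_fintype_card]; omega) ω₀
  rw [← Nat.card_eq_fintype_card] at key
  rcases key with e | e | e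
  · have := Finset.card_erase_add_one (Finset.mem_univ (0 : V))
    rw [Finset.card_univ, ← Nat.card_eq_fintype_card, hV, ← Int.natCast_inj.1 e] at this
    omega
  · exact Or.inl (by exact_mod_cast e)
  · exact Or.inr (by zify [show 1 ≤ 2 * Q by omega]; exact e)

end abstract

variable {F : Type} [Field F] [Fintype F] {Ω : Type*}

theorem sp2 {m : ℕ} (hm : 3 ≤ m) (hq : Fintype.card F = 2) [MulAction (PSp m F) Ω] (H : TwoTr (PSp m F) Ω)
    (hp : 2 ∣ Nat.card Ω) :
    Nat.card Ω = 2 ^ (m - 1) * (2 ^ m + 1) ∨ Nat.card Ω = 2 ^ (m - 1) * (2 ^ m - 1) := by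
  have := Agent.S0270.result (F := F) m (by omega) (by omega)
  obtain ⟨_, H', -⟩ := H.exists_lift (K := (ctxOf (spPQ_nondeg (Fin m) F) (rootGroup_sp m)).K) (spEquiv (Fin m) F)
  have hF : Nat.card F = 1 + 1 := by rw [Nat.card_eq_fintype_card, hq]
  have low := H.le_card (Agent.S2142.result hq m hm).1
  obtain ⟨k, rfl⟩ : ∃ k, m = k + 1 := ⟨m - 1, by omega⟩
  rw [Nat.add_sub_cancel, pow_succ'] at low ⊢
  exact sp2_main (sp_SH' (by omega) hF H') H' (by simp [Nat.card_fun, hq]; ring)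
    (Nat.pow_le_pow_right two_pos (show 2 ≤ k by omega))
    (fun e => absurd (Nat.prime_three.dvd_of_dvd_pow e) (by norm_num)) low hp

end CfsgLib.CKS
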