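import Mathlib
import Cfsg.Agent.Lib.CKS.Abs2
import Cfsg.Agent.Lib.CKS.Abs3
import Cfsg.Agent.Lib.Sz.CharTable
import Cfsg.Agent.Lib.Sz.Models

/-! CKS, package SZ. -/

namespace CfsgLib.CKS
open Cfsg MulAction

variable {F : Type} [Field F] [Fintype F] {Ω : Type*}

theorem sz_odd {m : ℕ} {k u c : ℤ} (hk : k = 2 ^ m) (hu : Odd u) (h : u ∣ (2 * k ^ 2) ^ 2 * c) (hc : 0 < c) :
    u ≤ c := by
  have h1 : IsCoprime u 2 := Int.isCoprime_two_right.2 hu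
  have h2 : (2 * k ^ 2) ^ 2 = 2 ^ (4 * m + 2) := by rw [hk]; ring
  exact Int.le_of_dvd hc ((h2 ▸ h1.pow_right).dvd_of_dvd_mul_left h)

theorem sz_arith {m : ℕ} {k n : ℤ} (hm : 1 ≤ m) (hk : k = 2 ^ m) (hn : 3 ≤ n)
    (h : n * (n - 1) ∣ (2 * k ^ 2) ^ 2 * ((2 * k ^ 2) ^ 2 + 1) * (2 * k ^ 2 - 1))
    (hd : n - 1 = 1 ∨ n - 1 = (2 * k ^ 2) ^ 2 ∨ n - 1 = k * (2 * k ^ 2 - 1) ∨ n - 1 = (2 * k ^ 2) ^ 2 + 1 ∨
      n - 1 = (2 * k ^ 2 - 1) * (2 * k ^ 2 - 2 * k + 1) ∨ n - 1 = (2 * k ^ 2 - 1) * (2 * k ^ 2 + 2 * k + 1)) :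
    n = (2 * k ^ 2) ^ 2 + 1 := by
  obtain ⟨j, hj⟩ : ∃ j : ℤ, k = 2 * j ∧ 1 ≤ j := by
    obtain ⟨m, rfl⟩ := Nat.exists_eq_add_of_le hm
    exact ⟨2 ^ m, by rw [hk]; ring, one_le_pow₀ one_le_two⟩
  have k2 : 2 ≤ k := by omega
  have a1 : 0 < 2 * k ^ 2 - 1 := by nlinarith
  have a2 : 0 < 2 * k ^ 2 - 2 * k + 1 := by nlinarith
  have a3 : 0 < 2 * k ^ 2 + 2 * k + 1 := by nlinarith
  rcases hd with e | e | e | e | e | e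
  · omega
  · omega
  · exfalso
    rw [e, ← mul_assoc] at h
    have h1 := (Dvd.intro _ rfl : n ∣ n * k).trans (Int.dvd_of_mul_dvd_mul_right a1.ne' h)
    have ho : Odd n := ⟨j * (2 * k ^ 2 - 1), by rw [← sub_eq_iff_eq_add, e, hj.1]; ring⟩
    have h2 : n ∣ (2 * k ^ 2) ^ 2 * (2 * k ^ 2 - 2 * k + 1) := by
      have := (dvd_sub_left (Dvd.intro_left ((2 * k ^ 2) ^ 2 * (2 * k)) rfl : n ∣ _ * n)).2 h1
      refine this.trans (dvd_of_eq ?_)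
      rw [eq_add_of_sub_eq e]; ring
    have := sz_odd hk ho h2 a2
    nlinarith
  · exfalso
    rw [e, mul_right_comm] at h
    have h1 := Int.dvd_of_mul_dvd_mul_right (by positivity) h
    have h2 : 2 * k ^ 4 + 1 ∣ n := ⟨2, by rw [eq_add_of_sub_eq e]; ring⟩
    have := sz_odd hk ⟨k ^ 4, rfl⟩ (h2.trans h1) a1
    nlinarith
  · exfalso
    have h1 : n ∣ (2 * k ^ 2) ^ 2 * (2 * k ^ 2 + 2 * k + 1) := by
      refine Int.dvd_of_mul_dvd_mul_right (mul_pos a1 a2).ne' ?_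
      rw [e] at h
      convert h using 1
      ring
    have h2 : 2 * (k ^ 3 - k ^ 2) + 1 ∣ n := ⟨2 * k, by rw [eq_add_of_sub_eq e]; ring⟩
    rcases k2.eq_or_lt with rfl | k3
    · have := h2.trans h1
      norm_num at this
    · have := sz_odd hk ⟨_, rfl⟩ (h2.trans h1) a3
      nlinarith
  · exfalso
    have h1 : n ∣ (2 * k ^ 2) ^ 2 * (2 * k ^ 2 - 2 * k + 1) := by
      refine Int.dvd_of_mul_dvd_mul_right (mul_pos a1 a3).ne' ?_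
      rw [e] at h
      convert h using 1
      ring
    have h2 : 2 * (k ^ 3 + k ^ 2 - 1) + 1 ∣ n := ⟨2 * k, by rw [eq_add_of_sub_eq e]; ring⟩
    have := sz_odd hk ⟨_, rfl⟩ (h2.trans h1) a2
    nlinarith

theorem sz {m : ℕ} (hm : 1 ≤ m) (hF : Fintype.card F = 2 ^ (2 * m + 1)) [MulAction (Lie.Sz F (2 ^ (m + 1))) Ω]
    (H : TwoTr (Lie.Sz F (2 ^ (m + 1))) Ω) : Nat.card Ω = Fintype.card F ^ 2 + 1 := by
  have hF' : Nat.card F = 2 ^ (2 * m + 1) := Nat.card_eq_fintype_card.trans hF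
  have h1 := H.mul_pred_dvd.trans (Subgroup.index_dvd_card _)
  have := H.finite
  obtain ⟨ρ, hρ⟩ := H.exists_rep
  have h2 : ∃ χ, IsIrrCharacter (Lie.Sz F (2 ^ (m + 1))) χ ∧ χ 1 = (Nat.card Ω - 1 : ℕ) :=
    ⟨_, ⟨_, ρ, hρ, rfl⟩, by simp⟩
  have h3 := H.big
  generalize Nat.card Ω = n at *
  rw [Sz.lieSz_eq hF] at h1 h2
  rw [Sz.Tits.card_grp, hF'] at h1
  rw [Sz.Tits.exists_irr_degree_iff hm hF', hF'] at h2
  have e1 : 2 ^ (2 * m + 1) = 2 * (2 ^ m) ^ 2 := by ring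
  have e2 : 2 ^ (m + 1) = 2 * 2 ^ m := by ring
  rw [hF]
  rw [e1] at h1 h2 ⊢
  rw [e2] at h2
  have e3 : 1 ≤ 2 ^ m := Nat.one_le_two_pow
  have e4 : 2 * 2 ^ m ≤ 2 * (2 ^ m) ^ 2 := by nlinarith
  have e5 : 1 ≤ 2 * (2 ^ m) ^ 2 := by omega
  have e6 : 1 ≤ n := by omega
  zify [e4, e5, e6] at h1 h2 h3 ⊢
  exact sz_arith hm rfl h3 h1 h2

end CfsgLib.CKS
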